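import Cfsg.Agent.H50.M22Outer.ChainData

/-! The orbit chain `chainAB` passes its check. -/

set_option autoImplicit false
set_option maxRecDepth 100000

namespace Cfsg.Agent.H50.M22Outer

theorem lvlAB0_ok : lvlOK wordAB [] lvlAB0 = true := by decide +kernel

theorem lvlAB1_ok : lvlOK wordAB [lvlAB0] lvlAB1 = true := by decide +kernel

theorem lvlAB2_ok : lvlOK wordAB [lvlAB1,lvlAB0] lvlAB2 = true := by decide +kernel

theorem lvlAB3_ok : lvlOK wordAB [lvlAB2,lvlAB1,lvlAB0] lvlAB3 = true := by decide +kernel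

theorem lvlAB4_ok : lvlOK wordAB [lvlAB3,lvlAB2,lvlAB1,lvlAB0] lvlAB4 = true := by decide +kernel

theorem lvlAB5_ok : lvlOK wordAB [lvlAB4,lvlAB3,lvlAB2,lvlAB1,lvlAB0] lvlAB5 = true := by decide +kernel

theorem lvlAB6_ok : lvlOK wordAB [lvlAB5,lvlAB4,lvlAB3,lvlAB2,lvlAB1,lvlAB0] lvlAB6 = true := by decide +kernel

theorem lvlAB7_ok : lvlOK wordAB [lvlAB6,lvlAB5,lvlAB4,lvlAB3,lvlAB2,lvlAB1,lvlAB0] lvlAB7 = true := by decide +kernel

theorem lvlAB8_ok : lvlOK wordAB [lvlAB7,lvlAB6,lvlAB5,lvlAB4,lvlAB3,lvlAB2,lvlAB1,lvlAB0] lvlAB8 = true := by decide +kernel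

theorem chainAB_ok : chainOK wordAB [] chainAB = true := by
  simp only [chainAB, chainOK, lvlAB0_ok, lvlAB1_ok, lvlAB2_ok, lvlAB3_ok, lvlAB4_ok, lvlAB5_ok, lvlAB6_ok, lvlAB7_ok, lvlAB8_ok, Bool.and_self]

end Cfsg.Agent.H50.M22Outer
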