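import Cfsg.Agent.H50.M22Outer.ChainData

/-! The orbit chain `chainS` passes its check. -/

set_option autoImplicit false
set_option maxRecDepth 100000

namespace Cfsg.Agent.H50.M22Outer

theorem lvlS0_ok : lvlOK [] [] lvlS0 = true := by decide +kernel

theorem lvlS1_ok : lvlOK [] [lvlS0] lvlS1 = true := by decide +kernel

theorem lvlS2_ok : lvlOK [] [lvlS1,lvlS0] lvlS2 = true := by decide +kernel

theorem lvlS3_ok : lvlOK [] [lvlS2,lvlS1,lvlS0] lvlS3 = true := by decide +kernel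

theorem lvlS4_ok : lvlOK [] [lvlS3,lvlS2,lvlS1,lvlS0] lvlS4 = true := by decide +kernel

theorem lvlS5_ok : lvlOK [] [lvlS4,lvlS3,lvlS2,lvlS1,lvlS0] lvlS5 = true := by decide +kernel

theorem lvlS6_ok : lvlOK [] [lvlS5,lvlS4,lvlS3,lvlS2,lvlS1,lvlS0] lvlS6 = true := by decide +kernel

theorem lvlS7_ok : lvlOK [] [lvlS6,lvlS5,lvlS4,lvlS3,lvlS2,lvlS1,lvlS0] lvlS7 = true := by decide +kernel

theorem lvlS8_ok : lvlOK [] [lvlS7,lvlS6,lvlS5,lvlS4,lvlS3,lvlS2,lvlS1,lvlS0] lvlS8 = true := by decide +kernel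

theorem lvlS9_ok : lvlOK [] [lvlS8,lvlS7,lvlS6,lvlS5,lvlS4,lvlS3,lvlS2,lvlS1,lvlS0] lvlS9 = true := by decide +kernel

theorem chainS_ok : chainOK [] [] chainS = true := by
  simp only [chainS, chainOK, lvlS0_ok, lvlS1_ok, lvlS2_ok, lvlS3_ok, lvlS4_ok, lvlS5_ok, lvlS6_ok, lvlS7_ok, lvlS8_ok, lvlS9_ok, Bool.and_self]

end Cfsg.Agent.H50.M22Outer
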