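import Cfsg.Agent.H50.M22Outer.Fixed
import Cfsg.Agent.H50.M22Outer.ClassData
import Cfsg.Agent.H89.M22.AutBound

/-!
Every outer involution of Fi22 is conjugate to one of three.
-/

set_option autoImplicit false
set_option maxRecDepth 100000

namespace Cfsg.Agent.H50.M22Outer

open Cfsg.Spor Cfsg.Agent.H16 EnumData
open Cfsg.Agent.H16.Fi22U (el)
open Cfsg.Agent.H89.Fi22Type (mem)

/-! ### The search -/

/-- the extensions of prefixes by further digits -/
noncomputable def cands (a d : Nat) (cur : List Nat) : List Nat :=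
  cur.flatMap fun u => (List.range (2 ^ d)).map fun e => u + 2 ^ a * e

/-- the candidates with code zero -/
noncomputable def keep (cs codes : List Nat) : List Nat :=
  (cs.zip codes).filterMap fun z => cond (Nat.beq z.2 0) (some z.1) none

/-- the check of a stage: the points below `off` are fixed by the later generators, and each
discarded candidate fails at its point -/
noncomputable def stageOK (b off : Nat) (cs codes : List Nat) : Bool :=
  Nat.beq codes.length cs.length &&
  allFrom (fun v => forceNat v fun v => Nat.ble (qp v + 1) off &&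
    allFrom (fun j => Nat.ble (tq j v + 1) off && (Nat.ble (j + 1) b || Nat.beq (tq j v) v)) 17 0) off 0 &&
  (cs.zip codes).all fun z => Nat.beq z.2 0 ||
    forceNat (z.2 - 1) fun v => forceNat z.1 fun y =>
      Nat.ble (v + 1) off && !(Nat.beq (qN (qp (ap y (qp (ap y v))))) (qN v))

/-- the survivors of the stages -/
noncomputable def surv1 : List Nat := keep (cands 0 1 [0]) stage0
/-- the survivors of the stages -/
noncomputable def surv2 : List Nat := keep (cands 1 2 surv1) stage1
/-- the survivors of the stages -/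
noncomputable def surv3 : List Nat := keep (cands 3 4 surv2) stage2
/-- the survivors of the stages -/
noncomputable def surv4 : List Nat := keep (cands 7 5 surv3) stage3
/-- the survivors of the stages -/
noncomputable def surv5 : List Nat := keep (cands 12 3 surv4) stage4
/-- the survivors of the stages -/
noncomputable def surv6 : List Nat := keep (cands 15 2 surv5) stage5

theorem stage0_ok : stageOK 1 2 (cands 0 1 [0]) stage0 = true := by decide +kernel
theorem stage1_ok : stageOK 3 6 (cands 1 2 surv1) stage1 = true := by decide +kernel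
theorem stage2_ok : stageOK 7 22 (cands 3 4 surv2) stage2 = true := by decide +kernel
theorem stage3_ok : stageOK 12 54 (cands 7 5 surv3) stage3 = true := by decide +kernel
theorem stage4_ok : stageOK 15 182 (cands 12 3 surv4) stage4 = true := by decide +kernel
theorem stage5_ok : stageOK 17 438 (cands 15 2 surv5) stage5 = true := by decide +kernel

/-- the digits of a twisted involution -/
noncomputable def invX (j : Nat) : Nat := bitField (invArr.get 44 j) 0 17
/-- the generator leading to it -/
noncomputable def invG (j : Nat) : Nat := bitField (invArr.get 44 j) 17 5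
/-- the parent, or the root number -/
noncomputable def invP (j : Nat) : Nat := bitField (invArr.get 44 j) 22 12
/-- the depth -/
noncomputable def invD (j : Nat) : Nat := bitField (invArr.get 44 j) 34 10

theorem list_check : (Nat.ble surv6.length 2880 &&
    surv6.zipIdx.all fun z => Nat.beq (invX z.2) z.1) = true := by
  decide +kernel

/-- the targets -/
def target (k : Nat) : List Nat := if k = 0 then [] else if k = 1 then wordA else wordAB

/-- the check of an edge or of a root -/
noncomputable def edgeOK (j : Nat) : Bool :=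
  forceNat j fun j => forceNat (invX j) fun z => forceNat (invG j) fun g => forceNat (invP j) fun par =>
  cond (Nat.beq g 31)
    (Nat.ble (par + 1) rootList.length &&
      (okW (rootList.getD par (0, [])).2 &&
        sameW ((rootList.getD par (0, [])).2.reverse ++ wd 17 0 z ++ sw (rootList.getD par (0, [])).2)
          (target (rootList.getD par (0, [])).1)))
    (Nat.ble (g + 1) 17 && Nat.ble (par + 1) 2880 && Nat.ble (invD par + 1) (invD j) &&
      forceNat (invX par) fun y => allFrom (fun i => forceNat (probe i) fun P =>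
        Nat.beq (qN (ap z P)) (qN (qp (tq g (qp (ap y (tqi g P))))))) 17 0)

theorem edge_check0 : allFrom edgeOK 1440 0 = true := by decide +kernel

theorem edge_check1 : allFrom edgeOK 1440 1440 = true := by decide +kernel

theorem edge_ok {j : Nat} (hj : j < 2880) : edgeOK j = true := by
  by_cases h : j < 1440
  · exact allFrom_spec edge_check0 j (Nat.zero_le _) (by omega)
  · exact allFrom_spec edge_check1 j (by omega) (by omega)

/-! ### Soundness of the search -/

theorem apA_high {b off : Nat}
    (hb : ∀ v < off, ∀ j < 17, b ≤ j → tq j v = v) : ∀ k i x v, i + k = 17 → b ≤ i → v < off →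
      apA k i x v = v
  | 0, _, _, _, _, _, _ => rfl
  | k + 1, i, x, v, hk, hi, hv => by
    rw [apA_succ, apA_high hb k (i + 1) (x / 2) v (by omega) (by omega) hv]
    split
    · exact hb v hv i (by omega) hi
    · rfl

theorem apA_low {b off : Nat} (hb : ∀ v < off, ∀ j < 17, b ≤ j → tq j v = v)
    (hr : ∀ v < off, ∀ j < 17, tq j v < off) : ∀ k i x v, i + k = 17 → v < off →
      apA k i x v = apA k i (x % 2 ^ (b - i)) v ∧ apA k i x v < off
  | 0, i, x, v, _, hv => ⟨rfl, hv⟩
  | k + 1, i, x, v, hk, hv => by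
    by_cases hi : b ≤ i
    · rw [apA_high hb (k + 1) i x v hk hi hv, apA_high hb (k + 1) i _ v hk hi hv]
      exact ⟨rfl, hv⟩
    · obtain ⟨h1, h2⟩ := apA_low hb hr k (i + 1) (x / 2) v (by omega) hv
      have e : b - i = (b - (i + 1)) + 1 := by omega
      have e1 : x % 2 ^ (b - i) % 2 = x % 2 :=
        Nat.mod_mod_of_dvd x (dvd_pow_self 2 (by omega))
      have e2 : x % 2 ^ (b - i) / 2 = x / 2 % 2 ^ (b - (i + 1)) := by
        rw [e, pow_succ', Nat.mod_mul_right_div_self]
      rw [apA_succ, apA_succ, e1, e2, ← h1]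
      refine ⟨rfl, ?_⟩
      split
      · exact hr _ h2 i (by omega)
      · exact h2

/-- twisted involution -/
def IsTw (x : Nat) : Prop := sigma (nf x) * nf x = 1

theorem tw_point {x : Nat} (h : IsTw x) {v : Nat} (hv : v < 438) :
    qN (qp (ap x (qp (ap x v)))) = qN v := by
  obtain ⟨h1, e1⟩ := ap_spec x hv
  obtain ⟨h2, e2⟩ := ap_spec x (table_spec h1).2.2.1
  have e : Fi22U.act (sigma (nf x) * nf x) (qPt hv) = qPt hv := by rw [h]; simp
  rw [map_mul, Equiv.Perm.mul_apply, e1, ← piP_piP (qPt h1), ← pi_act, piP_qPt, e2, piP_qPt] at e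
  exact congrArg Fin.val e

theorem stage_step {a d b off : Nat} (hab : b = a + d) (hoff : off ≤ 438)
    {cur codes : List Nat} (h : stageOK b off (cands a d cur) codes = true) {x : Nat} (hx : IsTw x)
    (hmem : x % 2 ^ a ∈ cur) : x % 2 ^ b ∈ keep (cands a d cur) codes := by
  simp only [stageOK, Bool.and_eq_true, List.all_eq_true] at h
  obtain ⟨⟨hlen, hr⟩, hall⟩ := h
  have hr' : ∀ v < off, qp v < off ∧ (∀ j < 17, tq j v < off) ∧ ∀ j < 17, b ≤ j → tq j v = v := by
    intro v hv
    have h1 := allFrom_spec hr v (Nat.zero_le _) (by omega)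
    simp only [forceNat_eq, Bool.and_eq_true] at h1
    have h2 : ∀ j < 17, tq j v < off ∧ (b ≤ j → tq j v = v) := fun j hj => by
      have h3 := allFrom_spec h1.2 j (Nat.zero_le _) (by omega)
      simp only [Bool.and_eq_true, Bool.or_eq_true] at h3
      refine ⟨Nat.le_of_ble_eq_true h3.1, fun hbj => ?_⟩
      rcases h3.2 with h4 | h4
      · exact absurd (Nat.le_of_ble_eq_true h4) (by omega)
      · exact Nat.eq_of_beq_eq_true h4
    exact ⟨Nat.le_of_ble_eq_true h1.1, fun j hj => (h2 j hj).1, fun j hj => (h2 j hj).2⟩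
  have hc : x % 2 ^ b ∈ cands a d cur := by
    refine List.mem_flatMap.2 ⟨_, hmem, List.mem_map.2 ⟨x / 2 ^ a % 2 ^ d,
      List.mem_range.2 (Nat.mod_lt _ (Nat.two_pow_pos d)), ?_⟩⟩
    rw [hab, pow_add, Nat.mod_mul]
  obtain ⟨k, hk, hkx⟩ := List.getElem_of_mem hc
  have hk2 : k < codes.length := by rw [Nat.eq_of_beq_eq_true hlen]; exact hk
  have hz : ((cands a d cur)[k], codes[k]) ∈ (cands a d cur).zip codes :=
    List.mem_iff_getElem.2
      ⟨k, by rw [List.length_zip]; exact Nat.lt_min.2 ⟨hk, hk2⟩, List.getElem_zip⟩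
  refine List.mem_filterMap.2 ⟨_, hz, ?_⟩
  have h' := hall _ hz
  simp only [forceNat_eq, Bool.or_eq_true, Bool.and_eq_true, Bool.not_eq_true'] at h'
  rcases h' with h' | ⟨hv, hf⟩
  · simp only [h', cond_true, hkx]
  · exfalso
    rw [hkx] at hf
    have hv' := Nat.le_of_ble_eq_true hv
    have key : ∀ v < off, ap x v = ap (x % 2 ^ b) v ∧ ap x v < off := fun v hv => by
      have := apA_low (fun v hv => (hr' v hv).2.2) (fun v hv => (hr' v hv).2.1) 17 0 x v rfl hv
      rwa [Nat.sub_zero] at this
    obtain ⟨k1, k1'⟩ := key _ hv'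
    rw [← k1, ← (key _ (hr' _ k1').1).1, tw_point hx (lt_of_lt_of_le hv' hoff), Nat.beq_refl] at hf
    exact Bool.noConfusion hf

theorem exists_index {x : Nat} (hx : IsTw x) (hlt : x < 2 ^ 17) : ∃ j < 2880, invX j = x := by
  have h0 : x % 2 ^ 0 ∈ [0] := by simp [Nat.mod_one]
  have h1 := stage_step (b := 1) rfl (by norm_num) stage0_ok hx h0
  have h2 := stage_step (b := 3) rfl (by norm_num) stage1_ok hx h1
  have h3 := stage_step (b := 7) rfl (by norm_num) stage2_ok hx h2
  have h4 := stage_step (b := 12) rfl (by norm_num) stage3_ok hx h3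
  have h5 := stage_step (b := 15) rfl (by norm_num) stage4_ok hx h4
  have h6 := stage_step (b := 17) rfl le_rfl stage5_ok hx h5
  rw [Nat.mod_eq_of_lt hlt] at h6
  obtain ⟨j, hj, hjx⟩ := List.getElem_of_mem (show x ∈ surv6 from h6)
  have hl := list_check
  simp only [Bool.and_eq_true, List.all_eq_true] at hl
  refine ⟨j, lt_of_lt_of_le hj (Nat.le_of_ble_eq_true hl.1), ?_⟩
  have := hl.2 (surv6[j], j) (List.mem_iff_getElem.2 ⟨j, by simpa using hj, by simp⟩)
  exact (Nat.eq_of_beq_eq_true this).trans hjx

/-! ### Conjugacy -/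

/-- an outer element -/
noncomputable def outer (X : Fi22) : MulAut Fi22 := sigma * MulAut.conj X

theorem outer_apply (X g : Fi22) : outer X g = sigma (X * g * X⁻¹) := rfl

theorem isConj_twist (X Y : Fi22) : IsConj (outer X) (outer (sigma Y * X * Y⁻¹)) := by
  refine isConj_iff.2 ⟨MulAut.conj Y, mul_inv_eq_iff_eq_mul.2 (MulEquiv.ext fun g => ?_)⟩
  show Y * (sigma (X * g * X⁻¹)) * Y⁻¹ =
    sigma (sigma Y * X * Y⁻¹ * (Y * g * Y⁻¹) * (sigma Y * X * Y⁻¹)⁻¹)
  have e : sigma Y * X * Y⁻¹ * (Y * g * Y⁻¹) * (sigma Y * X * Y⁻¹)⁻¹ =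
      sigma Y * (X * g * X⁻¹) * (sigma Y)⁻¹ := by group
  rw [e]
  simp only [map_mul, map_inv, sigma_sigma]

/-- conjugate to one of the three -/
def Good (t : MulAut Fi22) : Prop := IsConj t (tau []) ∨ IsConj t (tau wordA) ∨ IsConj t (tau wordAB)

theorem Good.of_isConj {t u : MulAut Fi22} (h : Good u) (e : IsConj t u) : Good t := by
  rcases h with h | h | h
  · exact Or.inl (e.trans h)
  · exact Or.inr (Or.inl (e.trans h))
  · exact Or.inr (Or.inr (e.trans h))

theorem good_target (k : Nat) : Good (outer (el (target k))) := by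
  unfold target
  split
  · exact Or.inl (IsConj.refl _)
  · split
    · exact Or.inr (Or.inl (IsConj.refl _))
    · exact Or.inr (Or.inr (IsConj.refl _))

theorem okW_target (k : Nat) : okW (target k) = true := by
  unfold target
  split
  · rfl
  · split
    · exact okW_wordA
    · exact okW_wordAB

attribute [local irreducible] invX invG invP invD ap qN qp tq tqi probe wd basePts target okW sameW in
theorem good_step (j : Nat) (hj : j < 2880)
    (ih : ∀ par < 2880, invD par < invD j → Good (outer (nf (invX par)))) :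
    Good (outer (nf (invX j))) := by
  have h := edge_ok hj
  simp only [edgeOK, forceNat_eq] at h
  cases hg : Nat.beq (invG j) 31
  · rw [hg, cond_false] at h
    simp only [Bool.and_eq_true] at h
    obtain ⟨⟨⟨hg17, hpar⟩, hdep⟩, hprobe⟩ := h
    have hg' := Nat.le_of_ble_eq_true hg17
    have hpar' := Nat.le_of_ble_eq_true hpar
    have hE : sigma (pc (invG j)) * nf (invX (invP j)) * (pc (invG j))⁻¹ = nf (invX j) := by
      refine eq_of_probes (mul_mem (mul_mem (sigma_Ts (pc_mem (Nat.zero_le _) hg')) (nf_mem _))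
        (inv_mem (pc_mem (Nat.zero_le _) hg'))) (nf_mem _) fun i hi => ?_
      obtain ⟨h1, e1⟩ := ap_spec (invX j) (probe_lt hi)
      have hv := ((table_spec (probe_lt hi)).2.2.2 _ hg').2.1
      obtain ⟨h2, e2⟩ := ap_spec (invX (invP j)) hv
      rw [map_mul, map_mul, Equiv.Perm.mul_apply, Equiv.Perm.mul_apply, act_pc_inv hg', e2,
        ← piP_piP (qPt h2), ← pi_act, piP_qPt, act_pc hg', piP_qPt, e1]
      apply Fin.ext
      have := allFrom_spec hprobe i (Nat.zero_le _) (by omega)
      exact (Nat.eq_of_beq_eq_true this).symm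
    refine (ih _ hpar' (Nat.le_of_ble_eq_true hdep)).of_isConj ?_
    rw [← hE]
    exact (isConj_twist _ _).symm
  · rw [hg, cond_true] at h
    simp only [Bool.and_eq_true] at h
    obtain ⟨-, hok, hs⟩ := h
    set r := rootList.getD (invP j) (0, []) with hr
    have e := el_eq (okW_append.2 ⟨okW_append.2 ⟨okW_reverse.trans hok, okW_wd _ _ _⟩, okW_sw hok⟩)
      (okW_target r.1) hs
    rw [el_append, el_append, el_reverse, ← mul_assoc, ← sigma_el hok] at e
    have e' := isConj_twist (nf (invX j)) (el r.2)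
    rw [nf, e] at e'
    exact (good_target r.1).of_isConj e'

theorem good_inv : ∀ (d j : Nat), j < 2880 → invD j ≤ d → Good (outer (nf (invX j))) := by
  intro d
  induction d with
  | zero =>
    intro j hj hd
    exact good_step j hj fun par _ hlt => absurd hlt (by omega)
  | succ d ih =>
    intro j hj hd
    exact good_step j hj fun par hpar hlt => ih par hpar (by omega)

/-! ### Outer involutions -/

theorem conj_injective : Function.Injective (MulAut.conj : Fi22 →* MulAut Fi22) := by
  refine (injective_iff_map_eq_one _).2 fun g hg => ?_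
  have hc : g ∈ Subgroup.center Fi22 := Subgroup.mem_center_iff.2 fun y => by
    have h' : g * y * g⁻¹ = y := by rw [← MulAut.conj_apply, hg]; rfl
    exact (mul_inv_eq_iff_eq_mul.1 h').symm
  rwa [H89.Fi22Type.center_bot, Subgroup.mem_bot] at hc

theorem finite_aut : Finite (MulAut Fi22) := by
  haveI := H89.Fi22Type.finite_fi22
  exact Finite.of_injective (fun f : MulAut Fi22 => (f : Fi22 → Fi22))
    fun a b e => MulEquiv.ext (congrFun e)

theorem card_aut : Nat.card (MulAut Fi22) = 2 * Nat.card Fi22 := by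
  haveI := H89.Fi22Type.finite_fi22
  haveI := finite_aut
  refine le_antisymm (H89.M22.card_aut_le H89.Fi22Type.cls_class H89.Fi22Type.primitive
    H89.Fi22Type.isOfTypeM22) ?_
  let R := (MulAut.conj : Fi22 →* MulAut Fi22).range
  have hR : Nat.card R = Nat.card Fi22 :=
    (Nat.card_congr (MonoidHom.ofInjective conj_injective).toEquiv).symm
  rw [← R.card_mul_index, hR, mul_comm]
  have h1 : R.index ≠ 1 := fun h => sigma_not_inner (by
    rw [Subgroup.index_eq_one] at h
    show sigma ∈ R
    rw [h]; exact Subgroup.mem_top _)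
  have h0 : R.index ≠ 0 := Subgroup.FiniteIndex.index_ne_zero
  exact Nat.mul_le_mul_left _ (by omega)

theorem conj_mul_outer (X Y : Fi22) : MulAut.conj X * outer Y = outer (sigma X * Y) :=
  MulEquiv.ext fun g => by
    show X * sigma (Y * g * Y⁻¹) * X⁻¹ = sigma (sigma X * Y * g * (sigma X * Y)⁻¹)
    simp only [map_mul, map_inv, sigma_sigma, mul_inv_rev, mul_assoc]

theorem outer_mul_conj (X Y : Fi22) : outer X * MulAut.conj Y = outer (X * Y) := by
  rw [outer, outer, mul_assoc, ← map_mul]

theorem outer_mul_outer (X Y : Fi22) : outer X * outer Y = MulAut.conj (sigma X * Y) :=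
  MulEquiv.ext fun g => by
    show sigma (X * sigma (Y * g * Y⁻¹) * X⁻¹) = sigma X * Y * g * (sigma X * Y)⁻¹
    simp only [map_mul, map_inv, sigma_sigma, mul_inv_rev, mul_assoc]

/-- a Sylow 2-subgroup of the automorphism group -/
noncomputable def sylA : Subgroup (MulAut Fi22) where
  carrier := {f | ∃ X ∈ Ts 0, f = MulAut.conj X ∨ f = outer X}
  one_mem' := ⟨1, one_mem _, Or.inl (map_one _).symm⟩
  mul_mem' := by
    rintro f f' ⟨X, hX, rfl | rfl⟩ ⟨Y, hY, rfl | rfl⟩
    · exact ⟨_, mul_mem hX hY, Or.inl (map_mul _ _ _).symm⟩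
    · exact ⟨_, mul_mem (sigma_Ts hX) hY, Or.inr (conj_mul_outer X Y)⟩
    · exact ⟨_, mul_mem hX hY, Or.inr (outer_mul_conj X Y)⟩
    · exact ⟨_, mul_mem (sigma_Ts hX) hY, Or.inl (outer_mul_outer X Y)⟩
  inv_mem' := by
    rintro f ⟨X, hX, rfl | rfl⟩
    · exact ⟨_, inv_mem hX, Or.inl (map_inv _ _).symm⟩
    · refine ⟨(sigma X)⁻¹, inv_mem (sigma_Ts hX), Or.inr (inv_eq_of_mul_eq_one_right ?_)⟩
      rw [outer_mul_outer, mul_inv_cancel, map_one]

theorem outer_ne_conj (X Y : Fi22) : outer X ≠ MulAut.conj Y := by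
  intro h
  refine sigma_not_inner ⟨Y * X⁻¹, ?_⟩
  rw [map_mul, ← h, map_inv, outer, mul_inv_cancel_right]

theorem card_sylA : Nat.card sylA = 2 ^ 18 := by
  let f : Bool × Ts 0 → sylA := fun z =>
    ⟨cond z.1 (outer z.2) (MulAut.conj (z.2 : Fi22)), by
      cases z.1
      · exact ⟨_, z.2.2, Or.inl rfl⟩
      · exact ⟨_, z.2.2, Or.inr rfl⟩⟩
  have hf : Function.Bijective f := by
    constructor
    · rintro ⟨a, x⟩ ⟨b, y⟩ e
      have e' : cond a (outer (x : Fi22)) (MulAut.conj (x : Fi22)) =
          cond b (outer (y : Fi22)) (MulAut.conj (y : Fi22)) := congrArg Subtype.val e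
      cases a <;> cases b <;> simp only [cond_true, cond_false] at e'
      · rw [Subtype.ext (conj_injective e')]
      · exact absurd e'.symm (outer_ne_conj _ _)
      · exact absurd e' (outer_ne_conj _ _)
      · rw [Subtype.ext (conj_injective (mul_left_cancel e'))]
    · rintro ⟨g, X, hX, rfl | rfl⟩
      · exact ⟨(false, ⟨X, hX⟩), rfl⟩
      · exact ⟨(true, ⟨X, hX⟩), rfl⟩
  rw [← Nat.card_congr (Equiv.ofBijective f hf), Nat.card_prod, card_Ts 17 0 rfl,
    Nat.card_eq_fintype_card, Fintype.card_bool]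
  norm_num

/-- Every outer involution is conjugate to one of the three. -/
theorem classify (t : MulAut Fi22) (h2 : orderOf t = 2)
    (ht : t ∉ (MulAut.conj : Fi22 →* MulAut Fi22).range) : Good t := by
  haveI := H89.Fi22Type.finite_fi22
  haveI := finite_aut
  haveI : Fact (Nat.Prime 2) := ⟨Nat.prime_two⟩
  obtain ⟨P, hP⟩ := (IsPGroup.of_card (n := 18) card_sylA).exists_le_sylow
  have hPeq : sylA = (P : Subgroup (MulAut Fi22)) := by
    refine Subgroup.eq_of_le_of_card_ge hP ?_
    obtain ⟨m, hm⟩ := (IsPGroup.iff_card).1 P.2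
    rw [card_sylA, hm]
    refine Nat.pow_le_pow_right (by norm_num) ?_
    have hdvd : 2 ^ m ∣ 2 * 64561751654400 := by
      rw [← hm, ← Fi22Order.card_and_faithful.1, ← card_aut]
      exact Subgroup.card_subgroup_dvd_card _
    by_contra hc
    have : (2 : ℕ) ^ 19 ∣ 2 * 64561751654400 := (Nat.pow_dvd_pow 2 (by omega)).trans hdvd
    norm_num at this
  have htp : IsPGroup 2 (Subgroup.zpowers t) :=
    IsPGroup.of_card (n := 1) (by rw [Nat.card_zpowers, h2, pow_one])
  obtain ⟨Q, hQ⟩ := htp.exists_le_sylow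
  obtain ⟨c, hc⟩ := MulAction.exists_smul_eq (MulAut Fi22) Q P
  have hmem : c * t * c⁻¹ ∈ sylA := by
    rw [hPeq, ← hc, Sylow.coe_subgroup_smul]
    exact Subgroup.smul_mem_pointwise_smul t (MulAut.conj c) _ (hQ (Subgroup.mem_zpowers t))
  obtain ⟨X, hX, e | e⟩ := hmem
  · exfalso
    apply ht
    have hn : (MulAut.conj : Fi22 →* MulAut Fi22).range.Normal := by
      refine ⟨fun f hf u => ?_⟩
      obtain ⟨g, rfl⟩ := hf
      exact ⟨u g, MulEquiv.ext fun x => by
        show u g * x * (u g)⁻¹ = u (g * u⁻¹ x * g⁻¹)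
        rw [map_mul, map_mul, map_inv, MulAut.apply_inv_self]⟩
    have := hn.conj_mem _ ⟨X, rfl⟩ c⁻¹
    rw [← e] at this
    have e' : c⁻¹ * (c * t * c⁻¹) * c⁻¹⁻¹ = t := by group
    rwa [e'] at this
  · obtain ⟨x, hx, rfl⟩ := exists_nf 17 0 rfl X hX
    have htw : IsTw x := by
      refine conj_injective ?_
      rw [map_one, ← outer_mul_outer]
      show outer (el (wd 17 0 x)) * outer (el (wd 17 0 x)) = 1
      rw [← e]
      have ht2 : t * t = 1 := by rw [← pow_two, ← h2, pow_orderOf_eq_one]
      have : c * t * c⁻¹ * (c * t * c⁻¹) = c * (t * t) * c⁻¹ := by group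
      rw [this, ht2, mul_one, mul_inv_cancel]
    obtain ⟨j, hj, hjx⟩ := exists_index htw hx
    refine (good_inv (invD j) j hj le_rfl).of_isConj ?_
    rw [hjx, show nf x = el (wd 17 0 x) from rfl, ← e]
    exact isConj_iff.2 ⟨c, rfl⟩

end Cfsg.Agent.H50.M22Outer
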