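import Cfsg.Agent.H89.Fi22Type
import Cfsg.Agent.H50.M22Outer.SigmaData

/-!
The diagram symmetry of the presented group Fi22 as an automorphism, and its action on the
3510 transpositions.
-/

set_option autoImplicit false
set_option maxRecDepth 100000

namespace Cfsg.Agent.H50.M22Outer

open Cfsg.Spor Cfsg.Agent.H16 EnumData CoxEnum
open Cfsg.Agent.H16.Fi22U (el)
open Cfsg.Agent.H89.Fi22Type (mem)

/-- the points -/
abbrev Pt : Type := Fin Fi22H.data.n

/-- the run of a word -/
noncomputable abbrev run (w : List Nat) (i : Nat) : Nat := Fi22H.data.run w i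

/-- all letters of the word are generators -/
def okW (w : List Nat) : Bool := w.all fun g => Nat.ble (g + 1) 9

theorem okW_lt {w : List Nat} (h : okW w = true) : ∀ g ∈ w, g < 9 := fun g hg =>
  Nat.le_of_ble_eq_true (List.all_eq_true.1 h g hg)

theorem okW_append {u v : List Nat} : okW (u ++ v) = true ↔ okW u = true ∧ okW v = true := by
  simp [okW, List.all_append]

theorem act_val {w : List Nat} (h : okW w = true) (i : Pt) :
    ((Fi22U.act (el w) i : Pt) : Nat) = run w i :=
  Fi22U.act_el w (okW_lt h) i

theorem el_append (u v : List Nat) : el (u ++ v) = el v * el u := ev_append _ u v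

theorem el_nil : el [] = 1 := rfl

theorem el_reverse (w : List Nat) : el w.reverse = (el w)⁻¹ :=
  ev_reverse _ H4.ThreeTransp.Fi22.el_sq w

theorem okW_reverse {w : List Nat} : okW w.reverse = okW w := by
  simp [okW, List.all_reverse]

theorem act_injective : Function.Injective Fi22U.act := Fi22Order.card_and_faithful.2

/-- the base points -/
noncomputable def basePts : List Nat := allFixed Fi22H.base []

theorem basePts_lt : ∀ b ∈ basePts, b < Fi22H.data.n := by
  have h : (basePts.all fun b => Nat.ble (b + 1) Fi22H.data.n) = true := by decide +kernel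
  intro b hb
  exact Nat.le_of_ble_eq_true (List.all_eq_true.1 h b hb)

/-- An element fixing the base points is trivial. -/
theorem eq_one_of_base {g : Fi22} (h : ∀ i : Pt, (i : Nat) ∈ basePts → Fi22U.act g i = i) : g = 1 := by
  haveI := H89.Fi22Type.finite_fi22
  let M := Fi22H.theModel
  have hN : Nat.card Fi22 = 64561751654400 := Fi22Order.card_and_faithful.1
  have h1 := M.levelsProd_mul_le Fi22H.base [] Fi22H.base_ok
  rw [Fi22H.base_prod] at h1
  have h0 : Nat.card (M.fixer []) ≤ 64561751654400 := by
    rw [← hN, Nat.card_congr (MonoidHom.ofInjective act_injective).toEquiv]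
    exact Nat.card_le_card_of_injective (fun x => (⟨x.1, x.2.1⟩ : M.rho.range)) fun x y hxy => by
      have h2 := congrArg Subtype.val hxy
      exact Subtype.ext h2
  have hone : Nat.card (M.fixer basePts) ≤ 1 :=
    Nat.le_of_mul_le_mul_left (by rw [mul_one]; exact h1.trans h0) (by norm_num)
  haveI : Subsingleton (M.fixer basePts) := Finite.card_le_one_iff_subsingleton.mp hone
  have hm : Fi22U.act g ∈ M.fixer basePts := ⟨⟨g, rfl⟩, fun i hi => h i hi⟩
  apply act_injective
  rw [map_one]
  exact congrArg Subtype.val (Subsingleton.elim (⟨_, hm⟩ : M.fixer basePts) 1)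

theorem eq_of_base {g g' : Fi22} (h : ∀ i : Pt, (i : Nat) ∈ basePts → Fi22U.act g i = Fi22U.act g' i) : g = g' := by
  refine (inv_mul_eq_one.1 (eq_one_of_base fun i hi => ?_)).symm
  rw [map_mul, map_inv, Equiv.Perm.mul_apply, h i hi, Equiv.Perm.inv_eq_iff_eq]

/-- the two words Fi22U.act alike on the base points -/
noncomputable def sameW (u v : List Nat) : Bool :=
  basePts.all fun b => Nat.beq (run u b) (run v b)

theorem el_eq {u v : List Nat} (hu : okW u = true) (hv : okW v = true) (h : sameW u v = true) :
    el u = el v :=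
  eq_of_base fun i hi => Fin.ext (by
    rw [act_val hu, act_val hv]
    exact Nat.eq_of_beq_eq_true (List.all_eq_true.1 h _ hi))

theorem el_ne {u v : List Nat} {p : Nat} (hp : p < Fi22H.data.n) (hu : okW u = true) (hv : okW v = true)
    (h : Nat.beq (run u p) (run v p) = false) : el u ≠ el v := by
  intro e
  have := act_val hu ⟨p, hp⟩
  rw [e, act_val hv] at this
  simp only at this
  rw [this, Nat.beq_refl] at h
  exact Bool.noConfusion h

/-! ### The symmetry -/

/-- the diagram symmetry on the generator numbers -/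
def swp (g : Nat) : Nat := if g < 7 then 6 - g else g

/-- the diagram symmetry on words -/
def sw (w : List Nat) : List Nat := w.map swp

theorem okW_sw {w : List Nat} (h : okW w = true) : okW (sw w) = true := by
  refine List.all_eq_true.2 fun g hg => ?_
  obtain ⟨k, hk, rfl⟩ := List.mem_map.1 hg
  have := okW_lt h k hk
  refine Nat.ble_eq_true_of_le ?_
  unfold swp
  split <;> omega

theorem sw_sw (w : List Nat) (h : okW w = true) : sw (sw w) = w := by
  rw [sw, sw, List.map_map]
  conv_rhs => rw [← List.map_id w]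
  refine List.map_congr_left fun g hg => ?_
  have := okW_lt h g hg
  simp only [Function.comp, swp, id]
  split
  · rw [if_pos (by omega)]; omega
  · rfl

/-- the images of the generators -/
noncomputable def fgen (x : Fi22.Gen) : Fi22 := el [swp (Fi22H.gens.idxOf x)]

theorem el_single_sq (g : Nat) : el [g] * el [g] = 1 := by
  rw [H4.ThreeTransp.Fi22.el_single, H4.ThreeTransp.Fi22.el_sq]

theorem ev_fgen : ∀ w : List Nat, okW w = true → ev (numGen Fi22H.gens fgen) w = el (sw w)
  | [], _ => rfl
  | g :: w, h => by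
    have hw : g < 9 ∧ okW w = true := by
      simpa [okW] using h
    rw [ev, ev_fgen w hw.2]
    show _ = el ([swp g] ++ sw w)
    rw [el_append]
    congr 1
    have : ∀ g < 9, ∃ x, Fi22H.gens[g]? = some x ∧ Fi22H.gens.idxOf x = g := by decide
    obtain ⟨x, hx, hi⟩ := this g hw.1
    simp [numGen, hx, fgen, hi]

theorem cox_check : ((Fi22H.gens.all fun x => Fi22H.gens.all fun y =>
    okW (pairWord Fi22H.gens Fi22.edges x y) &&
      sameW (sw (pairWord Fi22H.gens Fi22.edges x y)) [])) = true := by decide +kernel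

theorem extra_check : (Fi22H.extraWords.all fun w => okW w && sameW (sw w) []) = true := by
  decide +kernel

theorem fgen_rel : ∀ r ∈ coxRelators Fi22.edges ∪ {r | r ∈ Fi22.extra}, FreeGroup.lift fgen r = 1 := by
  rintro r (⟨x, -, y, -, rfl⟩ | hr)
  · have h := List.all_eq_true.1 (List.all_eq_true.1 cox_check x (Fi22H.mem_gens x).1) y
      (Fi22H.mem_gens y).1
    rw [Bool.and_eq_true] at h
    rw [map_pow, map_mul, FreeGroup.lift_apply_of, FreeGroup.lift_apply_of,
      ← ev_pairWord fgen (Fi22H.mem_gens x).1 (Fi22H.mem_gens y).1, ev_fgen _ h.1,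
      el_eq (okW_sw h.1) rfl h.2]
    rfl
  · obtain ⟨k, hk, rfl⟩ := List.getElem_of_mem hr
    have h2 := Fi22H.presCheck.extra_ok
    have hk' : k < Fi22H.extraWords.length := h2.length_eq ▸ hk
    have h3 := ((List.forall₂_iff_get.1 h2).2 k hk hk').2 fgen (fun x => el_single_sq _)
    simp only [List.get_eq_getElem] at h3
    rw [h3]
    have h := List.all_eq_true.1 extra_check _ (List.getElem_mem hk')
    rw [Bool.and_eq_true] at h
    rw [ev_fgen _ h.1, el_eq (okW_sw h.1) rfl h.2]
    rfl

/-- the symmetry as an endomorphism -/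
noncomputable def sigHom : Fi22 →* Fi22 := PresentedGroup.toGroup fgen_rel

theorem sigHom_el : ∀ w : List Nat, okW w = true → sigHom (el w) = el (sw w)
  | [], _ => map_one _
  | g :: w, h => by
    have hw : g < 9 ∧ okW w = true := by simpa [okW] using h
    show sigHom (el ([g] ++ w)) = el ([swp g] ++ sw w)
    rw [el_append, el_append, map_mul, sigHom_el w hw.2]
    congr 1
    have : ∀ g < 9, ∃ x, Fi22H.gens[g]? = some x ∧ Fi22H.gens.idxOf x = g := by decide
    obtain ⟨x, hx, hi⟩ := this g hw.1
    have e : el [g] = PresentedGroup.of x := by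
      rw [H4.ThreeTransp.Fi22.el_single]
      simp [Fi22H.val, numGen, hx]
    rw [e, sigHom, PresentedGroup.toGroup.of, fgen, hi]

theorem exists_word (g : Fi22) : ∃ w, okW w = true ∧ el w = g := by
  have hg : g ∈ Subgroup.closure (Set.range Fi22H.val) := by
    rw [Fi22H.theModel.gen_closure]; exact Subgroup.mem_top g
  induction hg using Subgroup.closure_induction with
  | one => exact ⟨[], rfl, rfl⟩
  | mem x hx =>
    obtain ⟨k, rfl⟩ := hx
    by_cases hk : k < 9
    · exact ⟨[k], by simp [okW]; omega, H4.ThreeTransp.Fi22.el_single k⟩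
    · exact ⟨[], rfl, (Fi22H.theModel.outside k (Nat.le_of_not_lt hk)).symm⟩
  | mul x y _ _ hx hy =>
    obtain ⟨u, hu, rfl⟩ := hx
    obtain ⟨v, hv, rfl⟩ := hy
    exact ⟨v ++ u, okW_append.2 ⟨hv, hu⟩, el_append v u⟩
  | inv x _ hx =>
    obtain ⟨u, hu, rfl⟩ := hx
    exact ⟨u.reverse, okW_reverse.trans hu, el_reverse u⟩

theorem sigHom_sigHom (g : Fi22) : sigHom (sigHom g) = g := by
  obtain ⟨w, hw, rfl⟩ := exists_word g
  rw [sigHom_el w hw, sigHom_el _ (okW_sw hw), sw_sw w hw]

/-- the symmetry -/
noncomputable def sigma : MulAut Fi22 where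
  toFun := sigHom
  invFun := sigHom
  left_inv := sigHom_sigHom
  right_inv := sigHom_sigHom
  map_mul' := map_mul sigHom

theorem sigma_el {w : List Nat} (h : okW w = true) : sigma (el w) = el (sw w) := sigHom_el w h

theorem sigma_sigma (g : Fi22) : sigma (sigma g) = g := sigHom_sigHom g

/-! ### The symmetry on the points -/

/-- the table of the symmetry -/
noncomputable def piN (i : Nat) : Nat := piArr.get 12 i

theorem pi_check : allFrom (fun i => forceNat (piN i) fun j =>
    Nat.ble (j + 1) 3510 && Nat.beq (piN j) i &&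
      allFrom (fun g => Nat.beq (piN (run [g] i)) (run [swp g] j)) 9 0) 3510 0 = true := by
  decide +kernel

theorem n_eq : Fi22H.data.n = 3510 := by decide +kernel

theorem pi_spec (i : Pt) : piN i < Fi22H.data.n ∧ piN (piN i) = i ∧
    ∀ g < 9, piN (run [g] i) = run [swp g] (piN i) := by
  have h := allFrom_spec pi_check i (Nat.zero_le _) (by rw [Nat.zero_add, ← n_eq]; exact i.2)
  simp only [forceNat_eq, Bool.and_eq_true] at h
  refine ⟨lt_of_lt_of_eq (Nat.le_of_ble_eq_true h.1.1) n_eq.symm, Nat.eq_of_beq_eq_true h.1.2, fun g hg => ?_⟩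
  exact Nat.eq_of_beq_eq_true (allFrom_spec h.2 g (Nat.zero_le _) (by omega))

/-- the permutation of the points induced by the symmetry -/
noncomputable def piP : Equiv.Perm Pt where
  toFun i := ⟨piN i, (pi_spec i).1⟩
  invFun i := ⟨piN i, (pi_spec i).1⟩
  left_inv i := Fin.ext (pi_spec i).2.1
  right_inv i := Fin.ext (pi_spec i).2.1

theorem piP_val (i : Pt) : ((piP i : Pt) : Nat) = piN i := rfl

theorem piP_piP (i : Pt) : piP (piP i) = i := piP.left_inv i

theorem pi_act (g : Fi22) (i : Pt) : piP (Fi22U.act g i) = Fi22U.act (sigma g) (piP i) := by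
  obtain ⟨w, hw, rfl⟩ := exists_word g
  rw [sigma_el hw]
  induction w generalizing i with
  | nil => simp [sw, el_nil]
  | cons a w ih =>
    have hw' : a < 9 ∧ okW w = true := by simpa [okW] using hw
    show piP (Fi22U.act (el ([a] ++ w)) i) = Fi22U.act (el ([swp a] ++ sw w)) (piP i)
    rw [el_append, el_append, map_mul, map_mul, Equiv.Perm.mul_apply, Equiv.Perm.mul_apply,
      ih _ hw'.2]
    congr 1
    apply Fin.ext
    have h1 : okW [a] = true := by simp [okW]; omega
    have h2 : okW [swp a] = true := okW_sw (w := [a]) h1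
    rw [piP_val, act_val h1, act_val h2, piP_val]
    exact (pi_spec i).2.2 a hw'.1

theorem mem_endPt (u : List Nat) : mem (H89.Fi22Type.endPt u) = el (H89.Fi22Type.tword u) := by
  rw [H89.Fi22Type.endPt, H89.Fi22Type.mem_eq, H89.Fi22Type.el_tword]

theorem dd_el : H4.ThreeTransp.Fi22.dd = el [0] := rfl

/-- a path to the image of the first point -/
def pathG : List Nat := [1, 0, 2, 1, 3, 2, 4, 3, 5, 4, 6, 5]

theorem pathG_check : okW (H89.Fi22Type.tword pathG) = true ∧ okW pathG = true ∧
    sameW (H89.Fi22Type.tword pathG) (sw [0]) = true ∧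
    Nat.beq (run pathG 0) (piN 0) = true := by decide +kernel

theorem sigma_dd : sigma H4.ThreeTransp.Fi22.dd = mem (piP H89.Fi22Type.o) := by
  obtain ⟨h1, h2, h3, h4⟩ := pathG_check
  rw [dd_el, sigma_el (w := [0]) rfl, ← el_eq h1 (okW_sw (w := [0]) rfl) h3, ← mem_endPt]
  refine congrArg mem (Fin.ext ?_)
  rw [H89.Fi22Type.endPt_val _ h2, piP_val]
  exact Nat.eq_of_beq_eq_true h4

/-- the symmetry carries the transposition of a point to that of the image point -/
theorem sigma_mem (i : Pt) : sigma (mem i) = mem (piP i) := by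
  obtain ⟨g, rfl⟩ := H89.Fi22Type.exists_reach i
  rw [← H89.Fi22Type.mem_rho, H89.Fi22Type.mem_o, map_mul, map_mul, map_inv, pi_act,
    ← H89.Fi22Type.mem_rho, sigma_dd]

end Cfsg.Agent.H50.M22Outer
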