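import Cfsg.Agent.H50.M22Outer.Engine
import Cfsg.Agent.H50.M22Outer.ChainData
import Cfsg.Agent.H50.M22Outer.EllipticMat
import Cfsg.Agent.H72.PCore

/-!
The fixed subgroup of the third outer involution: its largest normal two-subgroup is elementary
abelian of order 64, with the orthogonal group of the elliptic form as quotient.
-/

set_option autoImplicit false
set_option maxRecDepth 100000

namespace Cfsg.Agent.H50.M22Outer

open Matrix Cfsg Cfsg.Spor Cfsg.Agent.H16 EnumData
open Cfsg.Agent.H16.Fi22U (el)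
open EllMat

namespace Ell

/-- the word of a coordinate -/
def eW (i : Ix) : List ℕ := oWords.getD (bitIx i) []

/-- the word of a list of coordinates -/
def lW : List Ix → List ℕ
  | [] => []
  | i :: l => lW l ++ eW i

/-- the word of a code -/
def cW (n : ℕ) : List ℕ := lW (supp n)

theorem eW_check : ∀ i : Ix, okW (eW i) = true ∧ sameW (eW i ++ eW i) [] = true ∧
    sameW (tW wordAB (eW i)) (eW i) = true ∧
    ∀ j : Ix, sameW (eW i ++ eW j) (eW j ++ eW i) = true := by decide +kernel

theorem wordAB_ok : okW wordAB = true := by decide +kernel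

theorem cW_check : allFrom (fun n => forceNat n fun n =>
    basePts.any fun b => !(Nat.beq (run (cW n) b) (run [] b))) 63 1 = true := by decide +kernel

theorem okW_lW : ∀ l : List Ix, okW (lW l) = true
  | [] => rfl
  | i :: l => okW_append.2 ⟨okW_lW l, (eW_check i).1⟩

theorem sq (i : Ix) : el (eW i) * el (eW i) = 1 := by
  rw [← el_append]
  exact (el_eq (okW_append.2 ⟨(eW_check i).1, (eW_check i).1⟩) rfl (eW_check i).2.1).trans el_nil

theorem comm (i j : Ix) : Commute (el (eW i)) (el (eW j)) := by
  show _ * _ = _ * _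
  rw [← el_append, ← el_append]
  exact el_eq (okW_append.2 ⟨(eW_check j).1, (eW_check i).1⟩)
    (okW_append.2 ⟨(eW_check i).1, (eW_check j).1⟩) ((eW_check j).2.2.2 i)

/-- the hom of one coordinate -/
noncomputable def one (i : Ix) : Multiplicative (ZMod 2) →* Fi22 where
  toFun z := if z = 1 then 1 else el (eW i)
  map_one' := by simp
  map_mul' := by
    intro x y
    have hc : ∀ z : Multiplicative (ZMod 2), z = 1 ∨ z = Multiplicative.ofAdd 1 := by decide
    have hn : Multiplicative.ofAdd (1 : ZMod 2) ≠ 1 := by decide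
    have hh : Multiplicative.ofAdd (1 : ZMod 2) * Multiplicative.ofAdd (1 : ZMod 2) = 1 := by decide
    rcases hc x with rfl | rfl <;> rcases hc y with rfl | rfl <;>
      simp only [one_mul, mul_one, if_true, if_neg hn, hh, sq]

theorem one_comm : Pairwise fun i j : Ix => ∀ x y, Commute (one i x) (one j y) := by
  intro i j _ x y
  show Commute (if x = 1 then 1 else el (eW i)) (if y = 1 then 1 else el (eW j))
  split_ifs <;> simp [comm i j]

/-- the element of a vector -/
noncomputable def elt (v : Vec) : Fi22 :=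
  MonoidHom.noncommPiCoprod one one_comm fun i => Multiplicative.ofAdd (v i)

theorem elt_add (v w : Vec) : elt (v + w) = elt v * elt w := by
  rw [elt, elt, elt, ← map_mul]
  rfl

theorem elt_zero : elt 0 = 1 := by
  rw [elt]
  exact map_one _

theorem elt_single (i : Ix) : elt (Pi.single i 1) = el (eW i) := by
  rw [elt, show (fun j => Multiplicative.ofAdd ((Pi.single i 1 : Vec) j)) =
    Pi.mulSingle i (Multiplicative.ofAdd (1 : ZMod 2)) from funext fun j => by
      rcases eq_or_ne j i with rfl | h
      · simp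
      · simp [h]]
  rw [MonoidHom.noncommPiCoprod_mulSingle]
  show (if Multiplicative.ofAdd (1 : ZMod 2) = 1 then (1 : Fi22) else el (eW i)) = el (eW i)
  exact if_neg (by decide : Multiplicative.ofAdd (1 : ZMod 2) ≠ 1)

theorem elt_list : ∀ l : List Ix, elt ((l.map fun i => Pi.single i 1).sum) = el (lW l)
  | [] => elt_zero
  | i :: l => by
    rw [List.map_cons, List.sum_cons, elt_add, elt_single, elt_list l, lW, el_append]

theorem elt_vecN (n : ℕ) : elt (vecN n) = el (cW n) := elt_list _

theorem elt_inj : Function.Injective elt := by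
  have h1 : ∀ v, elt v = 1 → v = 0 := by
    intro v hv
    obtain ⟨n, hn, rfl⟩ := exists_code v
    rcases Nat.eq_zero_or_pos n with rfl | hpos
    · rfl
    · have h := allFrom_spec cW_check n hpos (by omega)
      rw [forceNat_eq, List.any_eq_true] at h
      obtain ⟨b, hb, hne⟩ := h
      rw [Bool.not_eq_true'] at hne
      rw [elt_vecN, ← el_nil] at hv
      exact absurd hv (el_ne (basePts_lt b hb) (okW_lW _) rfl hne)
  intro v w h
  have h2 : ∀ x : Vec, x + x = 0 := fun x => funext fun i => CharTwo.add_self_eq_zero (x i)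
  have : elt (v + w) = 1 := by rw [elt_add, h, ← elt_add, h2, elt_zero]
  calc v = v + (w + w) := by rw [h2, add_zero]
    _ = (v + w) + w := (add_assoc _ _ _).symm
    _ = w := by rw [h1 _ this, zero_add]

theorem elt_comm (v w : Vec) : Commute (elt v) (elt w) := by
  show _ * _ = _ * _
  rw [← elt_add, ← elt_add, add_comm]

/-- the subgroup -/
noncomputable def O : Subgroup Fi22 where
  carrier := Set.range elt
  one_mem' := ⟨0, elt_zero⟩
  mul_mem' := by
    rintro _ _ ⟨v, rfl⟩ ⟨w, rfl⟩
    exact ⟨v + w, elt_add v w⟩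
  inv_mem' := by
    rintro _ ⟨v, rfl⟩
    refine ⟨v, eq_inv_of_mul_eq_one_left ?_⟩
    rw [← elt_add, show v + v = 0 from funext fun i => CharTwo.add_self_eq_zero (v i), elt_zero]

theorem card_O : Nat.card O = 64 := by
  have h : Nat.card Vec = 64 := by simp
  rw [← h]
  exact Nat.card_range_of_injective elt_inj

theorem elementary : Cfsg.IsElementaryAbelian 2 O := by
  refine ⟨⟨⟨?_⟩⟩, ?_⟩
  · rintro ⟨_, v, rfl⟩ ⟨_, w, rfl⟩
    exact Subtype.ext (elt_comm v w)
  · rintro _ ⟨v, rfl⟩
    rw [pow_two, ← elt_add, show v + v = 0 from funext fun i => CharTwo.add_self_eq_zero (v i), elt_zero]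

theorem O_le : O ≤ fixG wordAB := by
  rintro _ ⟨v, rfl⟩
  obtain ⟨n, -, rfl⟩ := exists_code v
  rw [elt_vecN, cW]
  generalize supp n = l
  induction l with
  | nil => exact one_mem _
  | cons i l ih =>
    rw [lW, el_append]
    refine mul_mem ?_ ih
    rw [mem_fixG, tau_el wordAB_ok (eW_check i).1]
    exact el_eq (okW_tW wordAB_ok (eW_check i).1) (eW_check i).1 (eW_check i).2.2.1

/-- conjugation by the element of the word has the given columns -/
noncomputable def conjOK (w : List ℕ) (M : List ℕ) : Bool :=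
  okW w && (List.range 6).all fun k =>
    sameW (w.reverse ++ eW (ixOf k) ++ w) (cW (M.getD k 0))

theorem chain_check :
    (List.range chainMats.length).all (fun k =>
      conjOK ((chainAB.flatMap fun L => L.gens).getD k []) (chainMats.getD k [])) = true ∧
    (chainAB.flatMap fun L => L.gens).length = chainMats.length := by decide +kernel

theorem extra_check2 : (List.range extraGens.length).all (fun k =>
    conjOK (extraGens.getD k ([], [])).1 (colsX k) &&
      sameW (tW wordAB (extraGens.getD k ([], [])).1) (extraGens.getD k ([], [])).1) = true := by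
  decide +kernel

/-- `A` describes conjugation by `g` -/
def Sim (g : Fi22) (A : Matrix Ix Ix (ZMod 2)) : Prop :=
  ∀ v, elt (A *ᵥ v) = g * elt v * g⁻¹

theorem sim_unique {g : Fi22} {A B : Matrix Ix Ix (ZMod 2)} (hA : Sim g A) (hB : Sim g B) : A = B :=
  Matrix.toLin'.injective (LinearMap.ext fun v => by
    rw [Matrix.toLin'_apply, Matrix.toLin'_apply]
    exact elt_inj ((hA v).trans (hB v).symm))

theorem sim_mul {g h : Fi22} {A B : Matrix Ix Ix (ZMod 2)} (hA : Sim g A) (hB : Sim h B) :
    Sim (g * h) (A * B) := fun v => by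
  rw [← Matrix.mulVec_mulVec, hA, hB]; group

theorem sim_one : Sim 1 1 := fun v => by simp

theorem sim_of_conjOK {w M : List ℕ} (h : conjOK w M = true) :
    Sim (el w) (matOf M) := by
  simp only [conjOK, Bool.and_eq_true, List.all_eq_true, List.mem_range] at h
  have hi : ∀ i : Ix, elt (matOf M *ᵥ Pi.single i 1) = el w * elt (Pi.single i 1) * (el w)⁻¹ := by
    intro i
    obtain ⟨k, rfl⟩ := ixOf_surj i
    have hs := h.2 k k.2
    have hb : ∀ k : Fin 6, bitIx (ixOf k) = k := by decide
    rw [Matrix.mulVec_single_one, elt_single]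
    have : (matOf M).col (ixOf k) = vecN (M.getD k 0) := by
      funext r
      simp [matOf, hb]
    rw [this, elt_vecN]
    refine (el_eq (okW_append.2 ⟨okW_append.2 ⟨okW_reverse.trans h.1, (eW_check _).1⟩, h.1⟩)
      (okW_lW _) hs).symm.trans ?_
    rw [el_append, el_append, el_reverse, mul_assoc]
  have hl : ∀ l : List Ix, elt (matOf M *ᵥ (l.map fun i => Pi.single i 1).sum) =
      el w * elt ((l.map fun i => Pi.single i 1).sum) * (el w)⁻¹ := by
    intro l
    induction l with
    | nil => simp [elt_zero]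
    | cons i l ih =>
      rw [List.map_cons, List.sum_cons, Matrix.mulVec_add, elt_add, elt_add, hi, ih]
      group
  intro v
  obtain ⟨n, -, rfl⟩ := exists_code v
  exact hl _

/-- the elements acting on the subgroup by isometries -/
def Good (g : Fi22) : Prop :=
  ∃ A : Matrix Ix Ix (ZMod 2), Sim g A ∧ ∀ v, Cfsg.Agent.H97.M22.qSix (A *ᵥ v) = Cfsg.Agent.H97.M22.qSix v

theorem good_of_mem (hgen : Subgroup.closure (chainGens chainAB) = fixG wordAB) {g : Fi22}
    (hg : g ∈ fixG wordAB) : Good g := by
  haveI := H89.Fi22Type.finite_fi22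
  obtain ⟨hc, hlen⟩ := chain_check
  simp only [List.all_eq_true, List.mem_range] at hc
  let S : Submonoid Fi22 :=
    { carrier := {g | Good g}
      one_mem' := ⟨1, sim_one, fun v => by simp⟩
      mul_mem' := fun ⟨A, hA, qA⟩ ⟨B, hB, qB⟩ =>
        ⟨A * B, sim_mul hA hB, fun v => by rw [← Matrix.mulVec_mulVec, qA, qB]⟩ }
  have hle : chainGens chainAB ⊆ (S : Set Fi22) := by
    rintro _ ⟨L, hL, w, hw, rfl⟩
    have hm : w ∈ chainAB.flatMap fun L => L.gens := List.mem_flatMap.2 ⟨L, hL, hw⟩
    obtain ⟨k, hk, rfl⟩ := List.getElem_of_mem hm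
    have hk' : k < chainMats.length := hlen ▸ hk
    have := hc k hk'
    rw [List.getD_eq_getElem _ _ hk] at this
    exact ⟨_, sim_of_conjOK this, (chainMats_ok ⟨k, hk'⟩).isom⟩
  rw [← hgen] at hg
  have h2 : (Subgroup.closure (chainGens chainAB)).toSubmonoid ≤ S := by
    rw [Subgroup.closure_toSubmonoid_of_finite]
    exact Submonoid.closure_le.2 hle
  exact h2 hg

theorem exists_hom (hgen : Subgroup.closure (chainGens chainAB) = fixG wordAB) :
    ∃ ρ : fixG wordAB →* H97.M22.OSix, ∀ g : fixG wordAB, ∀ v, elt (act (ρ g) v) = (g : Fi22) * elt v * (g : Fi22)⁻¹ := by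
  choose A hA qA using fun g : fixG wordAB => good_of_mem hgen g.2
  have hm : ∀ g h, A (g * h) = A g * A h := fun g h => sim_unique (hA _) (sim_mul (hA g) (hA h))
  have h1 : A 1 = 1 := sim_unique (hA 1) sim_one
  let Am : fixG wordAB →* Matrix Ix Ix (ZMod 2) := { toFun := A, map_one' := h1, map_mul' := hm }
  let ρ : fixG wordAB →* H97.M22.OSix :=
    (Am.toHomUnits).codRestrict _ fun g => fun u _ => by
      show Cfsg.Agent.H97.M22.qSix (A g *ᵥ u) = Cfsg.Agent.H97.M22.qSix u
      exact qA g u
  exact ⟨ρ, fun g v => hA g v⟩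

end Ell

open Ell in
/-- The fixed subgroup of the third involution. -/
theorem elliptic (hcard : Nat.card (fixG wordAB) = 3317760)
    (hgen : Subgroup.closure (chainGens chainAB) = fixG wordAB) :
    ∃ O : Subgroup Fi22, O = (Cfsg.pCore 2 (fixG wordAB)).map (fixG wordAB).subtype ∧
      Cfsg.IsElementaryAbelian 2 O ∧ Nat.card O = 64 ∧
      ∃ _ : (O.subgroupOf (fixG wordAB)).Normal,
        Nonempty (fixG wordAB ⧸ O.subgroupOf (fixG wordAB) ≃*
          Cfsg.isometryGroup (ZMod 2) (Cfsg.quadFormMinus 2 (ZMod 2) 1 1)) := by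
  haveI := H89.Fi22Type.finite_fi22
  obtain ⟨ρ, hρ⟩ := exists_hom hgen
  have hx := extra_check2
  simp only [List.all_eq_true, List.mem_range, Bool.and_eq_true] at hx
  have hR : ∀ k, k < extraGens.length →
      ∃ g ∈ ρ.range, ∀ n, n < 64 → act g (vecN n) = vecN (mvN (colsX k) n) := by
    intro k hk
    obtain ⟨hc, ht⟩ := hx k hk
    have hw : okW (extraGens.getD k ([], [])).1 = true := by
      simp only [conjOK, Bool.and_eq_true] at hc; exact hc.1
    have hmem : el (extraGens.getD k ([], [])).1 ∈ fixG wordAB := by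
      rw [mem_fixG, tau_el wordAB_ok hw]
      exact el_eq (okW_tW wordAB_ok hw) hw ht
    refine ⟨ρ ⟨_, hmem⟩, ⟨_, rfl⟩, fun n hn => elt_inj ?_⟩
    have hX : MatOK (colsX k) := extra_ok ⟨k, hk⟩
    rw [hρ, ← hX.mulVec hn]
    exact (sim_of_conjOK hc _).symm
  have htop := eq_top hR
  have hsurj : Function.Surjective ρ := MonoidHom.range_eq_top.1 htop
  have hle : O.subgroupOf (fixG wordAB) ≤ ρ.ker := by
    rintro g hg
    obtain ⟨u, hu⟩ : (g : Fi22) ∈ O := hg
    refine act_ext fun v => elt_inj ?_
    rw [hρ, act_one, ← hu, (elt_comm u v).eq, mul_inv_cancel_right]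
  have hker : Nat.card ρ.ker = 64 := by
    have h := ρ.ker.card_mul_index
    rw [Subgroup.index_ker, htop, Subgroup.card_top, H97.M22.card_OSix, hcard] at h
    omega
  have heq : O.subgroupOf (fixG wordAB) = ρ.ker := by
    refine Subgroup.eq_of_le_of_card_ge hle (le_of_eq ?_)
    rw [hker, Nat.card_congr (Subgroup.subgroupOfEquivOfLe O_le).toEquiv, card_O]
  have hp : Cfsg.pCore 2 (fixG wordAB) = ρ.ker := by
    haveI : Fact (Nat.Prime 2) := ⟨Nat.prime_two⟩
    refine le_antisymm ?_ (H72.le_pCore inferInstance (IsPGroup.of_card (n := 6) hker))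
    haveI := H72.pCore_normal (G := fixG wordAB) 2
    haveI : ((Cfsg.pCore 2 (fixG wordAB)).map ρ).Normal := Subgroup.Normal.map inferInstance ρ hsurj
    have := eq_bot_of_two (fun k hk => by
        obtain ⟨g, -, hg⟩ := hR k hk
        exact ⟨g, Subgroup.mem_top _, hg⟩)
      ((H72.pCore_isPGroup (G := fixG wordAB) 2).map ρ)
    exact (Subgroup.map_eq_bot_iff _).1 this
  refine ⟨O, ?_, elementary, card_O, ?_⟩
  · rw [hp, ← heq, Subgroup.subgroupOf_map_subtype, inf_eq_left.2 O_le]
  · haveI hN : (O.subgroupOf (fixG wordAB)).Normal := heq ▸ ρ.normal_ker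
    exact ⟨hN, ⟨(QuotientGroup.quotientMulEquivOfEq heq).trans
      (QuotientGroup.quotientKerEquivOfSurjective ρ hsurj)⟩⟩

end Cfsg.Agent.H50.M22Outer
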