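import Cfsg.Agent.H50.M22Outer.Core

/-!
Fixed subgroups of the outer involutions of Fi22: exact orders from orbit certificates over chains
of transpositions.
-/

set_option autoImplicit false
set_option maxRecDepth 100000

namespace Cfsg.Agent.H50.M22Outer

open Cfsg.Spor Cfsg.Agent.H16 EnumData
open Cfsg.Agent.H16.Fi22U (el)
open Cfsg.Agent.H89.Fi22Type (mem tword endPt o)

/-- the automorphism: the symmetry after conjugation by the element of a word -/
noncomputable def tau (c : List Nat) : MulAut Fi22 := sigma * MulAut.conj (el c)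

theorem tau_apply (c : List Nat) (g : Fi22) : tau c g = sigma (el c * g * (el c)⁻¹) := rfl

/-- the word of the image under the automorphism -/
def tW (c w : List Nat) : List Nat := sw (c.reverse ++ w ++ c)

theorem okW_tW {c w : List Nat} (hc : okW c = true) (hw : okW w = true) : okW (tW c w) = true :=
  okW_sw (okW_append.2 ⟨okW_append.2 ⟨okW_reverse.trans hc, hw⟩, hc⟩)

theorem tau_el {c w : List Nat} (hc : okW c = true) (hw : okW w = true) :
    tau c (el w) = el (tW c w) := by
  rw [tau_apply, tW, ← sigma_el (okW_append.2 ⟨okW_append.2 ⟨okW_reverse.trans hc, hw⟩, hc⟩),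
    el_append, el_append, el_reverse, mul_assoc]

/-- the permutation of the points -/
noncomputable def tP (c : List Nat) : Equiv.Perm Pt := piP * Fi22U.act (el c)

/-- its table -/
noncomputable def tN (c : List Nat) (i : Nat) : Nat := piN (run c i)

theorem tP_val {c : List Nat} (hc : okW c = true) (i : Pt) : ((tP c i : Pt) : Nat) = tN c i := by
  show (((piP * Fi22U.act (el c)) i : Pt) : Nat) = _
  rw [Equiv.Perm.mul_apply, piP_val, act_val hc]
  rfl

theorem tau_mem (c : List Nat) (i : Pt) : tau c (mem i) = mem (tP c i) := by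
  rw [tau_apply, H89.Fi22Type.mem_rho, sigma_mem]
  rfl

theorem tP_act (c : List Nat) (g : Fi22) (i : Pt) : tP c (Fi22U.act g i) = Fi22U.act (tau c g) (tP c i) := by
  show piP (Fi22U.act (el c) (Fi22U.act g i)) = Fi22U.act (tau c g) (piP (Fi22U.act (el c) i))
  rw [tau_apply, ← pi_act]
  congr 1
  simp [map_mul, map_inv]

theorem tP_act_fixed {c : List Nat} {g : Fi22} (hg : tau c g = g) (i : Pt) :
    tP c (Fi22U.act g i) = Fi22U.act g (tP c i) := by rw [tP_act, hg]

/-- the fixed subgroup -/
noncomputable def fixG (c : List Nat) : Subgroup Fi22 :=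
  MonoidHom.eqLocus (tau c).toMonoidHom (MonoidHom.id Fi22)

theorem mem_fixG {c : List Nat} {g : Fi22} : g ∈ fixG c ↔ tau c g = g := Iff.rfl

/-- the elements fixing the points in a list -/
def fixPts (L : List Pt) : Subgroup Fi22 where
  carrier := {g | ∀ p ∈ L, Fi22U.act g p = p}
  one_mem' := fun p _ => by simp
  mul_mem' := fun ha hb p hp => by rw [map_mul, Equiv.Perm.mul_apply, hb p hp, ha p hp]
  inv_mem' := fun ha p hp => by rw [map_inv, Equiv.Perm.inv_eq_iff_eq, ha p hp]

theorem mem_fixPts {L : List Pt} {g : Fi22} : g ∈ fixPts L ↔ ∀ p ∈ L, Fi22U.act g p = p := Iff.rfl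

/-- An orbit lies in a list of candidates. -/
theorem card_le_mul {H : Subgroup Fi22} {L : List Pt} (p : Pt) (C : List Nat)
    (hC : ∀ g ∈ H ⊓ fixPts L, ((Fi22U.act g p : Pt) : Nat) ∈ C) :
    Nat.card (H ⊓ fixPts L : Subgroup Fi22) ≤
      C.length * Nat.card (H ⊓ fixPts (p :: L) : Subgroup Fi22) := by
  classical
  haveI := H89.Fi22Type.finite_fi22
  let K : Subgroup Fi22 := H ⊓ fixPts L
  let f : K → Fin C.length := fun g => ⟨C.idxOf ((Fi22U.act (g : Fi22) p : Pt) : Nat),
    List.idxOf_lt_length_iff.2 (hC g g.2)⟩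
  haveI := Fintype.ofFinite K
  have key : ∀ y : Fin C.length, (Finset.univ.filter fun g => f g = y).card ≤
      Nat.card (H ⊓ fixPts (p :: L) : Subgroup Fi22) := by
    intro y
    rcases (Finset.univ.filter fun g => f g = y).eq_empty_or_nonempty with h | ⟨g0, hg0⟩
    · rw [h]; simp
    · haveI := Fintype.ofFinite (H ⊓ fixPts (p :: L) : Subgroup Fi22)
      rw [Nat.card_eq_fintype_card, ← Finset.card_univ]
      have hmem : ∀ g : K, f g = y → ((g0⁻¹ * g : K) : Fi22) ∈ H ⊓ fixPts (p :: L) := by
        intro g hg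
        refine ⟨(g0⁻¹ * g).2.1, fun q hq => ?_⟩
        rcases List.mem_cons.1 hq with rfl | hq
        · have e : f g = f g0 := hg.trans (Finset.mem_filter.1 hg0).2.symm
          have e' : ((Fi22U.act (g : Fi22) q : Pt) : Nat) = ((Fi22U.act (g0 : Fi22) q : Pt) : Nat) :=
            (List.idxOf_inj (hC g g.2)).1 (congrArg Fin.val e)
          rw [Subgroup.coe_mul, Subgroup.coe_inv, map_mul, map_inv, Equiv.Perm.mul_apply,
            Fin.ext e', Equiv.Perm.inv_eq_iff_eq]
        · exact (g0⁻¹ * g).2.2 q hq
      refine Finset.card_le_card_of_injOn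
        (fun g => if h : f g = y then ⟨_, hmem g h⟩ else 1) (fun g _ => Finset.mem_univ _)
        fun a ha b hb e => ?_
      have ha' := (Finset.mem_filter.1 ha).2
      have hb' := (Finset.mem_filter.1 hb).2
      simp only [dif_pos ha', dif_pos hb'] at e
      exact Subtype.ext (mul_left_cancel (congrArg Subtype.val e : (g0⁻¹ * a : Fi22) = g0⁻¹ * b))
  have h := Finset.card_le_mul_card_image (s := (Finset.univ : Finset K)) (f := f)
    (Nat.card (H ⊓ fixPts (p :: L) : Subgroup Fi22)) (fun y _ => key y)
  rw [Finset.card_univ, ← Nat.card_eq_fintype_card] at h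
  refine h.trans ((Nat.mul_comm _ _).le.trans (Nat.mul_le_mul_right _ ?_))
  exact (Finset.card_le_univ _).trans (Fintype.card_fin _).le

/-- An orbit reached inside a subgroup. -/
theorem mul_le_card {H : Subgroup Fi22} {L : List Pt} (p : Pt) {m : Nat} (q : Fin m → Pt)
    (hq : Function.Injective q) (hreach : ∀ j, ∃ g ∈ H ⊓ fixPts L, Fi22U.act g p = q j) :
    m * Nat.card (H ⊓ fixPts (p :: L) : Subgroup Fi22) ≤
      Nat.card (H ⊓ fixPts L : Subgroup Fi22) := by
  haveI := H89.Fi22Type.finite_fi22
  choose t ht htp using hreach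
  let f : Fin m × (H ⊓ fixPts (p :: L) : Subgroup Fi22) → (H ⊓ fixPts L : Subgroup Fi22) :=
    fun z => ⟨t z.1 * z.2, mul_mem (ht z.1) ⟨z.2.2.1, fun r hr => z.2.2.2 r (List.mem_cons_of_mem _ hr)⟩⟩
  have hf : Function.Injective f := by
    rintro ⟨a, x⟩ ⟨b, y⟩ e
    have e1 : t a * (x : Fi22) = t b * y := congrArg Subtype.val e
    have e2 := congrArg (fun g => Fi22U.act g p) e1
    simp only [map_mul, Equiv.Perm.mul_apply, x.2.2 p (List.mem_cons_self ..),
      y.2.2 p (List.mem_cons_self ..), htp] at e2
    obtain rfl := hq e2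
    exact Prod.ext rfl (Subtype.ext (mul_left_cancel e1))
  have h := Nat.card_le_card_of_injective f hf
  rwa [Nat.card_prod, Nat.card_fin] at h

/-! ### Commutation patterns -/

/-- a point with the image of it: two paths, and the paths of their images -/
structure Item where
  /-- path to the point -/
  u : List Nat
  /-- path to its image -/
  v : List Nat
  /-- path to the image under the automorphism -/
  u' : List Nat
  /-- path to the image of the second under the automorphism -/
  v' : List Nat

/-- the item is well formed -/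
noncomputable def itemOK (c : List Nat) (I : Item) : Bool :=
  okW I.u && okW I.v && okW I.u' && okW I.v' &&
    Nat.beq (tN c (run I.u 0)) (run I.u' 0) && Nat.beq (tN c (run I.v 0)) (run I.v' 0)

/-- the two Booleans agree -/
def beqB (x y : Bool) : Bool := Bool.rec (!y) y x

theorem beqB_iff {x y : Bool} : beqB x y = true ↔ x = y := by
  cases x <;> cases y <;> decide

/-- relation of a point to a transposition given by a path -/
noncomputable def rel (u : List Nat) (x : Nat) : Bool × Bool :=
  (Nat.beq (run (tword u) x) x, Nat.beq (run u 0) x)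

/-- the patterns of two points agree on an item -/
noncomputable def matchItem (I : Item) (x y : Nat) : Bool :=
  beqB (rel I.u x).1 (rel I.v y).1 && beqB (rel I.u x).2 (rel I.v y).2 &&
    beqB (rel I.u' x).1 (rel I.v' y).1 && beqB (rel I.u' x).2 (rel I.v' y).2

/-- the points with the pattern of `x` lie in the list -/
noncomputable def scanOK (c : List Nat) (items : List Item) (x : Nat) (C : List Nat) : Bool :=
  forceNat x fun x =>
  allFrom (fun y => forceNat y fun y =>
    !(beqB (Nat.beq (tN c x) x) (Nat.beq (tN c y) y) && items.all fun I => matchItem I x y) ||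
      C.any fun z => Nat.beq z y) 3510 0

theorem okW_tword {u : List Nat} (h : okW u = true) : okW (tword u) = true :=
  okW_append.2 ⟨okW_append.2 ⟨okW_reverse.trans h, rfl⟩, h⟩

theorem beq_fix (g : Fi22) (i x : Pt) :
    Nat.beq ((Fi22U.act (mem i) x : Pt) : Nat) x =
      Nat.beq ((Fi22U.act (mem (Fi22U.act g i)) (Fi22U.act g x) : Pt) : Nat) (Fi22U.act g x : Pt) := by
  rw [← H89.Fi22Type.mem_rho, map_mul, map_mul, map_inv]
  simp only [Equiv.Perm.mul_apply, Equiv.Perm.coe_inv, Equiv.symm_apply_apply]
  rw [Bool.eq_iff_iff, Nat.beq_eq, Nat.beq_eq, ← Fin.ext_iff, ← Fin.ext_iff,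
    (Fi22U.act g).injective.eq_iff]

theorem beq_pt (g : Fi22) (i x : Pt) :
    Nat.beq (i : Nat) x = Nat.beq ((Fi22U.act g i : Pt) : Nat) (Fi22U.act g x : Pt) := by
  rw [Bool.eq_iff_iff, Nat.beq_eq, Nat.beq_eq, ← Fin.ext_iff, ← Fin.ext_iff,
    (Fi22U.act g).injective.eq_iff]

theorem rel_transfer {u v : List Nat} (hu : okW u = true) (hv : okW v = true) {g : Fi22}
    (h : Fi22U.act g (endPt u) = endPt v) (x : Pt) : rel u x = rel v (Fi22U.act g x : Pt) := by
  have e : ∀ (w : List Nat) (_ : okW w = true) (y : Pt),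
      rel w y = (Nat.beq ((Fi22U.act (mem (endPt w)) y : Pt) : Nat) y, Nat.beq (endPt w : Pt) y) := by
    intro w hw y
    rw [mem_endPt, act_val (okW_tword hw), H89.Fi22Type.endPt_val w hw]
    rfl
  rw [e u hu, e v hv, beq_fix g (endPt u) x, beq_pt g (endPt u) x, h]

theorem tP_endPt {c u u' : List Nat} (hc : okW c = true) (hu : okW u = true) (hu' : okW u' = true)
    (h : Nat.beq (tN c (run u 0)) (run u' 0) = true) : tP c (endPt u) = endPt u' := by
  apply Fin.ext
  rw [tP_val hc, H89.Fi22Type.endPt_val u hu, H89.Fi22Type.endPt_val u' hu']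
  exact Nat.eq_of_beq_eq_true h

theorem mem_of_scan {c : List Nat} (hc : okW c = true) {items : List Item} {C : List Nat} {x : Pt}
    (hI : items.all (itemOK c) = true) (h : scanOK c items x C = true) {g : Fi22}
    (hg : tau c g = g) (hgi : ∀ I ∈ items, Fi22U.act g (endPt I.u) = endPt I.v) :
    ((Fi22U.act g x : Pt) : Nat) ∈ C := by
  rw [scanOK, forceNat_eq] at h
  have h' := allFrom_spec h (Fi22U.act g x : Pt) (Nat.zero_le _) (by rw [Nat.zero_add, ← n_eq]; exact (Fi22U.act g x).2)
  rw [forceNat_eq, Bool.or_eq_true, Bool.not_eq_true'] at h'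
  have hm : (beqB (Nat.beq (tN c x) x) (Nat.beq (tN c (Fi22U.act g x : Pt)) (Fi22U.act g x : Pt)) &&
      items.all fun I => matchItem I x (Fi22U.act g x : Pt)) = true := by
    rw [Bool.and_eq_true]
    refine ⟨beqB_iff.2 ?_, List.all_eq_true.2 fun I hI' => ?_⟩
    · rw [← tP_val hc, ← tP_val hc, tP_act_fixed hg]
      exact beq_pt g _ x
    · have hok := List.all_eq_true.1 hI I hI'
      simp only [itemOK, Bool.and_eq_true] at hok
      obtain ⟨⟨⟨⟨⟨hu, hv⟩, hu'⟩, hv'⟩, he⟩, he'⟩ := hok
      have h2 : Fi22U.act g (endPt I.u') = endPt I.v' := by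
        rw [← tP_endPt hc hu hu' he, ← tP_endPt hc hv hv' he', ← tP_act_fixed hg, hgi I hI']
      simp only [matchItem, Bool.and_eq_true, beqB_iff]
      rw [rel_transfer hu hv (hgi I hI') x, rel_transfer hu' hv' h2 x]
      simp
  rw [hm] at h'
  rcases h' with h' | h'
  · exact Bool.noConfusion h'
  · obtain ⟨z, hz, hzy⟩ := List.any_eq_true.1 h'
    rw [← Nat.eq_of_beq_eq_true hzy]
    exact hz

/-! ### Chains -/

/-- one level of a chain -/
structure Lvl where
  /-- path to the point -/
  u : List Nat
  /-- path to its image under the automorphism -/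
  u' : List Nat
  /-- words fixed by the automorphism and fixing the earlier points -/
  gens : List (List Nat)
  /-- the other points of the orbit, with parent and generator -/
  orb : List (Nat × Nat × Nat)

/-- the item of a level -/
def Lvl.item (L : Lvl) : Item := ⟨L.u, L.u, L.u', L.u'⟩

/-- the orbit of a level -/
noncomputable def Lvl.pts (L : Lvl) : List Nat := run L.u 0 :: L.orb.map (·.1)

/-- no number occurs twice -/
noncomputable def nodupN (l : List Nat) : Bool :=
  List.rec (motive := fun _ => Bool) true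
    (fun x xs ih => !(xs.any fun y => Nat.beq x y) && ih) l

theorem nodupN_spec : ∀ {l : List Nat}, nodupN l = true → l.Nodup
  | [], _ => List.nodup_nil
  | x :: xs, h => by
    have h' : (!(xs.any fun y => Nat.beq x y) && nodupN xs) = true := h
    rw [Bool.and_eq_true, Bool.not_eq_true'] at h'
    refine List.nodup_cons.2 ⟨fun hx => ?_, nodupN_spec h'.2⟩
    have : (xs.any fun y => Nat.beq x y) = true := List.any_eq_true.2 ⟨x, hx, Nat.beq_refl x⟩
    rw [this] at h'
    exact Bool.noConfusion h'.1

/-- the generators of a level are fixed by the automorphism and fix the earlier points -/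
noncomputable def gensOK (c : List Nat) (prev : List Lvl) (L : Lvl) : Bool :=
  L.gens.all fun w => okW w && sameW (tW c w) w &&
    prev.all fun P => forceNat (run P.u 0) fun p => Nat.beq (run w p) p

/-- the orbit list is reached by the generators -/
noncomputable def orbOK (L : Lvl) : Bool :=
  nodupN L.pts && (List.range L.orb.length).all fun j =>
    forceNat j fun j =>
      Nat.ble ((L.orb.getD j (0, 0, 0)).2.1) j &&
      Nat.ble ((L.orb.getD j (0, 0, 0)).2.2 + 1) L.gens.length &&
        Nat.beq (run (L.gens.getD (L.orb.getD j (0, 0, 0)).2.2 [])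
          (L.pts.getD (L.orb.getD j (0, 0, 0)).2.1 0)) (L.orb.getD j (0, 0, 0)).1

/-- the check of a level over the earlier ones -/
noncomputable def lvlOK (c : List Nat) (prev : List Lvl) (L : Lvl) : Bool :=
  okW L.u && okW L.u' && Nat.beq (tN c (run L.u 0)) (run L.u' 0) &&
    gensOK c prev L && orbOK L &&
    scanOK c (prev.map Lvl.item) (run L.u 0) L.pts

/-- the check of a chain -/
noncomputable def chainOK (c : List Nat) : List Lvl → List Lvl → Bool
  | _, [] => true
  | prev, L :: rest => lvlOK c prev L && chainOK c (L :: prev) rest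

/-- the product of the orbit lengths -/
def chainProd : List Lvl → Nat
  | [] => 1
  | L :: rest => (L.orb.length + 1) * chainProd rest

/-- the points of a chain -/
noncomputable def chainPts (ls : List Lvl) : List Pt := ls.map fun L => endPt L.u

/-- all generators of a chain -/
noncomputable def chainGens (ls : List Lvl) : Set Fi22 :=
  {g | ∃ L ∈ ls, ∃ w ∈ L.gens, el w = g}

theorem item_ok_of_lvl {c : List Nat} {prev : List Lvl} {L : Lvl} (h : lvlOK c prev L = true) :
    itemOK c L.item = true := by
  simp only [lvlOK, Bool.and_eq_true] at h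
  simp [itemOK, Lvl.item, h.1.1.1.1.1, h.1.1.1.1.2, h.1.1.1.2]

theorem gens_mem {c : List Nat} (hc : okW c = true) {prev : List Lvl} {L : Lvl}
    (h : lvlOK c prev L = true) (hu : ∀ P ∈ prev, okW P.u = true) :
    ∀ w ∈ L.gens, el w ∈ fixG c ⊓ fixPts (chainPts prev) := by
  simp only [lvlOK, Bool.and_eq_true] at h
  intro w hw
  have h' := List.all_eq_true.1 h.1.1.2 w hw
  simp only [Bool.and_eq_true, List.all_eq_true, forceNat_eq] at h'
  refine ⟨?_, fun p hp => ?_⟩
  · show tau c (el w) = el w
    rw [tau_el hc h'.1.1]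
    exact el_eq (okW_tW hc h'.1.1) h'.1.1 h'.1.2
  · obtain ⟨P, hP, rfl⟩ := List.mem_map.1 hp
    apply Fin.ext
    rw [act_val h'.1.1, H89.Fi22Type.endPt_val _ (hu P hP)]
    exact Nat.eq_of_beq_eq_true (h'.2 P hP)

theorem upper {c : List Nat} (hc : okW c = true) : ∀ (rest prev : List Lvl),
    (prev.map Lvl.item).all (itemOK c) = true → chainOK c prev rest = true →
    Nat.card (fixG c ⊓ fixPts (chainPts prev) : Subgroup Fi22) ≤
      chainProd rest * Nat.card (fixG c ⊓ fixPts (chainPts (rest.reverse ++ prev)) : Subgroup Fi22)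
  | [], prev, _, _ => by simp [chainProd]
  | L :: rest, prev, hI, h => by
    rw [chainOK, Bool.and_eq_true] at h
    have hu : okW L.u = true := by
      have := h.1; simp only [lvlOK, Bool.and_eq_true] at this; exact this.1.1.1.1.1
    have hsc : scanOK c (prev.map Lvl.item) (endPt L.u : Pt) L.pts = true := by
      have := h.1; simp only [lvlOK, Bool.and_eq_true] at this
      rw [H89.Fi22Type.endPt_val _ hu]; exact this.2
    have hlen : L.pts.length = L.orb.length + 1 := by simp [Lvl.pts]
    have h1 := card_le_mul (H := fixG c) (L := chainPts prev) (endPt L.u) L.pts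
      fun g hg => mem_of_scan hc hI hsc hg.1 fun I hI' => by
        obtain ⟨P, hP, rfl⟩ := List.mem_map.1 hI'
        exact hg.2 _ (List.mem_map.2 ⟨P, hP, rfl⟩)
    have h2 := upper hc rest (L :: prev) (by
      rw [List.map_cons, List.all_cons, item_ok_of_lvl h.1, hI]; rfl) h.2
    have e : rest.reverse ++ L :: prev = (L :: rest).reverse ++ prev := by simp
    rw [e] at h2
    rw [hlen] at h1
    rw [chainProd, mul_assoc]
    exact h1.trans (Nat.mul_le_mul_left _ h2)

theorem reach {c : List Nat} (hc : okW c = true) {prev : List Lvl} {L : Lvl}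
    (h : lvlOK c prev L = true) (hu : ∀ P ∈ prev, okW P.u = true) {K : Subgroup Fi22}
    (hK : ∀ w ∈ L.gens, el w ∈ K) :
    ∀ j : Fin L.pts.length, ∃ g ∈ K ⊓ fixPts (chainPts prev),
      ((Fi22U.act g (endPt L.u) : Pt) : Nat) = L.pts[j] := by
  have hgm := gens_mem hc h hu
  have hok : okW L.u = true ∧ orbOK L = true ∧ ∀ w ∈ L.gens, okW w = true := by
    simp only [lvlOK, gensOK, Bool.and_eq_true, List.all_eq_true] at h
    exact ⟨h.1.1.1.1.1, h.1.2, fun w hw => (h.1.1.2 w hw).1.1⟩
  have hord := hok.2.1
  simp only [orbOK, Bool.and_eq_true, List.all_eq_true, List.mem_range, forceNat_eq] at hord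
  suffices ∀ j : Nat, ∀ hj : j < L.pts.length, ∃ g ∈ K ⊓ fixPts (chainPts prev),
      ((Fi22U.act g (endPt L.u) : Pt) : Nat) = L.pts[j] from fun j => this j j.2
  intro j
  induction j using Nat.strong_induction_on with
  | _ j ih =>
    intro hj
    rcases j with _ | j
    · exact ⟨1, one_mem _, by simp [Lvl.pts, H89.Fi22Type.endPt_val _ hok.1]⟩
    · have hj' : j < L.orb.length := by simpa [Lvl.pts] using hj
      obtain ⟨⟨hpar, hk⟩, he⟩ := hord.2 j hj'
      have hpar' := Nat.le_of_ble_eq_true hpar
      have hk' := Nat.le_of_ble_eq_true hk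
      obtain ⟨g, hg, hgp⟩ := ih (L.orb.getD j (0, 0, 0)).2.1 (by omega) (by omega)
      have hw : L.gens.getD (L.orb.getD j (0, 0, 0)).2.2 [] ∈ L.gens := by
        rw [List.getD_eq_getElem _ _ hk']; exact List.getElem_mem _
      refine ⟨el (L.gens.getD (L.orb.getD j (0, 0, 0)).2.2 []) * g,
        mul_mem ⟨hK _ hw, (hgm _ hw).2⟩ hg, ?_⟩
      rw [map_mul, Equiv.Perm.mul_apply, act_val (hok.2.2 _ hw), hgp]
      rw [List.getD_eq_getElem L.pts 0 (by omega : (L.orb.getD j (0, 0, 0)).2.1 < L.pts.length)] at he
      rw [Nat.eq_of_beq_eq_true he, List.getD_eq_getElem _ _ hj']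
      simp [Lvl.pts]

theorem lower {c : List Nat} (hc : okW c = true) {K : Subgroup Fi22} : ∀ (rest prev : List Lvl),
    (∀ P ∈ prev, okW P.u = true) → chainOK c prev rest = true →
    (∀ L ∈ rest, ∀ w ∈ L.gens, el w ∈ K) →
    chainProd rest * Nat.card (K ⊓ fixPts (chainPts (rest.reverse ++ prev)) : Subgroup Fi22) ≤
      Nat.card (K ⊓ fixPts (chainPts prev) : Subgroup Fi22)
  | [], prev, _, _, _ => by simp [chainProd]
  | L :: rest, prev, hu, h, hK => by
    rw [chainOK, Bool.and_eq_true] at h
    have hlu : okW L.u = true := by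
      have := h.1; simp only [lvlOK, Bool.and_eq_true] at this; exact this.1.1.1.1.1
    have hnd : L.pts.Nodup := by
      have := h.1; simp only [lvlOK, orbOK, Bool.and_eq_true] at this; exact nodupN_spec this.1.2.1
    have hr := reach hc h.1 hu (hK L (List.mem_cons_self ..))
    have hlt : ∀ j : Fin L.pts.length, L.pts[j] < Fi22H.data.n := fun j => by
      obtain ⟨g, -, hg⟩ := hr j
      rw [← hg]; exact (Fi22U.act g (endPt L.u)).2
    have h1 := mul_le_card (H := K) (L := chainPts prev) (endPt L.u)
      (fun j : Fin L.pts.length => (⟨L.pts[j], hlt j⟩ : Pt))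
      (fun a b e => Fin.ext ((hnd.getElem_inj_iff).1 (congrArg Fin.val e)))
      (fun j => by
        obtain ⟨g, hg, hgp⟩ := hr j
        exact ⟨g, hg, Fin.ext hgp⟩)
    have h2 := lower hc rest (L :: prev) (fun P hP => (List.mem_cons.1 hP).elim (fun e => e ▸ hlu) (hu P))
      h.2 (fun M hM => hK M (List.mem_cons_of_mem _ hM))
    have e : rest.reverse ++ L :: prev = (L :: rest).reverse ++ prev := by simp
    have hlen : L.pts.length = L.orb.length + 1 := by simp [Lvl.pts]
    rw [e] at h2
    rw [hlen] at h1
    rw [chainProd, mul_assoc]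
    exact (Nat.mul_le_mul_left _ h2).trans h1

/-- The order of the fixed subgroup, and generators, from a chain with trivial final stabiliser. -/
theorem fix_exact {c : List Nat} (hc : okW c = true) {ls : List Lvl} (h : chainOK c [] ls = true)
    (hbot : fixG c ⊓ fixPts (chainPts ls.reverse) = ⊥) :
    Nat.card (fixG c) = chainProd ls ∧ Subgroup.closure (chainGens ls) = fixG c := by
  haveI := H89.Fi22Type.finite_fi22
  have h0 : ∀ K : Subgroup Fi22, K ⊓ fixPts (chainPts []) = K := fun K =>
    inf_eq_left.2 fun g _ p hp => absurd hp (by simp [chainPts])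
  have hle : Subgroup.closure (chainGens ls) ≤ fixG c := by
    refine (Subgroup.closure_le _).2 ?_
    rintro _ ⟨L, hL, w, hw, rfl⟩
    have key : ∀ (rest prev : List Lvl), (∀ P ∈ prev, okW P.u = true) → chainOK c prev rest = true →
        ∀ M ∈ rest, ∀ w ∈ M.gens, el w ∈ fixG c := by
      intro rest
      induction rest with
      | nil => intro _ _ _ M hM; exact absurd hM (by simp)
      | cons M rest ih =>
        intro prev hu hch N hN
        rw [chainOK, Bool.and_eq_true] at hch
        rcases List.mem_cons.1 hN with rfl | hN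
        · exact fun w hw => (gens_mem hc hch.1 hu w hw).1
        · refine ih (M :: prev) (fun P hP => (List.mem_cons.1 hP).elim (fun e => e ▸ ?_) (hu P)) hch.2 N hN
          have := hch.1; simp only [lvlOK, Bool.and_eq_true] at this; exact this.1.1.1.1.1
    exact key ls [] (fun P hP => absurd hP (by simp)) h L hL w hw
  have h1 := upper hc ls [] rfl h
  rw [h0, List.append_nil, hbot, Subgroup.card_bot, mul_one] at h1
  have h2 := lower hc (K := Subgroup.closure (chainGens ls)) ls [] (fun P hP => absurd hP (by simp)) h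
    fun L hL w hw => Subgroup.subset_closure ⟨L, hL, w, hw, rfl⟩
  rw [h0, List.append_nil] at h2
  have h3 : chainProd ls ≤ Nat.card (Subgroup.closure (chainGens ls)) := by
    refine le_trans ?_ h2
    conv_lhs => rw [← mul_one (chainProd ls)]
    exact Nat.mul_le_mul_left _ Nat.card_pos
  have h4 := Subgroup.card_le_of_le hle
  exact ⟨by omega, Subgroup.eq_of_le_of_card_ge hle (by omega)⟩

end Cfsg.Agent.H50.M22Outer
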