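import Cfsg.Agent.H50.M22Outer.Sylow
import Cfsg.Agent.H50.M22Outer.ChainS
import Cfsg.Agent.H50.M22Outer.ChainAB
import Cfsg.Agent.H50.M22Outer.FixedData

/-!
The fixed subgroups of the three outer involutions: orders, generators and the comparison of the
first two.
-/

set_option autoImplicit false
set_option maxRecDepth 100000

namespace Cfsg.Agent.H50.M22Outer

open Cfsg.Spor Cfsg.Agent.H16 EnumData
open Cfsg.Agent.H16.Fi22U (el)
open Cfsg.Agent.H89.Fi22Type (mem tword endPt)

theorem endPt_run (u : List Nat) (hu : okW u = true) : ((endPt u : Pt) : Nat) = run u 0 :=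
  H89.Fi22Type.endPt_val u hu

/-- path to the member `a` -/
def pathA : List Nat := [1, 0, 2, 1, 3, 2, 7, 3, 8, 7]

/-- path to the member `b` -/
def pathB : List Nat := [1, 0, 2, 1, 3, 2]

/-- the point of `a` -/
noncomputable def ptA : Pt := endPt pathA

/-- the point of `b` -/
noncomputable def ptB : Pt := endPt pathB

/-- the word of `a` -/
def wordA : List Nat := tword pathA

theorem ab_check : (okW pathA && okW pathB && okW wordAB && sameW wordAB (tword pathB ++ wordA) &&
    Nat.beq (piN (run pathA 0)) (run pathA 0) && Nat.beq (piN (run pathB 0)) (run pathB 0) &&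
    Nat.beq (run (tword pathA) (run pathB 0)) (run pathB 0) &&
    !(Nat.beq (run pathA 0) (run pathB 0))) = true := by
  decide +kernel

theorem okW_pathA : okW pathA = true := by
  have h := ab_check; simp only [Bool.and_eq_true] at h; exact h.1.1.1.1.1.1.1

theorem okW_pathB : okW pathB = true := by
  have h := ab_check; simp only [Bool.and_eq_true] at h; exact h.1.1.1.1.1.1.2

theorem okW_wordA : okW wordA = true := okW_tword okW_pathA

theorem okW_wordAB : okW wordAB = true := by
  have h := ab_check; simp only [Bool.and_eq_true] at h; exact h.1.1.1.1.1.2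

theorem el_wordA : el wordA = mem ptA := (mem_endPt pathA).symm

theorem el_wordAB : el wordAB = mem ptA * mem ptB := by
  have h := ab_check; simp only [Bool.and_eq_true] at h
  rw [el_eq okW_wordAB (okW_append.2 ⟨okW_tword okW_pathB, okW_wordA⟩) h.1.1.1.1.2, el_append,
    el_wordA, ← mem_endPt]
  rfl

theorem piP_ptA : piP ptA = ptA := by
  have h := ab_check; simp only [Bool.and_eq_true] at h
  apply Fin.ext
  rw [piP_val, ptA, endPt_run _ okW_pathA]
  exact Nat.eq_of_beq_eq_true h.1.1.1.2

theorem piP_ptB : piP ptB = ptB := by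
  have h := ab_check; simp only [Bool.and_eq_true] at h
  apply Fin.ext
  rw [piP_val, ptB, endPt_run _ okW_pathB]
  exact Nat.eq_of_beq_eq_true h.1.1.2

theorem commute_ab : Commute (mem ptA) (mem ptB) := by
  have h := ab_check; simp only [Bool.and_eq_true] at h
  rw [H89.Fi22Type.commute_iff, ← el_wordA]
  apply Fin.ext
  rw [act_val okW_wordA, ptB, endPt_run _ okW_pathB]
  exact Nat.eq_of_beq_eq_true h.1.2

theorem a_ne_b : mem ptA ≠ mem ptB := by
  have h := ab_check; simp only [Bool.and_eq_true, Bool.not_eq_true'] at h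
  intro e
  have e' := congrArg Fin.val (H89.Fi22Type.mem_inj e)
  rw [ptA, ptB, endPt_run _ okW_pathA, endPt_run _ okW_pathB] at e'
  have h2 := h.2
  rw [e', Nat.beq_refl] at h2
  exact Bool.noConfusion h2

theorem tau_not_inner (c : List Nat) : tau c ∉ (MulAut.conj : Fi22 →* MulAut Fi22).range := by
  intro h
  refine sigma_not_inner ?_
  have e : sigma = tau c * (MulAut.conj (el c))⁻¹ := by rw [tau, mul_inv_cancel_right]
  rw [e]
  exact mul_mem h (inv_mem ⟨_, rfl⟩)

/-! ### Trivial stabilisers -/

/-- the seeds of a chain: its points and the last point -/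
def seedPaths (ls : List Lvl) (sp : List Nat × List Nat) : List (List Nat) := ls.map Lvl.u ++ [sp.1]

/-- the check of the last step of a chain -/
noncomputable def lastOK (c : List Nat) (ls : List Lvl) (sp : List Nat × List Nat)
    (mv : List (Nat × List Nat)) : Bool :=
  (ls.all fun L => okW L.u && okW L.u' && Nat.beq (tN c (run L.u 0)) (run L.u 0) &&
      Nat.beq (tN c (run L.u 0)) (run L.u' 0)) &&
    okW sp.1 && okW sp.2 && Nat.beq (tN c (run sp.1 0)) (run sp.2 0) &&
    scanOK c (ls.reverse.map Lvl.item) (run sp.1 0) [run sp.1 0, run sp.2 0] &&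
    (List.range 9).all fun i =>
      okW (genPaths.getD i []) && sameW (tword (genPaths.getD i [])) [i] &&
      Nat.ble ((mv.getD i (0, [])).1 + 1) (seedPaths ls sp).length &&
      ((mv.getD i (0, [])).2.all fun k => Nat.ble (k + 1) (seedPaths ls sp).length) &&
      Nat.beq (run (((mv.getD i (0, [])).2.map fun k => tword ((seedPaths ls sp).getD k [])).flatten)
        (run ((seedPaths ls sp).getD (mv.getD i (0, [])).1 []) 0)) (run (genPaths.getD i []) 0)

theorem seeds_generate {c : List Nat} {ls : List Lvl} {sp : List Nat × List Nat}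
    {mv : List (Nat × List Nat)} (h : lastOK c ls sp mv = true) {K : Subgroup Fi22}
    (hK : ∀ u ∈ seedPaths ls sp, mem (endPt u) ∈ K) : K = ⊤ := by
  simp only [lastOK, Bool.and_eq_true, List.all_eq_true, List.mem_range] at h
  have hu : ∀ u ∈ seedPaths ls sp, okW u = true := by
    intro u hu
    simp only [seedPaths, List.mem_append, List.mem_map, List.mem_singleton] at hu
    rcases hu with ⟨L, hL, rfl⟩ | rfl
    · exact (h.1.1.1.1.1 L hL).1.1.1
    · exact h.1.1.1.1.2
  have hgen : ∀ i < 9, el [i] ∈ K := by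
    intro i hi
    obtain ⟨⟨⟨⟨hp, hs⟩, h1⟩, h2⟩, h3⟩ := h.2 i hi
    have hw : ∀ l : List Nat, (∀ k ∈ l, k < (seedPaths ls sp).length) →
        okW (l.map fun k => tword ((seedPaths ls sp).getD k [])).flatten = true ∧
          el (l.map fun k => tword ((seedPaths ls sp).getD k [])).flatten ∈ K := by
      intro l
      induction l with
      | nil => exact fun _ => ⟨rfl, one_mem K⟩
      | cons k l ih =>
        intro hl
        obtain ⟨o1, o2⟩ := ih fun k' hk' => hl k' (List.mem_cons_of_mem _ hk')
        have hk := hl k (List.mem_cons_self ..)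
        have hm : (seedPaths ls sp).getD k [] ∈ seedPaths ls sp := by
          rw [List.getD_eq_getElem _ _ hk]; exact List.getElem_mem _
        rw [List.map_cons, List.flatten_cons]
        refine ⟨okW_append.2 ⟨okW_tword (hu _ hm), o1⟩, ?_⟩
        rw [el_append, ← mem_endPt]
        exact mul_mem o2 (hK _ hm)
    obtain ⟨o1, o2⟩ := hw (mv.getD i (0, [])).2 fun k hk =>
      Nat.le_of_ble_eq_true (h2 k hk)
    have hm : (seedPaths ls sp).getD (mv.getD i (0, [])).1 [] ∈ seedPaths ls sp := by
      rw [List.getD_eq_getElem _ _ (Nat.le_of_ble_eq_true h1)]; exact List.getElem_mem _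
    have hi' : okW [i] = true := by simp [okW]; omega
    rw [← el_eq (okW_tword hp) hi' hs, ← mem_endPt,
      show endPt (genPaths.getD i []) = Fi22U.act
        (el ((mv.getD i (0, [])).2.map fun k => tword ((seedPaths ls sp).getD k [])).flatten)
        (endPt ((seedPaths ls sp).getD (mv.getD i (0, [])).1 [])) from Fin.ext (by
          rw [act_val o1, endPt_run _ hp,
            endPt_run _ (hu _ hm)]
          exact (Nat.eq_of_beq_eq_true h3).symm),
      ← H89.Fi22Type.mem_rho]
    exact mul_mem (mul_mem o2 (hK _ hm)) (inv_mem o2)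
  rw [eq_top_iff]
  rintro g -
  obtain ⟨w, hw, rfl⟩ := exists_word g
  induction w with
  | nil => exact one_mem K
  | cons a w ih =>
    have hw' : a < 9 ∧ okW w = true := by simpa [okW] using hw
    show el ([a] ++ w) ∈ K
    rw [el_append]
    exact mul_mem (ih hw'.2) (hgen a hw'.1)

theorem stab_bot {c : List Nat} (hc : okW c = true) {ls : List Lvl} {sp : List Nat × List Nat}
    {mv : List (Nat × List Nat)} (h : lastOK c ls sp mv = true) :
    fixG c ⊓ fixPts (chainPts ls.reverse) = ⊥ := by
  have h' := h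
  simp only [lastOK, Bool.and_eq_true, List.all_eq_true] at h'
  obtain ⟨⟨⟨⟨⟨hL, hs1⟩, hs2⟩, hsp⟩, hscan⟩, -⟩ := h'
  have hs1' : okW sp.1 = true := hs1
  have hs2' : okW sp.2 = true := hs2
  rw [eq_bot_iff]
  rintro g ⟨hg, hfix⟩
  have hfix' : ∀ L ∈ ls, Fi22U.act g (endPt L.u) = endPt L.u := fun L hL' =>
    hfix _ (List.mem_map.2 ⟨L, List.mem_reverse.2 hL', rfl⟩)
  have hitems : (ls.reverse.map Lvl.item).all (itemOK c) = true := by
    refine List.all_eq_true.2 fun I hI => ?_
    obtain ⟨L, hL', rfl⟩ := List.mem_map.1 hI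
    obtain ⟨⟨⟨a1, a2⟩, -⟩, a4⟩ := hL L (List.mem_reverse.1 hL')
    simp [itemOK, Lvl.item, a1, a2, a4]
  have hx := mem_of_scan (x := endPt sp.1) hc hitems
    (by rw [endPt_run _ hs1']; exact hscan) hg fun I hI => by
      obtain ⟨L, hL', rfl⟩ := List.mem_map.1 hI
      exact hfix' L (List.mem_reverse.1 hL')
  have htp : tP c (endPt sp.1) = endPt sp.2 := tP_endPt hc hs1' hs2' hsp
  rw [Subgroup.mem_bot]
  simp only [List.mem_cons, List.not_mem_nil, or_false] at hx
  rw [← endPt_run _ hs1', ← endPt_run _ hs2'] at hx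
  rcases hx with hx | hx
  · -- all seeds are fixed
    have htop := seeds_generate h (K := Subgroup.centralizer {g}) fun u hu => by
      rw [Subgroup.mem_centralizer_singleton_iff]
      refine ((H89.Fi22Type.commute_iff g _).2 ?_).symm.eq
      simp only [seedPaths, List.mem_append, List.mem_map, List.mem_singleton] at hu
      rcases hu with ⟨L, hL', rfl⟩ | rfl
      · exact hfix' L hL'
      · exact Fin.ext hx
    have hc' : g ∈ Subgroup.center Fi22 := Subgroup.mem_center_iff.2 fun y =>
      (Subgroup.mem_centralizer_singleton_iff.1 (htop ▸ Subgroup.mem_top y : y ∈ Subgroup.centralizer {g}))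
    rwa [H89.Fi22Type.center_bot, Subgroup.mem_bot] at hc'
  · -- conjugation agrees with the automorphism on all seeds
    exfalso
    have htop := seeds_generate h
      (K := MonoidHom.eqLocus (MulAut.conj g).toMonoidHom (tau c).toMonoidHom) fun u hu => by
      show g * mem (endPt u) * g⁻¹ = tau c (mem (endPt u))
      rw [H89.Fi22Type.mem_rho, tau_mem]
      congr 1
      simp only [seedPaths, List.mem_append, List.mem_map, List.mem_singleton] at hu
      rcases hu with ⟨L, hL', rfl⟩ | rfl
      · obtain ⟨⟨⟨a1, -⟩, a3⟩, -⟩ := hL L hL'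
        rw [hfix' L hL', tP_endPt hc a1 a1 a3]
      · rw [htp]; exact Fin.ext hx
    refine tau_not_inner c ⟨g, MulEquiv.ext fun x => ?_⟩
    exact (htop ▸ Subgroup.mem_top x :
      x ∈ MonoidHom.eqLocus (MulAut.conj g).toMonoidHom (tau c).toMonoidHom)

theorem lastS_ok : lastOK [] chainS splitS movesS = true := by decide +kernel

theorem lastAB_ok : lastOK wordAB chainAB splitAB movesAB = true := by decide +kernel

theorem fixS : Nat.card (fixG []) = 1045094400 ∧ Subgroup.closure (chainGens chainS) = fixG [] := by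
  obtain ⟨h1, h2⟩ := fix_exact (c := []) rfl chainS_ok (stab_bot rfl lastS_ok)
  refine ⟨h1.trans ?_, h2⟩
  decide +kernel

theorem fixAB : Nat.card (fixG wordAB) = 3317760 ∧
    Subgroup.closure (chainGens chainAB) = fixG wordAB := by
  obtain ⟨h1, h2⟩ := fix_exact okW_wordAB chainAB_ok (stab_bot okW_wordAB lastAB_ok)
  refine ⟨h1.trans ?_, h2⟩
  decide +kernel

/-! ### The second involution -/

theorem fixA_check : ((fixAPaths.all fun u => okW u &&
      Nat.beq (run (tword u) (run pathA 0)) (run pathA 0)) &&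
    allFrom (fun y => forceNat y fun y => !(Nat.beq (tN wordA y) y) ||
      fixAPaths.any fun u => Nat.beq (run u 0) y) 3510 0 &&
    (fixAPaths.zip fixAWit).all (fun z => Nat.beq (run z.1 0) (run pathA 0) ||
      Nat.ble (z.2 + 1) fixAPaths.length &&
        (Nat.beq (tN wordA (run (fixAPaths.getD z.2 []) 0)) (run (fixAPaths.getD z.2 []) 0) &&
          !(Nat.beq (run (tword (fixAPaths.getD z.2 [])) (run z.1 0)) (run z.1 0)))) &&
    Nat.beq fixAWit.length fixAPaths.length) = true := by
  decide +kernel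

theorem tP_wordA_ptA : tP wordA ptA = ptA := by
  show piP (Fi22U.act (el wordA) ptA) = ptA
  rw [el_wordA, (H89.Fi22Type.commute_iff (mem ptA) ptA).1 (Commute.refl _), piP_ptA]

theorem fixed_moves_nothing {g : Fi22} (hg : tau wordA g = g) : Fi22U.act g ptA = ptA := by
  have h := fixA_check
  simp only [Bool.and_eq_true, List.all_eq_true] at h
  obtain ⟨⟨⟨hp, hall⟩, hw⟩, hlen⟩ := h
  have hlist : ∀ x : Pt, tP wordA x = x → ∃ u ∈ fixAPaths, okW u = true ∧ endPt u = x := by
    intro x hx
    have h' := allFrom_spec hall x (Nat.zero_le _) (by rw [Nat.zero_add, ← n_eq]; exact x.2)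
    rw [forceNat_eq, ← tP_val okW_wordA, hx, Nat.beq_refl, Bool.not_true, Bool.false_or] at h'
    obtain ⟨u, hu, hux⟩ := List.any_eq_true.1 h'
    refine ⟨u, hu, (hp u hu).1, Fin.ext ?_⟩
    rw [endPt_run _ ((hp u hu).1)]
    exact Nat.eq_of_beq_eq_true hux
  have hga : tP wordA (Fi22U.act g ptA) = Fi22U.act g ptA := by
    rw [tP_act_fixed hg, tP_wordA_ptA]
  by_contra hne
  obtain ⟨u, hu, hok, hux⟩ := hlist _ hga
  obtain ⟨k, hk, hku⟩ := List.getElem_of_mem hu
  have hk2 : k < fixAWit.length := by rw [Nat.eq_of_beq_eq_true hlen]; exact hk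
  have hz := hw (fixAPaths[k], fixAWit[k])
    (List.mem_iff_getElem.2 ⟨k, by rw [List.length_zip]; exact Nat.lt_min.2 ⟨hk, hk2⟩, List.getElem_zip⟩)
  simp only [Bool.or_eq_true, Bool.and_eq_true, Bool.not_eq_true'] at hz
  subst hku
  rcases hz with hz | ⟨hz1, hz2, hz3⟩
  · apply hne
    rw [← hux]
    apply Fin.ext
    rw [endPt_run _ hok, ptA, endPt_run _ okW_pathA]
    exact Nat.eq_of_beq_eq_true hz
  · set v := fixAPaths.getD fixAWit[k] [] with hv
    have hvm : v ∈ fixAPaths := by
      rw [hv, List.getD_eq_getElem _ _ (Nat.le_of_ble_eq_true hz1)]; exact List.getElem_mem _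
    have hvok : okW v = true := (hp v hvm).1
    have hvfix : tP wordA (endPt v) = endPt v := tP_endPt okW_wordA hvok hvok hz2
    have hgi : tau wordA g⁻¹ = g⁻¹ := by rw [map_inv, hg]
    obtain ⟨v', hv'm, hv'ok, hv'x⟩ := hlist (Fi22U.act g⁻¹ (endPt v))
      (by rw [tP_act_fixed hgi, hvfix])
    have hcom : Fi22U.act (mem (endPt v')) ptA = ptA := by
      rw [mem_endPt]
      apply Fin.ext
      rw [act_val (okW_tword hv'ok), ptA, endPt_run _ okW_pathA]
      exact Nat.eq_of_beq_eq_true (hp v' hv'm).2
    have h1 := beq_fix g (endPt v') ptA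
    rw [hcom, Nat.beq_refl, hv'x, map_inv, Equiv.Perm.coe_inv, Equiv.apply_symm_apply, ← hux,
      mem_endPt, act_val (okW_tword hvok), endPt_run _ hok] at h1
    exact Bool.noConfusion (h1.trans hz3)

theorem fixA_eq : fixG wordA = fixG [] ⊓ Subgroup.centralizer {mem ptA} := by
  ext g
  simp only [Subgroup.mem_inf, mem_fixG, Subgroup.mem_centralizer_singleton_iff]
  have e0 : ∀ x, tau [] x = sigma x := fun x => by rw [tau_apply, el_nil]; simp
  have key : Commute g (mem ptA) → tau wordA g = tau [] g := fun hc => by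
    rw [tau_apply, el_wordA, e0, hc.symm.eq, mul_inv_cancel_right]
  constructor
  · intro hg
    have hc : Commute g (mem ptA) := (H89.Fi22Type.commute_iff g ptA).2 (fixed_moves_nothing hg)
    exact ⟨(key hc).symm.trans hg, hc.eq⟩
  · rintro ⟨hg, hc⟩
    exact (key hc).trans hg

theorem centralizer_ptA : Subgroup.centralizer {mem ptA} = fixPts [ptA] := by
  ext g
  rw [Subgroup.mem_centralizer_singleton_iff, mem_fixPts]
  exact ⟨fun h p hp => by
    rw [List.mem_singleton.1 hp]; exact (H89.Fi22Type.commute_iff g ptA).1 h,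
    fun h => ((H89.Fi22Type.commute_iff g ptA).2 (h ptA (List.mem_singleton.2 rfl))).eq⟩

theorem lvlS0_pt : endPt lvlS0.u = ptA := rfl

theorem fixA_card : Nat.card (fixG [] ⊓ Subgroup.centralizer {mem ptA} : Subgroup Fi22) = 2903040 := by
  have h := chainS_ok
  rw [chainS, chainOK, Bool.and_eq_true] at h
  have hu : ∀ P ∈ [lvlS0], okW P.u = true := fun P hP => by
    rw [List.mem_singleton.1 hP]; decide
  have hgens : ∀ L ∈ chainS, ∀ w ∈ L.gens, el w ∈ fixG [] := fun L hL w hw => by
    rw [← fixS.2]; exact Subgroup.subset_closure ⟨L, hL, w, hw, rfl⟩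
  have hI : ([lvlS0].map Lvl.item).all (itemOK []) = true := by
    rw [List.map_cons, List.map_nil, List.all_cons, item_ok_of_lvl h.1]; rfl
  have h1 := upper (c := []) rfl _ [lvlS0] hI h.2
  have h2 := lower (c := []) (K := fixG []) rfl _ [lvlS0] hu h.2 fun L hL =>
    hgens L (by rw [chainS]; exact List.mem_cons_of_mem _ hL)
  have hb := stab_bot (c := []) rfl lastS_ok
  rw [chainS, List.reverse_cons] at hb
  rw [hb, Subgroup.card_bot, mul_one] at h1 h2
  have hp : chainPts [lvlS0] = [ptA] := by rw [chainPts, List.map_cons, List.map_nil, lvlS0_pt]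
  rw [hp, ← centralizer_ptA] at h1 h2
  refine (le_antisymm h1 h2).trans ?_
  decide +kernel

end Cfsg.Agent.H50.M22Outer
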