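import Cfsg.Agent.H50.M22Outer.Fixed
import Cfsg.Agent.H50.M22Outer.LabelData
import Cfsg.Agent.H84.M22Plus.Embed

/-!
The fixed subgroup of the diagram symmetry is the automorphism group of `Ω₈⁺(2)`.
-/

set_option autoImplicit false
set_option maxRecDepth 100000

namespace Cfsg.Agent.H50.M22Outer

open Cfsg.Spor Cfsg.Agent.H16 EnumData
open Cfsg.Agent.H16.Fi22U (el)
open Cfsg.Agent.H89.Fi22Type (mem tword endPt)
open Cfsg.Agent.H14.Omega8 (W8 K8 sr sgn8 lift8 lift8_sr evenHom mE8)

local notation "F2" => ZMod 2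
local notation "Om" => Cfsg.Agent.H84.M22Plus.Om

/-! ### The classes of fixed points -/

/-- the class of a point -/
noncomputable def lab (y : Nat) : Nat := labArr.get 2 y

/-- path to a member of the diagram -/
def ePath (i : Nat) : List Nat := e8Paths.getD i []

/-- the exchange of the classes by a member of the first class -/
def labSwap (l : Nat) : Nat := if l = 1 then 2 else if l = 2 then 1 else l

/-- the representatives of the three classes -/
noncomputable def repPt (l : Nat) : Nat := run (fixPaths.getD (classPts.getD l 0) []) 0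

/-- the generators preserve the partition into classes -/
noncomputable def blockOK (w : List Nat) : Bool :=
  forceNat (lab (run w (repPt 0))) fun l0 => forceNat (lab (run w (repPt 1))) fun l1 =>
  forceNat (lab (run w (repPt 2))) fun l2 =>
    okW w && !(Nat.beq l0 l1) && !(Nat.beq l0 l2) && !(Nat.beq l1 l2) &&
    allFrom (fun y => forceNat y fun y => forceNat (lab y) fun l => Nat.ble 3 l ||
      Nat.beq (lab (run w y)) (cond (Nat.beq l 0) l0 (cond (Nat.beq l 1) l1 l2))) 3510 0

theorem lab_check : (allFrom (fun y => forceNat y fun y =>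
    beqB (Nat.beq (piN y) y) (Nat.ble (lab y + 1) 3)) 3510 0 &&
    allFrom (fun l => Nat.beq (piN (repPt l)) (repPt l) && Nat.beq (lab (repPt l)) l &&
      okW (fixPaths.getD (classPts.getD l 0) [])) 3 0) = true := by
  decide +kernel

theorem gens_block : (chainS.all fun L => L.gens.all blockOK) = true := by decide +kernel

/-- a fixed point -/
def IsFix (x : Pt) : Prop := piP x = x

theorem isFix_iff (x : Pt) : IsFix x ↔ lab x < 3 := by
  have h := lab_check
  rw [Bool.and_eq_true] at h
  have h' := allFrom_spec h.1 x (Nat.zero_le _) (by rw [Nat.zero_add, ← n_eq]; exact x.2)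
  rw [forceNat_eq, beqB_iff] at h'
  unfold IsFix
  rw [Fin.ext_iff, piP_val, ← Nat.beq_eq, h']
  exact ⟨fun h => Nat.le_of_ble_eq_true h, fun h => Nat.ble_eq_true_of_le h⟩

theorem tau_nil (g : Fi22) : tau [] g = sigma g := by rw [tau_apply, el_nil]; simp

theorem tP_nil (x : Pt) : tP [] x = piP x := by
  show piP (Fi22U.act (el []) x) = piP x
  rw [el_nil]; simp

theorem isFix_act {g : Fi22} (hg : g ∈ fixG []) {x : Pt} (hx : IsFix x) :
    IsFix (Fi22U.act g x) := by
  unfold IsFix at hx ⊢
  rw [← tP_nil, tP_act_fixed hg, tP_nil, hx]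

/-- the element preserves the partition -/
def Blk (g : Fi22) : Prop :=
  ∀ x y : Pt, IsFix x → IsFix y →
    (lab x = lab y ↔ lab (Fi22U.act g x : Pt) = lab (Fi22U.act g y : Pt))

theorem blk_of_mem {g : Fi22} (hg : g ∈ fixG []) : Blk g := by
  haveI := H89.Fi22Type.finite_fi22
  have hg' : g ∈ Submonoid.closure (chainGens chainS) := by
    rw [← Subgroup.closure_toSubmonoid_of_finite, fixS.2]; exact hg
  suffices g ∈ fixG [] ∧ Blk g from this.2
  clear hg
  induction hg' using Submonoid.closure_induction with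
  | one => exact ⟨one_mem _, fun x y _ _ => by simp⟩
  | mem x hx =>
    obtain ⟨L, hL, w, hw, rfl⟩ := hx
    refine ⟨by rw [← fixS.2]; exact Subgroup.subset_closure ⟨L, hL, w, hw, rfl⟩, ?_⟩
    have h := List.all_eq_true.1 (List.all_eq_true.1 gens_block L hL) w hw
    simp only [blockOK, forceNat_eq, Bool.and_eq_true, Bool.not_eq_true'] at h
    obtain ⟨⟨⟨⟨hok, n01⟩, n02⟩, n12⟩, hall⟩ := h
    have key : ∀ p : Pt, IsFix p → lab (Fi22U.act (el w) p : Pt) =
        lab (run w (repPt (lab p))) := by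
      intro p hp
      have h' := allFrom_spec hall p (Nat.zero_le _) (by rw [Nat.zero_add, ← n_eq]; exact p.2)
      have hl := (isFix_iff p).1 hp
      simp only [forceNat_eq, Bool.or_eq_true] at h'
      rcases h' with h' | h'
      · exact absurd (Nat.le_of_ble_eq_true h') (by omega)
      rw [act_val hok, Nat.eq_of_beq_eq_true h']
      rcases (by omega : lab p = 0 ∨ lab p = 1 ∨ lab p = 2) with e | e | e <;> rw [e] <;> rfl
    intro p q hp hq
    rw [key p hp, key q hq]
    refine ⟨fun e => by rw [e], fun e => ?_⟩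
    have hlp := (isFix_iff p).1 hp
    have hlq := (isFix_iff q).1 hq
    have ne : ∀ {a b : Nat}, Nat.beq a b = false → a ≠ b := fun {a b} h e => by
      rw [e, Nat.beq_refl] at h; exact Bool.noConfusion h
    rcases (by omega : lab p = 0 ∨ lab p = 1 ∨ lab p = 2) with a | a | a <;>
      rcases (by omega : lab q = 0 ∨ lab q = 1 ∨ lab q = 2) with b | b | b <;>
      rw [a, b] at e ⊢
    · exact absurd e (ne n01)
    · exact absurd e (ne n02)
    · exact absurd e.symm (ne n01)
    · exact absurd e (ne n12)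
    · exact absurd e.symm (ne n02)
    · exact absurd e.symm (ne n12)
  | mul x y _ _ hx hy =>
    refine ⟨mul_mem hx.1 hy.1, fun p q hp hq => ?_⟩
    rw [map_mul, Equiv.Perm.mul_apply, Equiv.Perm.mul_apply]
    exact (hy.2 p q hp hq).trans (hx.2 _ _ (isFix_act hy.1 hp) (isFix_act hy.1 hq))

/-- the elements preserving each class -/
noncomputable def classKer : Subgroup Fi22 where
  carrier := {g | g ∈ fixG [] ∧ ∀ x : Pt, IsFix x → lab (Fi22U.act g x : Pt) = lab x}
  one_mem' := ⟨one_mem _, fun x _ => by simp⟩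
  mul_mem' := fun {a b} ha hb => ⟨mul_mem ha.1 hb.1, fun x hx => by
    rw [map_mul, Equiv.Perm.mul_apply, ha.2 _ (isFix_act hb.1 hx), hb.2 x hx]⟩
  inv_mem' := fun {a} ha => ⟨inv_mem ha.1, fun x hx => by
    have h := ha.2 _ (isFix_act (inv_mem ha.1) hx)
    rw [map_inv] at h ⊢
    rw [Equiv.Perm.coe_inv, Equiv.apply_symm_apply] at h
    exact h.symm⟩

theorem classKer_conj {u g : Fi22} (hu : u ∈ fixG []) (hg : g ∈ classKer) :
    u * g * u⁻¹ ∈ classKer := by
  refine ⟨mul_mem (mul_mem hu hg.1) (inv_mem hu), fun x hx => ?_⟩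
  have hy := isFix_act (inv_mem hu) hx
  rw [map_mul, map_mul, Equiv.Perm.mul_apply, Equiv.Perm.mul_apply]
  have h := (blk_of_mem hu _ _ (isFix_act hg.1 hy) hy).1 (hg.2 _ hy)
  rw [h, map_inv, Equiv.Perm.coe_inv, Equiv.apply_symm_apply]

/-! ### Six cosets -/

/-- the six permutations of the classes -/
def cosetWord (i : Nat) : List Nat :=
  [[], tword (ePath 0), tword otherPath, tword (ePath 0) ++ tword otherPath,
    tword otherPath ++ tword (ePath 0),
    tword (ePath 0) ++ tword otherPath ++ tword (ePath 0)].getD i []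

theorem coset_check : allFrom (fun i => okW (cosetWord i) && sameW (sw (cosetWord i)) (cosetWord i) &&
    allFrom (fun j => Nat.beq i j || (List.range 3).any fun l =>
      !(Nat.beq (lab (run (cosetWord i) (repPt l))) (lab (run (cosetWord j) (repPt l))))) 6 0) 6 0 =
    true := by
  decide +kernel

theorem classKer_le : classKer ≤ fixG [] := fun _ h => h.1

theorem card_classKer_le : Nat.card classKer ≤ 174182400 := by
  haveI := H89.Fi22Type.finite_fi22
  have hspec : ∀ i : Fin 6, okW (cosetWord i) = true ∧ el (cosetWord i) ∈ fixG [] := by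
    intro i
    have h := allFrom_spec coset_check i (Nat.zero_le _) (by omega)
    simp only [Bool.and_eq_true] at h
    refine ⟨h.1.1, ?_⟩
    rw [mem_fixG, tau_nil, sigma_el h.1.1]
    exact el_eq (okW_sw h.1.1) h.1.1 h.1.2
  let f : Fin 6 × classKer → fixG [] := fun z =>
    ⟨el (cosetWord z.1) * z.2, mul_mem (hspec z.1).2 z.2.2.1⟩
  have hf : Function.Injective f := by
    rintro ⟨i, x⟩ ⟨j, y⟩ e
    have e' : el (cosetWord i) * (x : Fi22) = el (cosetWord j) * y := congrArg Subtype.val e
    obtain rfl : i = j := by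
      by_contra hij
      have h := allFrom_spec (Bool.and_eq_true _ _ ▸
        allFrom_spec coset_check i (Nat.zero_le _) (by omega)).2 j (Nat.zero_le _) (by omega)
      simp only [Bool.or_eq_true, List.any_eq_true, List.mem_range, Bool.not_eq_true'] at h
      rcases h with h | ⟨l, hl, hne⟩
      · exact hij (Fin.ext (Nat.eq_of_beq_eq_true h))
      have hlc := lab_check
      rw [Bool.and_eq_true] at hlc
      have hr := allFrom_spec hlc.2 l (Nat.zero_le _) (by omega)
      simp only [Bool.and_eq_true] at hr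
      let p : Pt := endPt (fixPaths.getD (classPts.getD l 0) [])
      have hpv : (p : Nat) = repPt l := endPt_run _ hr.2
      have hp : IsFix p := Fin.ext (by rw [piP_val, hpv]; exact Nat.eq_of_beq_eq_true hr.1.1)
      have key : ∀ (k : Fin 6) (z : classKer),
          lab (Fi22U.act (el (cosetWord k) * (z : Fi22)) p : Pt) =
            lab (run (cosetWord k) (repPt l)) := by
        intro k z
        rw [map_mul, Equiv.Perm.mul_apply,
          (blk_of_mem (hspec k).2 _ _ (isFix_act z.2.1 hp) hp).1 (z.2.2 p hp), act_val (hspec k).1,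
          hpv]
      rw [← key i x, e', key j y, Nat.beq_refl] at hne
      exact Bool.noConfusion hne
    rw [Subtype.ext (mul_left_cancel e')]
  have h := Nat.card_le_card_of_injective f hf
  rw [Nat.card_prod, Nat.card_fin, fixS.1] at h
  omega

/-! ### The map of W(E8) -/

/-- a member of the diagram -/
noncomputable def eMem (i : Fin 8) : Fi22 := mem (endPt (ePath i))

theorem e_check : (List.finRange 8).all (fun i : Fin 8 => okW (ePath i) &&
    Nat.beq (piN (run (ePath i) 0)) (run (ePath i) 0) && Nat.beq (lab (run (ePath i) 0)) 0 &&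
    ((List.finRange 8).all fun j : Fin 8 =>
      sameW ((List.replicate (mE8 i j) (tword (ePath j) ++ tword (ePath i))).flatten) []) &&
    allFrom (fun y => forceNat y fun y => forceNat (lab y) fun l => Nat.ble 3 l ||
      Nat.beq (lab (run (tword (ePath i)) y)) (labSwap l)) 3510 0) = true := by
  decide +kernel

theorem e_spec (i : Fin 8) : okW (ePath i) = true ∧ piP (endPt (ePath i)) = endPt (ePath i) ∧
    lab (endPt (ePath i) : Pt) = 0 ∧
    (∀ j : Fin 8, sameW ((List.replicate (mE8 i j) (tword (ePath j) ++ tword (ePath i))).flatten) [] = true) ∧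
    ∀ x : Pt, IsFix x → lab (Fi22U.act (eMem i) x : Pt) = labSwap (lab x) := by
  have h := List.all_eq_true.1 e_check i (List.mem_finRange i)
  simp only [Bool.and_eq_true, List.all_eq_true] at h
  obtain ⟨⟨⟨⟨hok, hpi⟩, hl⟩, hrel⟩, hswap⟩ := h
  refine ⟨hok, Fin.ext ?_, ?_, fun j => hrel j (List.mem_finRange j), fun x hx => ?_⟩
  · rw [piP_val, endPt_run _ hok]; exact Nat.eq_of_beq_eq_true hpi
  · rw [endPt_run _ hok]; exact Nat.eq_of_beq_eq_true hl
  · have h' := allFrom_spec hswap x (Nat.zero_le _) (by rw [Nat.zero_add, ← n_eq]; exact x.2)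
    simp only [forceNat_eq, Bool.or_eq_true] at h'
    rcases h' with h' | h'
    · exact absurd (Nat.le_of_ble_eq_true h') (by have := (isFix_iff x).1 hx; omega)
    rw [eMem, mem_endPt, act_val (okW_tword hok)]
    exact Nat.eq_of_beq_eq_true h'

theorem eMem_fix (i : Fin 8) : eMem i ∈ fixG [] := by
  rw [mem_fixG, tau_nil, eMem, sigma_mem, (e_spec i).2.1]

theorem eMem_liftable : CoxeterMatrix.E₈.IsLiftable eMem := by
  intro i j
  have hrep : ∀ (m : Nat) (w : List Nat), okW w = true → okW (List.replicate m w).flatten = true := by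
    intro m w hw
    induction m with
    | zero => rfl
    | succ m ih =>
      rw [List.replicate_succ, List.flatten_cons]
      exact okW_append.2 ⟨hw, ih⟩
  have hw : okW (tword (ePath j) ++ tword (ePath i)) = true :=
    okW_append.2 ⟨okW_tword (e_spec j).1, okW_tword (e_spec i).1⟩
  have e := el_eq (hrep (mE8 i j) _ hw) rfl ((e_spec i).2.2.2.1 j)
  rw [el_nil] at e
  rw [eMem, eMem, mem_endPt, mem_endPt, ← el_append]
  show el _ ^ mE8 i j = 1
  rw [← e]
  exact (ev_replicate _ _ _).symm

/-- the map of W(E8) -/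
noncomputable def psi : W8 →* Fi22 := lift8 eMem eMem_liftable

theorem psi_sr (i : Fin 8) : psi (sr i) = eMem i := lift8_sr _ _ i

theorem psi_lab (w : W8) : psi w ∈ fixG [] ∧ ∀ x : Pt, IsFix x →
    lab (Fi22U.act (psi w) x : Pt) = if sgn8 w = 1 then lab x else labSwap (lab x) := by
  induction w using CoxeterSystem.simple_induction_left CoxeterMatrix.E₈.toCoxeterSystem with
  | one => exact ⟨by rw [map_one]; exact one_mem _, fun x _ => by simp⟩
  | mul_simple_left w i ih =>
    rw [CoxeterMatrix.toCoxeterSystem_simple]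
    show psi (sr i * w) ∈ fixG [] ∧ _
    refine ⟨by rw [map_mul, psi_sr]; exact mul_mem (eMem_fix i) ih.1, fun x hx => ?_⟩
    show lab (Fi22U.act (psi (sr i * w)) x : Pt) = if sgn8 (sr i * w) = 1 then _ else _
    rw [map_mul psi, map_mul Fi22U.act, Equiv.Perm.mul_apply, psi_sr,
      (e_spec i).2.2.2.2 _ (isFix_act ih.1 hx), ih.2 x hx, map_mul sgn8, H14.Omega8.sgn8_sr]
    have hl := (isFix_iff x).1 hx
    have hss : labSwap (labSwap (lab x)) = lab x := by
      rcases (by omega : lab x = 0 ∨ lab x = 1 ∨ lab x = 2) with e | e | e <;> rw [e] <;> rfl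
    rcases Int.units_eq_one_or (sgn8 w) with h | h <;> simp [h, hss]

/-- the map on the even part -/
noncomputable def psiK : K8 →* Fi22 := psi.comp K8.subtype

theorem psiK_range : psiK.range ≤ classKer := by
  rintro _ ⟨k, rfl⟩
  refine ⟨(psi_lab k.1).1, fun x hx => ?_⟩
  show lab (Fi22U.act (psi k.1) x : Pt) = _
  rw [(psi_lab k.1).2 x hx, if_pos (show sgn8 k.1 = 1 from k.2)]

theorem order_check :
    (!(sameW (tword (ePath 2) ++ tword (ePath 0)) []) &&
    !(sameW (tword (ePath 2) ++ tword (ePath 0) ++ (tword (ePath 2) ++ tword (ePath 0))) []) &&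
    Nat.beq (run (tword (ePath 2) ++ tword (ePath 0)) (run (ePath 0) 0)) (run (ePath 2) 0) &&
    !(Nat.beq (run (ePath 2) 0) (run (ePath 0) 0))) = true := by
  decide +kernel

theorem el_ne_one {w : List Nat} (hw : okW w = true) (h : sameW w [] = false) : el w ≠ 1 := by
  intro e
  have : sameW w [] = true := List.all_eq_true.2 fun b hb => by
    have h1 := act_val hw ⟨b, basePts_lt b hb⟩
    rw [e, map_one] at h1
    exact beqT h1.symm
  rw [this] at h
  exact Bool.noConfusion h

theorem psiK_ker : psiK.ker ≤ (evenHom F2).ker := by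
  haveI := H84.M22Plus.omega_simple
  have hn : (psiK.ker.map (evenHom F2)).Normal :=
    (inferInstance : psiK.ker.Normal).map _ H84.M22Plus.evenHom_surjective
  rcases hn.eq_bot_or_eq_top with h | h
  · exact (Subgroup.map_eq_bot_iff _).1 h
  exfalso
  have hr : ∀ k : K8, ∃ m ∈ (evenHom F2).ker, psiK m = psiK k := by
    intro k
    obtain ⟨m, hm, hmk⟩ := (h ▸ Subgroup.mem_top (evenHom F2 k) :
      evenHom F2 k ∈ psiK.ker.map (evenHom F2))
    refine ⟨k * m⁻¹, ?_, ?_⟩
    · rw [MonoidHom.mem_ker, map_mul, map_inv, hmk, mul_inv_cancel]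
    · rw [map_mul, map_inv, MonoidHom.mem_ker.1 hm, inv_one, mul_one]
  set x : K8 := ⟨sr 0 * sr 2, H14.Omega8.sr_mul_sr_mem 0 2⟩ with hx
  have hxv : psiK x = el (tword (ePath 2) ++ tword (ePath 0)) := by
    show psi (sr 0 * sr 2) = _
    rw [map_mul, psi_sr, psi_sr, eMem, eMem, mem_endPt, mem_endPt, el_append]
    rfl
  have h' := order_check
  simp only [Bool.and_eq_true, Bool.not_eq_true'] at h'
  have hok : okW (tword (ePath 2) ++ tword (ePath 0)) = true :=
    okW_append.2 ⟨okW_tword (e_spec 2).1, okW_tword (e_spec 0).1⟩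
  have n1 : psiK x ≠ 1 := by rw [hxv]; exact el_ne_one hok h'.1.1.1
  have n2 : psiK (x * x) ≠ 1 := by
    rw [map_mul, hxv, ← el_append]
    exact el_ne_one (okW_append.2 ⟨hok, hok⟩) h'.1.1.2
  obtain ⟨a, ha, ea⟩ := hr x
  obtain ⟨b, hb, eb⟩ := hr (x * x)
  rcases H14.Omega8.evenHom_ker_two ha hb with e | e | e
  · exact n1 (by rw [← ea, e, map_one])
  · exact n2 (by rw [← eb, e, map_one])
  · refine n1 ?_
    have : psiK x = psiK x * psiK x := by rw [← map_mul, ← ea, ← eb, e]
    exact mul_eq_left.1 this.symm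

theorem psiK_facts : psiK.ker = (evenHom F2).ker ∧ psiK.range = classKer ∧
    Nat.card classKer = 174182400 := by
  haveI := H89.Fi22Type.finite_fi22
  haveI := H14.Omega8.finite_W8
  have h1 : (evenHom F2).ker.index ∣ psiK.ker.index := Subgroup.index_dvd_of_le psiK_ker
  rw [Subgroup.index_ker, Subgroup.index_ker, MonoidHom.range_eq_top.2 H84.M22Plus.evenHom_surjective,
    Subgroup.card_top, H84.M22Plus.omega_card] at h1
  have h2 : 174182400 ≤ Nat.card psiK.range := Nat.le_of_dvd Nat.card_pos h1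
  have h3 := Subgroup.card_le_of_le psiK_range
  have h4 := card_classKer_le
  have h5 : psiK.range = classKer := Subgroup.eq_of_le_of_card_ge psiK_range (by omega)
  refine ⟨?_, h5, by omega⟩
  refine Subgroup.eq_of_le_of_card_ge psiK_ker ?_
  have e1 := psiK.ker.card_mul_index
  have e2 := (evenHom F2).ker.card_mul_index
  rw [Subgroup.index_ker] at e1 e2
  rw [MonoidHom.range_eq_top.2 H84.M22Plus.evenHom_surjective, Subgroup.card_top,
    H84.M22Plus.omega_card] at e2
  have hr : Nat.card psiK.range = 174182400 := le_antisymm (h3.trans h4) h2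
  rw [hr] at e1
  exact le_of_eq (Nat.eq_of_mul_eq_mul_right (by norm_num) (e2.trans e1.symm))

/-! ### The centraliser -/

theorem e3_spec : okW (ePath 3) = true ∧ piP (endPt (ePath 3)) = endPt (ePath 3) ∧
    lab (endPt (ePath 3) : Pt) = 0 :=
  ⟨(e_spec 3).1, (e_spec 3).2.1, (e_spec 3).2.2.1⟩

theorem cent_check : ((fixPaths.zip centWit).all fun z => okW z.1 &&
    (Nat.beq (run z.1 0) (run (ePath 3) 0) ||
      (Nat.ble (z.2.1 + 1) 8 && Nat.ble (z.2.2 + 1) 8 &&
        !(Nat.beq (run (tword z.1 ++ (tword (ePath 3) ++ tword (ePath z.2.1)) ++ tword z.1)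
            (run (ePath z.2.2) 0))
          (run (tword (ePath 3) ++ tword (ePath z.2.1)).reverse (run (ePath z.2.2) 0)))))) = true ∧
    allFrom (fun y => forceNat y fun y => !(Nat.beq (piN y) y) ||
      (fixPaths.zip centWit).any fun z => Nat.beq (run z.1 0) y) 3510 0 = true := by
  decide +kernel

theorem other_check : (okW otherPath && Nat.beq (piN (run otherPath 0)) (run otherPath 0) &&
    Nat.beq (lab (run (tword otherPath) (run (ePath 3) 0))) 2) = true := by
  decide +kernel

/-- An element centralising the even part fixes a member of the diagram. -/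
theorem cent_fixes {g : Fi22} (hg : g ∈ fixG []) (hc : ∀ n ∈ psiK.range, g * n = n * g) :
    Fi22U.act g (endPt (ePath 3)) = endPt (ePath 3) := by
  have hu : ∀ i : Fin 8, g * (eMem i * eMem 3) * g⁻¹ = eMem i * eMem 3 := by
    intro i
    have h := hc (eMem i * eMem 3) ⟨⟨sr i * sr 3, H14.Omega8.sr_mul_sr_mem i 3⟩, by
      show psi (sr i * sr 3) = _
      rw [map_mul, psi_sr, psi_sr]⟩
    rw [h, mul_inv_cancel_right]
  set y := Fi22U.act g (endPt (ePath 3)) with hy
  have hyfix : IsFix y := isFix_act hg e3_spec.2.1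
  obtain ⟨h1, h2⟩ := cent_check
  have h3 := allFrom_spec h2 y (Nat.zero_le _) (by rw [Nat.zero_add, ← n_eq]; exact y.2)
  have hpi : piN (y : Nat) = y := congrArg Fin.val hyfix
  simp only [forceNat_eq, hpi, Nat.beq_refl, Bool.not_true, Bool.false_or] at h3
  obtain ⟨z, hz, hzy⟩ := List.any_eq_true.1 h3
  have h4 := List.all_eq_true.1 h1 z hz
  simp only [Bool.and_eq_true, Bool.or_eq_true, Bool.not_eq_true'] at h4
  obtain ⟨hzok, h4⟩ := h4
  have hzp : endPt z.1 = y := Fin.ext (by rw [endPt_run _ hzok]; exact Nat.eq_of_beq_eq_true hzy)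
  rcases h4 with h4 | ⟨⟨hi, hl⟩, hne⟩
  · apply Fin.ext
    rw [← hzp, endPt_run _ hzok, endPt_run _ e3_spec.1]
    exact Nat.eq_of_beq_eq_true h4
  exfalso
  have hi' := Nat.le_of_ble_eq_true hi
  have hl' := Nat.le_of_ble_eq_true hl
  set h := eMem ⟨z.2.1, hi'⟩ * eMem 3 with hh
  set x := mem y with hxdef
  have hsq : ∀ p : Pt, mem p * mem p = 1 := fun p => by
    obtain ⟨u, rfl⟩ := H89.Fi22Type.exists_reach p
    rw [H89.Fi22Type.mem_eq]
    calc u * H4.ThreeTransp.Fi22.dd * u⁻¹ * (u * H4.ThreeTransp.Fi22.dd * u⁻¹)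
        = u * (H4.ThreeTransp.Fi22.dd * H4.ThreeTransp.Fi22.dd) * u⁻¹ := by group
      _ = 1 := by rw [H89.Fi22Type.dd_sq]; group
  have hxe : g * eMem 3 * g⁻¹ = x := H89.Fi22Type.mem_rho g _
  have hxi : g * eMem ⟨z.2.1, hi'⟩ * g⁻¹ = h * x := by
    have := hu ⟨z.2.1, hi'⟩
    calc g * eMem ⟨z.2.1, hi'⟩ * g⁻¹
        = g * (eMem ⟨z.2.1, hi'⟩ * eMem 3) * g⁻¹ * (g * eMem 3 * g⁻¹)⁻¹ := by group
      _ = h * x := by rw [this, hxe, inv_eq_of_mul_eq_one_right (hsq y)]
  have hkey : x * h * x = h⁻¹ := by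
    have e1 : (h * x) * (h * x) = 1 := by
      rw [← hxi]
      calc g * eMem ⟨z.2.1, hi'⟩ * g⁻¹ * (g * eMem ⟨z.2.1, hi'⟩ * g⁻¹)
          = g * (eMem ⟨z.2.1, hi'⟩ * eMem ⟨z.2.1, hi'⟩) * g⁻¹ := by group
        _ = 1 := by rw [eMem, hsq]; group
    refine eq_inv_of_mul_eq_one_right ?_
    rw [← e1]; group
  have hokh : okW (tword (ePath 3) ++ tword (ePath z.2.1)) = true :=
    okW_append.2 ⟨okW_tword e3_spec.1, okW_tword (e_spec ⟨z.2.1, hi'⟩).1⟩
  have hhel : h = el (tword (ePath 3) ++ tword (ePath z.2.1)) := by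
    rw [el_append, ← mem_endPt, ← mem_endPt]; rfl
  have hxel : x = el (tword z.1) := by rw [← mem_endPt, hzp]
  have hok3 : okW (tword z.1 ++ (tword (ePath 3) ++ tword (ePath z.2.1)) ++ tword z.1) = true :=
    okW_append.2 ⟨okW_append.2 ⟨okW_tword hzok, hokh⟩, okW_tword hzok⟩
  rw [hxel, hhel, ← el_reverse, mul_assoc, ← el_append, ← el_append] at hkey
  have h5 := act_val hok3 (endPt (ePath z.2.2))
  rw [hkey, act_val (okW_reverse.trans hokh), endPt_run _ (e_spec ⟨z.2.2, hl'⟩).1] at h5
  rw [← h5, Nat.beq_refl] at hne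
  exact Bool.noConfusion hne

theorem classKer_center {g : Fi22} (hg : g ∈ classKer) (hc : ∀ n ∈ classKer, g * n = n * g) :
    g = 1 := by
  rw [← psiK_facts.2.1] at hg hc
  obtain ⟨k, rfl⟩ := hg
  have hz : evenHom F2 k ∈ Subgroup.center Om := Subgroup.mem_center_iff.2 fun m => by
    obtain ⟨l, rfl⟩ := H84.M22Plus.evenHom_surjective m
    have h := hc (psiK l) ⟨l, rfl⟩
    rw [← map_mul, ← map_mul] at h
    have h' : (k * l) * (l * k)⁻¹ ∈ psiK.ker := by
      rw [MonoidHom.mem_ker, map_mul, map_inv, h, mul_inv_cancel]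
    rw [psiK_facts.1, MonoidHom.mem_ker, map_mul, map_inv, mul_inv_eq_one, map_mul, map_mul] at h'
    exact h'.symm
  rw [H84.M22Plus.omega_center, Subgroup.mem_bot] at hz
  have : k ∈ psiK.ker := by rw [psiK_facts.1]; exact hz
  exact this

theorem centralizer_trivial {g : Fi22} (hg : g ∈ fixG []) (hc : ∀ n ∈ classKer, g * n = n * g) :
    g = 1 := by
  refine classKer_center ⟨hg, fun x hx => ?_⟩ hc
  have hc' : ∀ n ∈ psiK.range, g * n = n * g := fun n hn => hc n (psiK_range hn)
  have h0 := cent_fixes hg hc'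
  have ho := other_check
  simp only [Bool.and_eq_true] at ho
  obtain ⟨⟨hoq, hqpi⟩, hq2⟩ := ho
  have hqfix : piP (endPt otherPath) = endPt otherPath :=
    Fin.ext (by rw [piP_val, endPt_run _ hoq]; exact Nat.eq_of_beq_eq_true hqpi)
  set q := mem (endPt otherPath) with hq
  have hqmem : q ∈ fixG [] := by rw [mem_fixG, tau_nil, hq, sigma_mem, hqfix]
  have hg' := cent_fixes (g := q⁻¹ * g * q) (mul_mem (mul_mem (inv_mem hqmem) hg) hqmem) fun n hn => by
    have hm : q * n * q⁻¹ ∈ classKer := classKer_conj hqmem (psiK_range hn)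
    calc q⁻¹ * g * q * n = q⁻¹ * (g * (q * n * q⁻¹)) * q := by group
      _ = q⁻¹ * ((q * n * q⁻¹) * g) * q := by rw [hc _ hm]
      _ = n * (q⁻¹ * g * q) := by group
  rw [map_mul, map_mul, map_inv, Equiv.Perm.mul_apply, Equiv.Perm.mul_apply,
    Equiv.Perm.inv_eq_iff_eq] at hg'
  set p2 := Fi22U.act q (endPt (ePath 3)) with hp2
  have hlab2 : lab (p2 : Pt) = 2 := by
    rw [hp2, hq, mem_endPt, act_val (okW_tword hoq), endPt_run _ e3_spec.1]
    exact Nat.eq_of_beq_eq_true hq2
  have hb := blk_of_mem hg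
  have hlt := (isFix_iff _).1 (isFix_act hg hx)
  have hxl := (isFix_iff x).1 hx
  have f0 : IsFix (endPt (ePath 3)) := e3_spec.2.1
  have f2 : IsFix p2 := isFix_act hqmem f0
  have hl0 := e3_spec.2.2
  have b0 := hb x _ hx f0
  have b2 := hb x _ hx f2
  rw [h0, hl0] at b0
  rw [hg', hlab2] at b2
  omega

/-- The fixed subgroup of the symmetry is the automorphism group of `Ω₈⁺(2)`. -/
theorem omega_iso : Nonempty (↥(fixG []) ≃*
    MulAut (Cfsg.Omega (ZMod 2) (Cfsg.quadFormPlus 4 (ZMod 2)))) := by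
  haveI := H89.Fi22Type.finite_fi22
  haveI hN : (classKer.subgroupOf (fixG [])).Normal :=
    ⟨fun n hn u => classKer_conj u.2 hn⟩
  have e0 : ↥(classKer.subgroupOf (fixG [])) ≃* ↥classKer :=
    Subgroup.subgroupOfEquivOfLe classKer_le
  have e1 : ↥classKer ≃* Om :=
    (MulEquiv.subgroupCongr psiK_facts.2.1.symm).trans
      ((QuotientGroup.quotientKerEquivRange psiK).symm.trans
        ((QuotientGroup.quotientMulEquivOfEq psiK_facts.1).trans
          (QuotientGroup.quotientKerEquivOfSurjective _ H84.M22Plus.evenHom_surjective)))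
  let f : fixG [] →* MulAut ↥(classKer.subgroupOf (fixG [])) := MulAut.conjNormal
  have hinj : Function.Injective f := by
    refine (injective_iff_map_eq_one _).2 fun u hu => ?_
    apply Subtype.ext
    refine centralizer_trivial u.2 fun n hn => ?_
    have := congrArg (fun φ => ((φ ⟨⟨n, classKer_le hn⟩, hn⟩ : classKer.subgroupOf (fixG [])) : Fi22)) hu
    exact mul_inv_eq_iff_eq_mul.1 this
  have hcard : Nat.card (fixG []) = Nat.card (MulAut ↥(classKer.subgroupOf (fixG []))) := by
    rw [fixS.1, Nat.card_congr (MulAut.congr (e0.trans e1)).toEquiv, H84.M22Plus.omega_card_aut]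
  haveI : Finite (MulAut ↥(classKer.subgroupOf (fixG []))) :=
    Nat.finite_of_card_ne_zero (by rw [← hcard]; exact Nat.card_pos.ne')
  exact ⟨(MulEquiv.ofBijective f ((Nat.bijective_iff_injective_and_card _).2 ⟨hinj, hcard⟩)).trans
    (MulAut.congr (e0.trans e1))⟩

end Cfsg.Agent.H50.M22Outer
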