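import Cfsg.Agent.H50.M22Outer.Fixed
import Cfsg.Agent.H14.Sp6.Coxeter
import Cfsg.Agent.H2.Simple
import Cfsg.Agent.S0270

/-!
The fixed subgroup of the first outer involution meets the centraliser of a fixed transposition in
the direct product of a group of order two and `PSp₆(2)`: it is a copy of the Coxeter group of type
`E₇`.
-/

set_option autoImplicit false
set_option maxRecDepth 100000

namespace Cfsg.Agent.H50.M22Outer

open Cfsg.Spor Cfsg.Agent.H16 EnumData
open Cfsg.Agent.H16.Fi22U (el)
open Cfsg.Agent.H89.Fi22Type (mem tword endPt o)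
open Cfsg.Agent.H14.Sp6 (W7 mE7 lift7 lift7_simple liftable_of_rels sign7 pspHom closure_simple)

namespace E7

/-- the word of a node -/
def wN (i : Fin 7) : List Nat := tword (e7Paths.getD i [])

/-- the product of the nodes in order -/
def cW : List Nat := wN 6 ++ wN 5 ++ wN 4 ++ wN 3 ++ wN 2 ++ wN 1 ++ wN 0

theorem node_check : ∀ i : Fin 7, okW (wN i) = true ∧ sameW (wN i ++ wN i) [] = true ∧
    sameW (tW [] (wN i)) (wN i) = true ∧
    sameW (wN i ++ wordA) (wordA ++ wN i) = true := by decide +kernel

theorem rel_check : ∀ i j : Fin 7,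
    (mE7 i j = 2 → sameW (wN j ++ wN i) (wN i ++ wN j) = true) ∧
    (mE7 i j = 3 → sameW (wN i ++ wN j ++ wN i) (wN j ++ wN i ++ wN j) = true) := by decide +kernel

theorem long_check : sameW (cW ++ cW ++ cW ++ cW ++ cW ++ cW ++ cW ++ cW ++ cW) wordA = true := by
  decide +kernel

theorem node_ne : sameW (wN 0) (wN 1) = false := by decide +kernel

theorem sameW_of_eq {u v : List Nat} (hu : okW u = true) (hv : okW v = true) (h : el u = el v) :
    sameW u v = true := by
  refine List.all_eq_true.2 fun b hb => ?_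
  rw [← act_val hu ⟨b, basePts_lt b hb⟩, h, act_val hv]
  exact Nat.beq_refl _

/-- the images of the nodes -/
noncomputable def gN (i : Fin 7) : Fi22 := el (wN i)

theorem liftable : CoxeterMatrix.E₇.IsLiftable gN := by
  have ok := fun i => (node_check i).1
  refine liftable_of_rels _ (fun i => ?_) (fun i j h => ?_) fun i j h => ?_
  · show el (wN i) * el (wN i) = 1
    rw [← el_append]
    exact (el_eq (okW_append.2 ⟨ok i, ok i⟩) rfl (node_check i).2.1).trans el_nil
  · show el (wN i) * el (wN j) = el (wN j) * el (wN i)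
    rw [← el_append, ← el_append]
    exact el_eq (okW_append.2 ⟨ok j, ok i⟩) (okW_append.2 ⟨ok i, ok j⟩) ((rel_check i j).1 h)
  · show el (wN i) * el (wN j) * el (wN i) = el (wN j) * el (wN i) * el (wN j)
    rw [← el_append, ← el_append, ← el_append, ← el_append, ← List.append_assoc, ← List.append_assoc]
    exact el_eq (okW_append.2 ⟨okW_append.2 ⟨ok i, ok j⟩, ok i⟩)
      (okW_append.2 ⟨okW_append.2 ⟨ok j, ok i⟩, ok j⟩) ((rel_check i j).2 h)

/-- the map from the Coxeter group -/
noncomputable def T : W7 →* Fi22 := lift7 gN liftable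

/-- a Coxeter element -/
noncomputable def cox : W7 :=
  CoxeterMatrix.E₇.simple 0 * CoxeterMatrix.E₇.simple 1 * CoxeterMatrix.E₇.simple 2 *
    CoxeterMatrix.E₇.simple 3 * CoxeterMatrix.E₇.simple 4 * CoxeterMatrix.E₇.simple 5 *
    CoxeterMatrix.E₇.simple 6

theorem T_cox : T (cox ^ 9) = mem ptA := by
  have h : T cox = el cW := by
    simp only [cox, map_mul, T, lift7_simple, gN, cW, el_append, mul_assoc]
  have hok : okW cW = true := by
    simp only [cW, okW_append, (node_check _).1, and_self]
  have hp : el (cW ++ cW ++ cW ++ cW ++ cW ++ cW ++ cW ++ cW ++ cW) = el cW ^ 9 := by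
    simp only [el_append, pow_succ, pow_zero, one_mul, mul_assoc]
  rw [map_pow, h, ← hp, ← el_wordA]
  exact el_eq (by simp only [okW_append, hok, and_self]) okW_wordA long_check

theorem T_mem (w : W7) : T w ∈ fixG [] ⊓ Subgroup.centralizer {mem ptA} := by
  suffices (⊤ : Subgroup W7) ≤ (fixG [] ⊓ Subgroup.centralizer {mem ptA}).comap T from this (Subgroup.mem_top w)
  rw [← closure_simple, Subgroup.closure_le]
  rintro _ ⟨i, rfl⟩
  rw [SetLike.mem_coe, Subgroup.mem_comap, T, lift7_simple]
  obtain ⟨ok, -, hs, hc⟩ := node_check i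
  refine Subgroup.mem_inf.2 ⟨?_, Subgroup.mem_centralizer_singleton_iff.2 ?_⟩
  · rw [mem_fixG, gN, tau_el rfl ok]
    exact el_eq (okW_tW rfl ok) ok hs
  · rw [gN, ← el_wordA, ← el_append, ← el_append]
    exact el_eq (okW_append.2 ⟨okW_wordA, ok⟩) (okW_append.2 ⟨ok, okW_wordA⟩)
      (sameW_of_eq (okW_append.2 ⟨okW_wordA, ok⟩) (okW_append.2 ⟨ok, okW_wordA⟩)
        (el_eq (okW_append.2 ⟨ok, okW_wordA⟩) (okW_append.2 ⟨okW_wordA, ok⟩) hc).symm)

theorem sign_simple (i : Fin 7) : sign7 (CoxeterMatrix.E₇.simple i) = -1 := lift7_simple _ _ i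

theorem sign_cox : sign7 (cox ^ 9) = -1 := by
  simp only [cox, map_pow, map_mul, sign_simple]
  decide

theorem psp_center : Subgroup.center (Cfsg.PSp 3 (ZMod 2)) = ⊥ := by
  haveI : IsSimpleGroup (Cfsg.PSp 3 (ZMod 2)) := S0270.result 3 (by norm_num) (by norm_num)
  rcases (inferInstance : (Subgroup.center (Cfsg.PSp 3 (ZMod 2))).Normal).eq_bot_or_eq_top with h | h
  · exact h
  · exfalso
    have hc : commutator (Cfsg.PSp 3 (ZMod 2)) = ⊥ := by
      rw [commutator_def, Subgroup.commutator_eq_bot_iff_le_centralizer]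
      intro x _
      exact Subgroup.mem_centralizer_iff.2 fun y _ =>
        Subgroup.mem_center_iff.1 (h.ge (Subgroup.mem_top x)) y
    rw [H14.Sp6.commutator_psp_two] at hc
    exact bot_ne_top hc.symm

theorem commutator_center_bot {y : W7} (hy : y ∈ commutator W7)
    (hc : ∀ x ∈ commutator W7, x * y = y * x) : y = 1 := by
  have hF : Nat.card (ZMod 2) = 2 := by simp
  refine H14.Sp6.eq_one_of_pspHom_eq_one hF hy ?_
  have : pspHom (ZMod 2) y ∈ Subgroup.center (Cfsg.PSp 3 (ZMod 2)) := by
    refine Subgroup.mem_center_iff.2 fun g => ?_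
    obtain ⟨x, hx, rfl⟩ := (H14.Sp6.map_commutator_W7 hF).ge (Subgroup.mem_top g)
    rw [← map_mul, ← map_mul, hc x hx]
  rw [psp_center, Subgroup.mem_bot] at this
  exact this

theorem T_injective : Function.Injective T := by
  haveI := H89.Fi22Type.finite_fi22
  have hF : Nat.card (ZMod 2) = 2 := by simp
  -- the kernel meets the derived subgroup trivially
  have hK : ∀ y ∈ commutator W7, T y = 1 → y = 1 := by
    haveI : IsSimpleGroup (Cfsg.PSp 3 (ZMod 2)) := S0270.result 3 (by norm_num) (by norm_num)
    haveI hn : ((T.ker ⊓ commutator W7 : Subgroup W7).map (pspHom (ZMod 2))).Normal :=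
      Subgroup.Normal.map inferInstance _ (H14.Sp6.pspHom_surjective hF)
    intro y hy hT
    rcases hn.eq_bot_or_eq_top with h | h
    · refine H14.Sp6.eq_one_of_pspHom_eq_one hF hy ?_
      exact Subgroup.mem_bot.1 (h.le ⟨y, Subgroup.mem_inf.2 ⟨hT, hy⟩, rfl⟩)
    · exfalso
      have hle : commutator W7 ≤ T.ker := by
        intro x hx
        obtain ⟨z, hz, e⟩ := h.ge (Subgroup.mem_top (pspHom (ZMod 2) x))
        obtain ⟨hz1, hz2⟩ := Subgroup.mem_inf.1 hz
        have := H14.Sp6.eq_one_of_pspHom_eq_one hF (mul_mem (inv_mem hz2) hx)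
          (by rw [map_mul, map_inv, e, inv_mul_cancel])
        rw [inv_mul_eq_one] at this
        rwa [← this]
      have hsq : ∀ i, gN i * gN i = 1 := fun i => by
        show el (wN i) * el (wN i) = 1
        rw [← el_append]
        exact (el_eq (okW_append.2 ⟨(node_check i).1, (node_check i).1⟩) rfl (node_check i).2.1).trans el_nil
      have habel : ∀ i j, mE7 i j = 3 → gN i = gN j := by
        intro i j hij
        have h1 := hle (Subgroup.commutator_mem_commutator (Subgroup.mem_top (CoxeterMatrix.E₇.simple i))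
          (Subgroup.mem_top (CoxeterMatrix.E₇.simple j)))
        rw [MonoidHom.mem_ker, map_commutatorElement, commutatorElement_eq_one_iff_commute, T,
          lift7_simple, lift7_simple] at h1
        have hb : gN i * gN j * gN i = gN j * gN i * gN j := by
          show el (wN i) * el (wN j) * el (wN i) = el (wN j) * el (wN i) * el (wN j)
          rw [← el_append, ← el_append, ← el_append, ← el_append, ← List.append_assoc, ← List.append_assoc]
          exact el_eq (okW_append.2 ⟨okW_append.2 ⟨(node_check i).1, (node_check j).1⟩, (node_check i).1⟩)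
            (okW_append.2 ⟨okW_append.2 ⟨(node_check j).1, (node_check i).1⟩, (node_check j).1⟩)
            ((rel_check i j).2 hij)
        have l : gN i * gN j * gN i = gN j := by rw [h1.eq, mul_assoc, hsq, mul_one]
        have r : gN j * gN i * gN j = gN i := by rw [← h1.eq, mul_assoc, hsq, mul_one]
        rw [l, r] at hb
        exact hb.symm
      have h01 : gN 0 = gN 1 := by
        have e : ∀ i j : Fin 7, mE7 i j = 3 → gN i = gN j := habel
        exact (e 0 2 (by decide)).trans ((e 2 3 (by decide)).trans ((e 3 1 (by decide))))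
      have := sameW_of_eq (node_check 0).1 (node_check 1).1 h01
      rw [node_ne] at this
      exact Bool.noConfusion this
  rw [← MonoidHom.ker_eq_bot_iff, Subgroup.eq_bot_iff_forall]
  intro z hz
  rw [MonoidHom.mem_ker] at hz
  by_cases hs : z ∈ commutator W7
  · exact hK z hs hz
  exfalso
  have hker := (H14.Sp6.card_commutator_W7 hF).2
  have hzs : sign7 z = -1 := by
    rcases Int.units_eq_one_or (sign7 z) with h | h
    · exact absurd (hker ▸ (MonoidHom.mem_ker.2 h)) hs
    · exact h
  set y := cox ^ 9 * z with hy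
  have hyc : y ∈ commutator W7 := by
    rw [hker, MonoidHom.mem_ker, hy, map_mul, sign_cox, hzs]
    decide
  have hy1 : y = 1 := by
    refine commutator_center_bot hyc fun x hx => ?_
    have hcx : Commute (T x) (mem ptA) :=
      Subgroup.mem_centralizer_singleton_iff.1 (Subgroup.mem_inf.1 (T_mem x)).2
    have h1 : T (x * y * x⁻¹ * y⁻¹) = 1 := by
      simp only [map_mul, map_inv, hy, hz, T_cox, mul_one]
      rw [hcx.eq]
      group
    have h2 := hK _ (mul_mem (mul_mem (mul_mem hx hyc) (inv_mem hx)) (inv_mem hyc)) h1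
    exact mul_inv_eq_iff_eq_mul.1 (mul_inv_eq_one.1 h2)
  have := congrArg T hy1
  rw [hy, map_mul, hz, mul_one, T_cox, map_one] at this
  have hs2 : sameW wordA [] = false := by decide +kernel
  have h3 := sameW_of_eq okW_wordA (v := []) rfl (by rw [el_wordA, this, el_nil])
  rw [hs2] at h3
  exact Bool.noConfusion h3

/-- the signs as the additive group of two elements -/
noncomputable def sgn2 : W7 →* Multiplicative (ZMod 2) :=
  lift7 (fun _ => Multiplicative.ofAdd 1) (liftable_of_rels _ (fun _ => by decide) (fun _ _ _ => rfl)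
    (fun _ _ _ => rfl))

theorem sgn2_eq (w : W7) : sgn2 w = 1 → sign7 w = 1 := by
  let e : Multiplicative (ZMod 2) →* ℤˣ :=
    { toFun := fun x => if x = 1 then 1 else -1
      map_one' := rfl
      map_mul' := by decide }
  have h : e.comp sgn2 = sign7 := H14.Sp6.ext7 fun i => by
    rw [MonoidHom.comp_apply, sgn2, lift7_simple, sign_simple]
    rfl
  intro hw
  rw [← h, MonoidHom.comp_apply, hw, map_one]

end E7

open E7 in
/-- The group is `2 × PSp₆(2)`. -/
theorem spSix : Nonempty ((fixG [] ⊓ Subgroup.centralizer {mem ptA} : Subgroup Fi22) ≃*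
    Multiplicative (ZMod 2) × Cfsg.PSp 3 (ZMod 2)) := by
  haveI := H89.Fi22Type.finite_fi22
  haveI := H14.Sp6.finite_W7
  have hF : Nat.card (ZMod 2) = 2 := by simp
  let Tc : W7 →* (fixG [] ⊓ Subgroup.centralizer {mem ptA} : Subgroup Fi22) := T.codRestrict _ T_mem
  have hTc : Function.Bijective Tc := by
    refine (Nat.bijective_iff_injective_and_card Tc).2 ⟨fun a b h => T_injective (congrArg Subtype.val h), ?_⟩
    rw [fixA_card, H14.Sp6.card_W7]
  let f : W7 →* Multiplicative (ZMod 2) × Cfsg.PSp 3 (ZMod 2) := sgn2.prod (pspHom (ZMod 2))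
  have hf : Function.Bijective f := by
    refine (Nat.bijective_iff_injective_and_card f).2 ⟨?_, ?_⟩
    · rw [← MonoidHom.ker_eq_bot_iff, Subgroup.eq_bot_iff_forall]
      intro w hw
      rw [MonoidHom.mem_ker] at hw
      refine H14.Sp6.eq_one_of_pspHom_eq_one hF ?_ (congrArg Prod.snd hw)
      rw [(H14.Sp6.card_commutator_W7 hF).2, MonoidHom.mem_ker]
      exact sgn2_eq w (congrArg Prod.fst hw)
    · rw [Nat.card_prod, H14.Sp6.card_W7, H14.Sp6.card_psp_two hF]
      simp
  exact ⟨(MulEquiv.ofBijective Tc hTc).symm.trans (MulEquiv.ofBijective f hf)⟩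

end Cfsg.Agent.H50.M22Outer
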