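import Cfsg.Agent.H50.M22Outer.Classes
import Cfsg.Agent.H50.M22Outer.Omega
import Cfsg.Agent.H50.M22Outer.SpSix
import Cfsg.Agent.H50.M22Outer.Elliptic
import Cfsg.Agent.H97.Uniq.M22
import Cfsg.Prelude.Def_MonsterType

/-!
Outer involutions of a group of type M(22) and their fixed subgroups: the model and the transport.
-/

set_option autoImplicit false
set_option maxRecDepth 100000

namespace Cfsg.Agent.H50.M22Outer

open Cfsg.Spor Cfsg.Agent.H16
open Cfsg.Agent.H16.Fi22U (el)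
open Cfsg.Agent.H89.Fi22Type (mem cls)

/-- The statement for a group with a set of transpositions. -/
def Outers (G : Type*) [Group G] (D : Set G) : Prop :=
  ∃ (s : MulAut G) (a b : G) (Cs : Subgroup G), orderOf s = 2 ∧
    s ∉ (MulAut.conj : G →* MulAut G).range ∧ (∀ g : G, g ∈ Cs ↔ s g = g) ∧
    Nonempty (↥Cs ≃* MulAut (Cfsg.Omega (ZMod 2) (Cfsg.quadFormPlus 4 (ZMod 2)))) ∧
    a ∈ D ∧ b ∈ D ∧ a ≠ b ∧ Commute a b ∧ s a = a ∧ s b = b ∧
    (∀ t : MulAut G, orderOf t = 2 → t ∉ (MulAut.conj : G →* MulAut G).range →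
      (IsConj t s ∨ IsConj t (s * MulAut.conj a) ∨ IsConj t (s * MulAut.conj (a * b)))) ∧
    ¬ IsConj s (s * MulAut.conj a) ∧ ¬ IsConj s (s * MulAut.conj (a * b)) ∧
    ¬ IsConj (s * MulAut.conj a) (s * MulAut.conj (a * b)) ∧
    (∀ g : G, (s * MulAut.conj a) g = g ↔ g ∈ Cs ⊓ Subgroup.centralizer ({a} : Set G)) ∧
    Nonempty (↥(Cs ⊓ Subgroup.centralizer ({a} : Set G)) ≃*
      Multiplicative (ZMod 2) × Cfsg.PSp 3 (ZMod 2)) ∧
    ∃ Csab O : Subgroup G, (∀ g : G, g ∈ Csab ↔ (s * MulAut.conj (a * b)) g = g) ∧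
      O = (Cfsg.pCore 2 ↥Csab).map Csab.subtype ∧ Cfsg.IsElementaryAbelian 2 O ∧ Nat.card O = 64 ∧
      ∃ _ : (O.subgroupOf Csab).Normal, Nonempty (↥Csab ⧸ O.subgroupOf Csab ≃*
        Cfsg.isometryGroup (ZMod 2) (Cfsg.quadFormMinus 2 (ZMod 2) 1 1))

/-- the fixed points of an automorphism -/
def fixedBy {G : Type*} [Group G] (t : MulAut G) : Subgroup G :=
  MonoidHom.eqLocus t.toMonoidHom (MonoidHom.id G)

theorem fixedBy_card_conj {G : Type*} [Group G] {t u : MulAut G} (h : IsConj t u) :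
    Nat.card (fixedBy t) = Nat.card (fixedBy u) := by
  obtain ⟨c, rfl⟩ := isConj_iff.1 h
  refine Nat.card_congr
    { toFun := fun g => ⟨c g, ?_⟩
      invFun := fun g => ⟨c⁻¹ g, ?_⟩
      left_inv := fun g => Subtype.ext (MulAut.inv_apply_self G c g)
      right_inv := fun g => Subtype.ext (MulAut.apply_inv_self G c g) }
  · show c (t (c⁻¹ (c g.1))) = c g.1
    rw [MulAut.inv_apply_self]
    exact congrArg c g.2
  · have h : c (t (c⁻¹ g.1)) = g.1 := g.2
    show t (c⁻¹ g.1) = c⁻¹ g.1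
    exact c.injective (h.trans (MulAut.apply_inv_self G c g.1).symm)

theorem tau_a : tau wordA = sigma * MulAut.conj (mem ptA) := by rw [tau, el_wordA]

theorem tau_ab : tau wordAB = sigma * MulAut.conj (mem ptA * mem ptB) := by rw [tau, el_wordAB]

theorem tau_one : tau [] = sigma := by rw [tau, el_nil, map_one, mul_one]

theorem sigma_order : orderOf sigma = 2 := by
  haveI : Fact (Nat.Prime 2) := ⟨Nat.prime_two⟩
  refine orderOf_eq_prime (MulEquiv.ext fun g => ?_) fun h => sigma_not_inner (h ▸ one_mem _)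
  rw [pow_two]
  exact sigma_sigma g

theorem not_conj {c c' : List Nat} (h : Nat.card (fixG c) ≠ Nat.card (fixG c')) :
    ¬ IsConj (tau c) (tau c') := fun e => h (fixedBy_card_conj e)

/-- The model has the required automorphisms. -/
theorem model_outers : Outers Fi22 cls := by
  have hA : Nat.card (fixG wordA) = 2903040 := by rw [fixA_eq]; exact fixA_card
  obtain ⟨O, h⟩ := elliptic fixAB.1 fixAB.2
  refine ⟨sigma, mem ptA, mem ptB, fixG [], sigma_order, sigma_not_inner, fun g => ?_, omega_iso,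
    H89.Fi22Type.mem_cls _, H89.Fi22Type.mem_cls _, a_ne_b, commute_ab,
    by rw [sigma_mem, piP_ptA], by rw [sigma_mem, piP_ptB], fun t h2 ht => ?_, ?_, ?_, ?_,
    fun g => ?_, spSix, fixG wordAB, O, fun g => ?_, h⟩
  · rw [mem_fixG, tau_one]
  · have := classify t h2 ht
    rw [Good, tau_one, tau_a, tau_ab] at this
    exact this
  · rw [← tau_a, ← tau_one]; exact not_conj (by rw [fixS.1, hA]; norm_num)
  · rw [← tau_ab, ← tau_one]; exact not_conj (by rw [fixS.1, fixAB.1]; norm_num)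
  · rw [← tau_a, ← tau_ab]; exact not_conj (by rw [hA, fixAB.1]; norm_num)
  · rw [← tau_a, ← mem_fixG, fixA_eq]
  · rw [← tau_ab, mem_fixG]

/-! ### Transport -/

theorem map_pCore_equiv {X Y : Type*} [Group X] [Group Y] (f : X ≃* Y) :
    (Cfsg.pCore 2 X).map f.toMonoidHom = Cfsg.pCore 2 Y := by
  refine le_antisymm ?_ ?_
  · rw [Cfsg.pCore, sSup_eq_iSup, Subgroup.map_iSup]
    refine iSup_le fun N => ?_
    rw [Subgroup.map_iSup]
    refine iSup_le fun hN => le_sSup ⟨hN.1.map _ f.surjective, hN.2.map _⟩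
  · rw [Cfsg.pCore, sSup_eq_iSup]
    refine iSup_le fun N => iSup_le fun hN => ?_
    refine le_trans ?_ (Subgroup.map_mono (le_sSup (a := N.map f.symm.toMonoidHom)
      ⟨hN.1.map _ f.symm.surjective, hN.2.map _⟩))
    intro y hy
    exact ⟨f.symm y, ⟨y, hy, rfl⟩, f.apply_symm_apply y⟩

theorem elemAbelian_map {H G : Type*} [Group H] [Group G] (e : H ≃* G) {A : Subgroup H}
    (hA : Cfsg.IsElementaryAbelian 2 A) : Cfsg.IsElementaryAbelian 2 (A.map e.toMonoidHom) := by
  refine ⟨⟨⟨fun x y => ?_⟩⟩, fun x hx => ?_⟩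
  · obtain ⟨u, hu, hux⟩ := x.2
    obtain ⟨v, hv, hvy⟩ := y.2
    apply Subtype.ext
    show (x : G) * y = y * x
    rw [← hux, ← hvy, ← map_mul, ← map_mul]
    exact congrArg _ (congrArg Subtype.val (hA.1.is_comm.comm ⟨u, hu⟩ ⟨v, hv⟩))
  · obtain ⟨u, hu, rfl⟩ := hx
    rw [← map_pow, hA.2 u hu, map_one]

theorem range_congr {H G : Type*} [Group H] [Group G] (e : H ≃* G) {t : MulAut H} :
    MulAut.congr e t ∈ (MulAut.conj : G →* MulAut G).range ↔
      t ∈ (MulAut.conj : H →* MulAut H).range := by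
  have key : ∀ h : H, MulAut.congr e (MulAut.conj h) = MulAut.conj (e h) := fun h =>
    MulEquiv.ext fun x => by simp [MulAut.congr]
  constructor
  · rintro ⟨g, hg⟩
    refine ⟨e.symm g, (MulAut.congr e).injective ?_⟩
    rw [key, e.apply_symm_apply, hg]
  · rintro ⟨h, rfl⟩
    exact ⟨e h, (key h).symm⟩

theorem outers_transport {H G : Type*} [Group H] [Group G] (e : H ≃* G) {D₁ : Set H} {D : Set G}
    (he : e '' D₁ = D) (h : Outers H D₁) : Outers G D := by
  obtain ⟨s, a, b, Cs, h1, h2, h3, h4, ha, hb, hne, hab, hsa, hsb, hcl, n1, n2, n3, hfa, hsp,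
    Csab, O, hfab, hO, hE, hc, hN, hq⟩ := h
  subst hO
  let Φ : MulAut H ≃* MulAut G := MulAut.congr e
  have happ : ∀ (t : MulAut H) (g : G), Φ t g = e (t (e.symm g)) := fun t g => rfl
  have hconj : ∀ x : H, Φ (MulAut.conj x) = MulAut.conj (e x) := fun x =>
    MulEquiv.ext fun g => by simp [Φ, MulAut.congr]
  have hfix : ∀ (t : MulAut H) (S : Subgroup H), (∀ g, g ∈ S ↔ t g = g) →
      ∀ g, g ∈ S.map e.toMonoidHom ↔ Φ t g = g := by
    intro t S hS g
    rw [Subgroup.mem_map_equiv, hS, happ, e.eq_symm_apply]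
  have hcent : (Cs ⊓ Subgroup.centralizer ({a} : Set H)).map e.toMonoidHom =
      Cs.map e.toMonoidHom ⊓ Subgroup.centralizer ({e a} : Set G) := by
    ext g
    simp only [Subgroup.mem_map_equiv, Subgroup.mem_inf, Subgroup.mem_centralizer_singleton_iff]
    refine and_congr_right fun _ => ⟨fun hx => ?_, fun hx => ?_⟩
    · have := congrArg e hx
      simpa only [map_mul, e.apply_symm_apply] using this
    · apply e.injective
      simpa only [map_mul, e.apply_symm_apply] using hx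
  refine ⟨Φ s, e a, e b, Cs.map e.toMonoidHom, by rw [MulEquiv.orderOf_eq, h1],
    fun hh => h2 ((range_congr e).1 hh), hfix s Cs h3,
    h4.map fun f => (e.subgroupMap Cs).symm.trans f, he ▸ ⟨a, ha, rfl⟩, he ▸ ⟨b, hb, rfl⟩,
    fun hh => hne (e.injective hh), hab.map e.toMonoidHom,
    by rw [happ, e.symm_apply_apply, hsa], by rw [happ, e.symm_apply_apply, hsb],
    fun t ht2 hti => ?_, ?_, ?_, ?_, fun g => ?_, ?_, ?_⟩
  · rw [← map_mul e, ← hconj, ← hconj, ← map_mul Φ, ← map_mul Φ]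
    obtain ⟨u, rfl⟩ := Φ.surjective t
    rw [MulEquiv.orderOf_eq] at ht2
    rcases hcl u ht2 (fun hh => hti ((range_congr e).2 hh)) with k | k | k
    · exact Or.inl (MonoidHom.map_isConj Φ.toMonoidHom k)
    · exact Or.inr (Or.inl (MonoidHom.map_isConj Φ.toMonoidHom k))
    · exact Or.inr (Or.inr (MonoidHom.map_isConj Φ.toMonoidHom k))
  · rw [← hconj, ← map_mul Φ]
    exact fun k => n1 (by simpa using MonoidHom.map_isConj Φ.symm.toMonoidHom k)
  · rw [← map_mul e, ← hconj, ← map_mul Φ]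
    exact fun k => n2 (by simpa using MonoidHom.map_isConj Φ.symm.toMonoidHom k)
  · rw [← map_mul e, ← hconj, ← hconj, ← map_mul Φ, ← map_mul Φ]
    exact fun k => n3 (by simpa using MonoidHom.map_isConj Φ.symm.toMonoidHom k)
  · rw [← hconj, ← map_mul Φ, ← hcent]
    exact (hfix (s * MulAut.conj a) _ (fun x => (hfa x).symm) g).symm
  · rw [← hcent]
    exact hsp.map fun f => (e.subgroupMap _).symm.trans f
  · let f : ↥Csab ≃* ↥(Csab.map e.toMonoidHom) := e.subgroupMap Csab
    set O' := ((Cfsg.pCore 2 ↥Csab).map Csab.subtype).map e.toMonoidHom with hO'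
    refine ⟨Csab.map e.toMonoidHom, O', ?_, ?_, ?_, ?_, ?_⟩
    · rw [← map_mul e, ← hconj, ← map_mul Φ]
      exact hfix _ _ hfab
    · rw [hO', ← map_pCore_equiv f, Subgroup.map_map, Subgroup.map_map]
      rfl
    · exact elemAbelian_map e hE
    · rw [hO']
      exact (Nat.card_congr (e.subgroupMap _).toEquiv).symm.trans hc
    · have hmap : ((((Cfsg.pCore 2 ↥Csab).map Csab.subtype)).subgroupOf Csab).map f.toMonoidHom =
          O'.subgroupOf (Csab.map e.toMonoidHom) := by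
        ext ⟨y, hy⟩
        rw [Subgroup.mem_map_equiv, Subgroup.mem_subgroupOf, Subgroup.mem_subgroupOf, hO',
          Subgroup.mem_map_equiv]
        rfl
      have hN' : (O'.subgroupOf (Csab.map e.toMonoidHom)).Normal := hmap ▸ hN.map _ f.surjective
      exact ⟨hN', hq.map fun q => (QuotientGroup.congr _ _ f hmap).symm.trans q⟩

theorem outers_of_type {G : Type*} [Group G] [Finite G] {D : Set G}
    (hD : Cfsg.IsThreeTranspositionGroup D) (hprim : Cfsg.IsPrimitiveUnderConj D)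
    (h22 : Cfsg.IsOfTypeM22 G D) : Outers G D := by
  haveI := H89.Fi22Type.finite_fi22
  obtain ⟨a, ha, -⟩ := hprim.2.1
  obtain ⟨e, he, -⟩ := H97.Uniq.m22_exists_equiv
    (H17.class_group H89.Fi22Type.cls_class) H89.Fi22Type.primitive H89.Fi22Type.center_bot
    H89.Fi22Type.isOfTypeM22 hD hprim h22.1 h22 (H89.Fi22Type.mem_cls H89.Fi22Type.o) ha
  exact outers_transport e he model_outers

end Cfsg.Agent.H50.M22Outer
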