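import Cfsg.Agent.H50.M22Outer.Engine
import Cfsg.Agent.H50.M22Outer.SylowData

/-!
A Sylow 2-subgroup of Fi22 invariant under the diagram symmetry, given by a polycyclic sequence,
and the fact that the symmetry is not inner.
-/

set_option autoImplicit false
set_option maxRecDepth 100000

namespace Cfsg.Agent.H50.M22Outer

open Cfsg.Spor Cfsg.Agent.H16 EnumData
open Cfsg.Agent.H16.Fi22U (el)
open Cfsg.Agent.H89.Fi22Type (mem)

theorem beqT {a b : Nat} (h : a = b) : Nat.beq a b = true := h ▸ Nat.beq_refl a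

/-- the word of a polycyclic generator -/
def pw (i : Nat) : List Nat := pcWord.getD i []

/-- a polycyclic generator -/
noncomputable def pc (i : Nat) : Fi22 := el (pw i)

/-- a point of the small action -/
noncomputable def qN (v : Nat) : Nat := qArr.get 12 v

/-- the symmetry on the small action -/
noncomputable def qp (v : Nat) : Nat := qPi.get 9 v

/-- a generator on the small action -/
noncomputable def tq (i v : Nat) : Nat := (pcTab.getD i (PArr.leaf 0, PArr.leaf 0)).1.get 9 v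

/-- an inverse generator on the small action -/
noncomputable def tqi (i v : Nat) : Nat := (pcTab.getD i (PArr.leaf 0, PArr.leaf 0)).2.get 9 v

/-- a word of a normal form -/
noncomputable def wd : Nat → Nat → Nat → List Nat
  | 0, _, _ => []
  | k + 1, i, x => wd k (i + 1) (x / 2) ++ cond (Nat.beq (x % 2) 1) (pw i) []

/-- a normal form on the small action -/
noncomputable def apA : Nat → Nat → Nat → Nat → Nat
  | 0, _, _, v => v
  | k + 1, i, x, v => forceNat (x / 2) fun y => forceNat (apA k (i + 1) y v) fun u =>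
      cond (Nat.beq (x % 2) 1) (tq i u) u

/-- the check of the tables -/
theorem table_check : allFrom (fun i => okW (pw i)) 17 0 = true ∧
    allFrom (fun v => forceNat (qN v) fun p => Nat.ble (p + 1) 3510 &&
      Nat.beq (piN p) (qN (qp v)) && Nat.ble (qp v + 1) 438 &&
      allFrom (fun i => forceNat (tq i v) fun u => forceNat (tqi i v) fun w =>
        Nat.ble (u + 1) 438 && Nat.ble (w + 1) 438 && Nat.beq (run (pw i) p) (qN u) &&
          Nat.beq (tq i w) v) 17 0) 438 0 = true := by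
  decide +kernel

theorem okW_pw (i : Nat) : okW (pw i) = true := by
  by_cases hi : i < 17
  · exact allFrom_spec table_check.1 i (Nat.zero_le i) (by omega)
  · have : pcWord.length = 17 := by decide
    rw [pw, List.getD_eq_default _ _ (by omega)]
    rfl

theorem table_spec {v : Nat} (hv : v < 438) :
    qN v < Fi22H.data.n ∧ piN (qN v) = qN (qp v) ∧ qp v < 438 ∧
    ∀ i < 17, tq i v < 438 ∧ tqi i v < 438 ∧ run (pw i) (qN v) = qN (tq i v) ∧ tq i (tqi i v) = v := by
  have h := allFrom_spec table_check.2 v (Nat.zero_le v) (by omega)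
  simp only [forceNat_eq, Bool.and_eq_true] at h
  refine ⟨lt_of_lt_of_eq (Nat.le_of_ble_eq_true h.1.1.1) n_eq.symm, Nat.eq_of_beq_eq_true h.1.1.2,
    Nat.le_of_ble_eq_true h.1.2, fun i hi => ?_⟩
  have h' := allFrom_spec h.2 i (Nat.zero_le i) (by omega)
  simp only [forceNat_eq, Bool.and_eq_true] at h'
  exact ⟨Nat.le_of_ble_eq_true h'.1.1.1, Nat.le_of_ble_eq_true h'.1.1.2,
    Nat.eq_of_beq_eq_true h'.1.2, Nat.eq_of_beq_eq_true h'.2⟩

/-- a point of the small action as a point -/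
noncomputable def qPt {v : Nat} (hv : v < 438) : Pt := ⟨qN v, (table_spec hv).1⟩

theorem piP_qPt {v : Nat} (hv : v < 438) : piP (qPt hv) = qPt (table_spec hv).2.2.1 :=
  Fin.ext (table_spec hv).2.1

theorem act_pc {i v : Nat} (hi : i < 17) (hv : v < 438) :
    Fi22U.act (pc i) (qPt hv) = qPt ((table_spec hv).2.2.2 i hi).1 :=
  Fin.ext ((act_val (okW_pw i) _).trans ((table_spec hv).2.2.2 i hi).2.2.1)

theorem act_pc_inv {i v : Nat} (hi : i < 17) (hv : v < 438) :
    Fi22U.act (pc i)⁻¹ (qPt hv) = qPt ((table_spec hv).2.2.2 i hi).2.1 := by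
  rw [map_inv, Equiv.Perm.inv_eq_iff_eq, act_pc hi]
  exact Fin.ext (congrArg qN ((table_spec hv).2.2.2 i hi).2.2.2.symm)

theorem okW_wd : ∀ k i x, okW (wd k i x) = true
  | 0, _, _ => rfl
  | k + 1, i, x => by
    rw [wd]
    refine okW_append.2 ⟨okW_wd k _ _, ?_⟩
    cases Nat.beq (x % 2) 1
    · rfl
    · exact okW_pw i

theorem el_wd_succ (k i x : Nat) : el (wd (k + 1) i x) =
    (if x % 2 = 1 then pc i else 1) * el (wd k (i + 1) (x / 2)) := by
  rw [wd, el_append]
  by_cases h : x % 2 = 1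
  · rw [if_pos h, beqT h]; rfl
  · rw [if_neg h]
    have : Nat.beq (x % 2) 1 = false := by
      cases e : Nat.beq (x % 2) 1
      · rfl
      · exact absurd (Nat.eq_of_beq_eq_true e) h
    rw [this]; rfl

theorem apA_succ (k i x v : Nat) : apA (k + 1) i x v =
    if x % 2 = 1 then tq i (apA k (i + 1) (x / 2) v) else apA k (i + 1) (x / 2) v := by
  rw [apA, forceNat_eq, forceNat_eq]
  by_cases h : x % 2 = 1
  · rw [if_pos h, beqT h]; rfl
  · rw [if_neg h]
    have : Nat.beq (x % 2) 1 = false := by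
      cases e : Nat.beq (x % 2) 1
      · rfl
      · exact absurd (Nat.eq_of_beq_eq_true e) h
    rw [this]; rfl

theorem apA_spec : ∀ k i x, i + k = 17 → ∀ v, ∀ hv : v < 438,
    ∃ h : apA k i x v < 438, Fi22U.act (el (wd k i x)) (qPt hv) = qPt h
  | 0, i, x, _, v, hv => ⟨hv, by simp [wd, apA, el_nil]⟩
  | k + 1, i, x, hk, v, hv => by
    obtain ⟨h, e⟩ := apA_spec k (i + 1) (x / 2) (by omega) v hv
    have hi : i < 17 := by omega
    by_cases hx : x % 2 = 1
    · refine ⟨by rw [apA_succ, if_pos hx]; exact ((table_spec h).2.2.2 i hi).1, ?_⟩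
      rw [el_wd_succ, if_pos hx, map_mul, Equiv.Perm.mul_apply, e, act_pc hi]
      exact Fin.ext (congrArg qN (by rw [apA_succ, if_pos hx]))
    · refine ⟨by rw [apA_succ, if_neg hx]; exact h, ?_⟩
      rw [el_wd_succ, if_neg hx, one_mul, e]
      exact Fin.ext (congrArg qN (by rw [apA_succ, if_neg hx]))

/-- the element of digits -/
noncomputable def nf (x : Nat) : Fi22 := el (wd 17 0 x)

/-- the action of digits -/
noncomputable def ap (x v : Nat) : Nat := apA 17 0 x v

attribute [local irreducible] wd apA qN tq qp in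
theorem ap_spec (x : Nat) {v : Nat} (hv : v < 438) :
    ∃ h : ap x v < 438, Fi22U.act (nf x) (qPt hv) = qPt h := by
  have key : ∀ k, k = 17 → ∃ h : apA k 0 x v < 438, Fi22U.act (el (wd k 0 x)) (qPt hv) = qPt h :=
    fun k hk => apA_spec k 0 x (by omega) v hv
  exact key 17 rfl

/-- the terms of the series -/
noncomputable def Ts (i : Nat) : Subgroup Fi22 :=
  Subgroup.closure {g | ∃ j, i ≤ j ∧ j < 17 ∧ pc j = g}

theorem pc_mem {i j : Nat} (h : i ≤ j) (hj : j < 17) : pc j ∈ Ts i :=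
  Subgroup.subset_closure ⟨j, h, hj, rfl⟩

theorem Ts_anti {i j : Nat} (h : i ≤ j) : Ts j ≤ Ts i := by
  refine (Subgroup.closure_le _).2 ?_
  rintro _ ⟨l, hl, hl', rfl⟩
  exact pc_mem (h.trans hl) hl'

theorem Ts_last : Ts 17 = ⊥ := by
  rw [eq_bot_iff]
  refine (Subgroup.closure_le _).2 ?_
  rintro _ ⟨l, hl, hl', rfl⟩
  omega

theorem el_wd_mem : ∀ k i x, i + k ≤ 17 → el (wd k i x) ∈ Ts i
  | 0, i, x, _ => by rw [wd, el_nil]; exact one_mem _
  | k + 1, i, x, hk => by
    rw [el_wd_succ]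
    refine mul_mem ?_ (Ts_anti (Nat.le_succ i) (el_wd_mem k (i + 1) (x / 2) (by omega)))
    split
    · exact pc_mem le_rfl (by omega)
    · exact one_mem _

theorem rel_check : ((relList.all fun r => Nat.ble (r.1 + 1) 17 &&
      cond (Nat.beq r.1 r.2.1) (sameW (pw r.1 ++ pw r.1) (wd (16 - r.1) (r.1 + 1) (r.2.2 / 2 ^ (r.1 + 1))))
        (sameW ((pw r.1).reverse ++ pw r.2.1 ++ pw r.1)
          (wd (16 - r.1) (r.1 + 1) (r.2.2 / 2 ^ (r.1 + 1)))))) = true ∧
    ((List.range 17).all fun i => (List.range (17 - i)).all fun k =>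
      relList.any fun r => Nat.beq r.1 i && Nat.beq r.2.1 (i + k)) = true := by
  decide +kernel

theorem rel_spec {i j : Nat} (hij : i ≤ j) (hj : j < 17) :
    (i = j → pc i * pc i ∈ Ts (i + 1)) ∧ (i ≠ j → pc i * pc j * (pc i)⁻¹ ∈ Ts (i + 1)) := by
  have h := List.all_eq_true.1 (List.all_eq_true.1 rel_check.2 i (List.mem_range.2 (by omega))) (j - i)
    (List.mem_range.2 (by omega))
  obtain ⟨r, hr, hr'⟩ := List.any_eq_true.1 h
  rw [Bool.and_eq_true, Nat.beq_eq, Nat.beq_eq, Nat.add_sub_cancel' hij] at hr'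
  obtain ⟨r1, r2⟩ := hr'
  have h' := List.all_eq_true.1 rel_check.1 r hr
  rw [Bool.and_eq_true, r1, r2] at h'
  have hm : el (wd (16 - i) (i + 1) (r.2.2 / 2 ^ (i + 1))) ∈ Ts (i + 1) :=
    el_wd_mem _ _ _ (by omega)
  constructor <;> intro he
  · subst he
    rw [Nat.beq_refl] at h'
    have e := el_eq (okW_append.2 ⟨okW_pw i, okW_pw i⟩) (okW_wd _ _ _) h'.2
    rw [el_append] at e
    rw [pc, e]; exact hm
  · have : Nat.beq i j = false := by
      cases e : Nat.beq i j
      · rfl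
      · exact absurd (Nat.eq_of_beq_eq_true e) he
    rw [this] at h'
    have e := el_eq (okW_append.2 ⟨okW_append.2 ⟨okW_reverse.trans (okW_pw i), okW_pw j⟩, okW_pw i⟩)
      (okW_wd _ _ _) h'.2
    rw [el_append, el_append, el_reverse, ← mul_assoc] at e
    rw [pc, pc, e]; exact hm

theorem conj_mem {i : Nat} (hi : i < 17) {g : Fi22} (hg : g ∈ Ts (i + 1)) :
    pc i * g * (pc i)⁻¹ ∈ Ts (i + 1) ∧ (pc i)⁻¹ * g * pc i ∈ Ts (i + 1) := by
  have key : ∀ g ∈ Ts (i + 1), pc i * g * (pc i)⁻¹ ∈ Ts (i + 1) := by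
    intro g hg
    induction hg using Subgroup.closure_induction with
    | one => simpa using one_mem _
    | mem x hx =>
      obtain ⟨j, hj, hj', rfl⟩ := hx
      exact (rel_spec (by omega) hj').2 (by omega)
    | mul x y _ _ hx hy =>
      have : pc i * (x * y) * (pc i)⁻¹ = (pc i * x * (pc i)⁻¹) * (pc i * y * (pc i)⁻¹) := by group
      rw [this]; exact mul_mem hx hy
    | inv x _ hx =>
      have : pc i * x⁻¹ * (pc i)⁻¹ = (pc i * x * (pc i)⁻¹)⁻¹ := by group
      rw [this]; exact inv_mem hx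
  have hsq := (rel_spec (le_refl i) hi).1 rfl
  refine ⟨key g hg, ?_⟩
  have : (pc i)⁻¹ * g * pc i = pc i * ((pc i * pc i)⁻¹ * g * (pc i * pc i)) * (pc i)⁻¹ := by group
  rw [this]
  exact key _ (mul_mem (mul_mem (inv_mem hsq) hg) hsq)

theorem Ts_step {i : Nat} (hi : i < 17) {g : Fi22} (hg : g ∈ Ts i) :
    g ∈ Ts (i + 1) ∨ (pc i)⁻¹ * g ∈ Ts (i + 1) := by
  have hsq := (rel_spec (le_refl i) hi).1 rfl
  induction hg using Subgroup.closure_induction with
  | one => exact Or.inl (one_mem _)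
  | mem x hx =>
    obtain ⟨j, hj, hj', rfl⟩ := hx
    rcases eq_or_lt_of_le hj with rfl | h
    · exact Or.inr (by rw [inv_mul_cancel]; exact one_mem _)
    · exact Or.inl (pc_mem (Nat.succ_le_of_lt h) hj')
  | mul x y _ _ hx hy =>
    rcases hx with hx | hx <;> rcases hy with hy | hy
    · exact Or.inl (mul_mem hx hy)
    · refine Or.inr ?_
      have : (pc i)⁻¹ * (x * y) = ((pc i)⁻¹ * x * pc i) * ((pc i)⁻¹ * y) := by group
      rw [this]; exact mul_mem (conj_mem hi hx).2 hy
    · refine Or.inr ?_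
      rw [← mul_assoc]; exact mul_mem hx hy
    · refine Or.inl ?_
      have : x * y = pc i * pc i * ((pc i)⁻¹ * ((pc i)⁻¹ * x) * pc i) * ((pc i)⁻¹ * y) := by group
      rw [this]; exact mul_mem (mul_mem hsq (conj_mem hi hx).2) hy
  | inv x _ hx =>
    rcases hx with hx | hx
    · exact Or.inl (inv_mem hx)
    · refine Or.inr ?_
      have : (pc i)⁻¹ * x⁻¹ =
          ((pc i)⁻¹ * ((pc i)⁻¹ * x)⁻¹ * pc i) * (pc i * pc i)⁻¹ := by group
      rw [this]; exact mul_mem (conj_mem hi (inv_mem hx)).2 (inv_mem hsq)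

theorem exists_nf : ∀ k i, i + k = 17 → ∀ g ∈ Ts i, ∃ x < 2 ^ k, el (wd k i x) = g
  | 0, i, hi, g, hg => by
    obtain rfl : i = 17 := by omega
    rw [Ts_last, Subgroup.mem_bot] at hg
    exact ⟨0, by simp, by rw [hg]; rfl⟩
  | k + 1, i, hi, g, hg => by
    rcases Ts_step (i := i) (by omega) hg with h | h
    · obtain ⟨y, hy, e⟩ := exists_nf k (i + 1) (by omega) g h
      refine ⟨2 * y, by rw [pow_succ]; omega, ?_⟩
      rw [el_wd_succ, if_neg (by omega), one_mul, show 2 * y / 2 = y by omega, e]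
    · obtain ⟨y, hy, e⟩ := exists_nf k (i + 1) (by omega) _ h
      refine ⟨2 * y + 1, by rw [pow_succ]; omega, ?_⟩
      rw [el_wd_succ, if_pos (by omega), show (2 * y + 1) / 2 = y by omega, e, mul_inv_cancel_left]

/-! ### Probes -/

/-- the probe of a level -/
def probe (i : Nat) : Nat := (probeList.getD i (0, [])).1

/-- the orbit of a probe -/
def probeOrb (i : Nat) : List Nat := (probeList.getD i (0, [])).2

theorem probe_check : allFrom (fun i => Nat.ble (probe i + 1) 438 &&
    ((probeOrb i).all fun z => Nat.ble (z + 1) 438 &&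
      allFrom (fun j => (probeOrb i).any fun w => Nat.beq (tq j z) w) (16 - i) (i + 1)) &&
    ((probeOrb i).any fun z => Nat.beq z (probe i)) &&
    !((probeOrb i).any fun z => Nat.beq (qN z) (qN (tqi i (probe i))))) 17 0 = true := by
  decide +kernel

theorem probe_lt {i : Nat} (hi : i < 17) : probe i < 438 := by
  have h := allFrom_spec probe_check i (Nat.zero_le _) (by omega)
  simp only [Bool.and_eq_true] at h
  exact Nat.le_of_ble_eq_true h.1.1.1

theorem probe_move {i : Nat} (hi : i < 17) {g : Fi22} (h : (pc i)⁻¹ * g ∈ Ts (i + 1))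
    (hfix : Fi22U.act g (qPt (probe_lt hi)) = qPt (probe_lt hi)) : False := by
  have hc := allFrom_spec probe_check i (Nat.zero_le _) (by omega)
  simp only [Bool.and_eq_true, List.all_eq_true, Bool.not_eq_true'] at hc
  obtain ⟨⟨⟨-, hO⟩, hP⟩, hno⟩ := hc
  let O : Set Pt := {p | ∃ z ∈ probeOrb i, (p : Nat) = qN z}
  have hstep : ∀ j, i + 1 ≤ j → j < 17 → ∀ p ∈ O, Fi22U.act (pc j) p ∈ O := by
    rintro j h1 h2 p ⟨z, hz, hp⟩
    have hz' := Nat.le_of_ble_eq_true (hO z hz).1
    obtain ⟨w, hw, hw'⟩ := List.any_eq_true.1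
      (allFrom_spec (hO z hz).2 j h1 (by omega))
    refine ⟨w, hw, ?_⟩
    obtain rfl : p = qPt hz' := Fin.ext hp
    rw [act_pc h2 hz', ← Nat.eq_of_beq_eq_true hw']
    rfl
  have hinv : ∀ x ∈ Ts (i + 1), ∀ p ∈ O, Fi22U.act x p ∈ O := by
    haveI := H89.Fi22Type.finite_fi22
    intro x hx
    have hx' : x ∈ Submonoid.closure {g | ∃ j, i + 1 ≤ j ∧ j < 17 ∧ pc j = g} := by
      rw [← Subgroup.closure_toSubmonoid_of_finite]; exact hx
    clear hx
    induction hx' using Submonoid.closure_induction with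
    | one => intro p hp; simpa using hp
    | mem x hx =>
      obtain ⟨j, h1, h2, rfl⟩ := hx
      exact hstep j h1 h2
    | mul x y _ _ hx hy =>
      intro p hp
      rw [map_mul, Equiv.Perm.mul_apply]
      exact hx _ (hy p hp)
  obtain ⟨z, hz, hz'⟩ := List.any_eq_true.1 hP
  obtain ⟨w, hw, hw'⟩ := hinv _ h (qPt (probe_lt hi))
    ⟨z, hz, by rw [Nat.eq_of_beq_eq_true hz']; rfl⟩
  rw [map_mul, Equiv.Perm.mul_apply, hfix, act_pc_inv hi] at hw'
  have : ((probeOrb i).any fun z => Nat.beq (qN z) (qN (tqi i (probe i)))) = true :=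
    List.any_eq_true.2 ⟨w, hw, beqT hw'.symm⟩
  rw [this] at hno
  exact Bool.noConfusion hno

theorem mem_next {i : Nat} (hi : i < 17) {g : Fi22} (hg : g ∈ Ts i)
    (hfix : Fi22U.act g (qPt (probe_lt hi)) = qPt (probe_lt hi)) : g ∈ Ts (i + 1) :=
  (Ts_step hi hg).resolve_right fun h => probe_move hi h hfix

theorem eq_one_of_probes {g : Fi22} (hg : g ∈ Ts 0)
    (h : ∀ i, ∀ hi : i < 17, Fi22U.act g (qPt (probe_lt hi)) = qPt (probe_lt hi)) : g = 1 := by
  have : ∀ i, i ≤ 17 → g ∈ Ts i := by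
    intro i
    induction i with
    | zero => exact fun _ => hg
    | succ i ih => exact fun hi => mem_next (by omega) (ih (by omega)) (h i (by omega))
  have h17 := this 17 le_rfl
  rwa [Ts_last, Subgroup.mem_bot] at h17

theorem eq_of_probes {g g' : Fi22} (hg : g ∈ Ts 0) (hg' : g' ∈ Ts 0)
    (h : ∀ i, ∀ hi : i < 17,
      Fi22U.act g (qPt (probe_lt hi)) = Fi22U.act g' (qPt (probe_lt hi))) : g = g' := by
  refine (inv_mul_eq_one.1 (eq_one_of_probes (mul_mem (inv_mem hg) hg') fun i hi => ?_))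
  rw [map_mul, map_inv, Equiv.Perm.mul_apply, ← h i hi, Equiv.Perm.coe_inv, Equiv.symm_apply_apply]

theorem nf_mem (x : Nat) : nf x ∈ Ts 0 := el_wd_mem 17 0 x le_rfl

theorem card_Ts : ∀ k i, i + k = 17 → Nat.card (Ts i) = 2 ^ k
  | 0, i, hi => by
    obtain rfl : i = 17 := by omega
    rw [Ts_last, Subgroup.card_bot, pow_zero]
  | k + 1, i, hi => by
    have hi' : i < 17 := by omega
    have hnot : pc i ∉ Ts (i + 1) := fun hmem =>
      probe_move hi' (g := 1) (by rw [mul_one]; exact inv_mem hmem) (by simp)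
    let f : Bool × Ts (i + 1) → Ts i := fun z =>
      ⟨cond z.1 (pc i) 1 * z.2, mul_mem
        (by cases z.1; exacts [one_mem _, pc_mem le_rfl hi']) (Ts_anti (Nat.le_succ i) z.2.2)⟩
    have hf : Function.Bijective f := by
      constructor
      · rintro ⟨a, x⟩ ⟨b, y⟩ e
        have e' : cond a (pc i) 1 * (x : Fi22) = cond b (pc i) 1 * y := congrArg Subtype.val e
        cases a <;> cases b <;> simp only [cond_true, cond_false, one_mul] at e'
        · rw [Subtype.ext e']
        · exact absurd (by rw [eq_mul_inv_of_mul_eq e'.symm]; exact mul_mem x.2 (inv_mem y.2)) hnot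
        · exact absurd (by rw [eq_mul_inv_of_mul_eq e']; exact mul_mem y.2 (inv_mem x.2)) hnot
        · rw [Subtype.ext (mul_left_cancel e')]
      · rintro ⟨g, hg⟩
        rcases Ts_step hi' hg with h | h
        · exact ⟨(false, ⟨g, h⟩), Subtype.ext (one_mul g)⟩
        · exact ⟨(true, ⟨_, h⟩), Subtype.ext (mul_inv_cancel_left _ _)⟩
    rw [← Nat.card_congr (Equiv.ofBijective f hf), Nat.card_prod, card_Ts k (i + 1) (by omega),
      Nat.card_eq_fintype_card, Fintype.card_bool, pow_succ']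

theorem sig_check : allFrom (fun i => sameW (sw (pw i)) (wd 17 0 (sigList.getD i 0))) 17 0 = true := by
  decide +kernel

theorem sigma_Ts {g : Fi22} (hg : g ∈ Ts 0) : sigma g ∈ Ts 0 := by
  induction hg using Subgroup.closure_induction with
  | one => rw [map_one]; exact one_mem _
  | mem x hx =>
    obtain ⟨j, -, hj, rfl⟩ := hx
    rw [pc, sigma_el (okW_pw j), el_eq (okW_sw (okW_pw j)) (okW_wd _ _ _)
      (allFrom_spec sig_check j (Nat.zero_le _) (by omega))]
    exact nf_mem _
  | mul x y _ _ hx hy => rw [map_mul]; exact mul_mem hx hy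
  | inv x _ hx => rw [map_inv]; exact inv_mem hx

theorem cand_check : Nat.ble (sigCand.2 + 1) 438 = true ∧
    allFrom (fun i => Nat.beq (qN (qp (probe i))) (qN (ap sigCand.1 (probe i)))) 17 0 = true ∧
    Nat.beq (qN (qp sigCand.2)) (qN (ap sigCand.1 sigCand.2)) = false := by
  decide +kernel

/-- The symmetry is not inner. -/
theorem sigma_not_inner : sigma ∉ (MulAut.conj : Fi22 →* MulAut Fi22).range := by
  rintro ⟨g, hg⟩
  haveI := H89.Fi22Type.finite_fi22
  haveI : Fact (Nat.Prime 2) := ⟨Nat.prime_two⟩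
  have hap : ∀ x, g * x * g⁻¹ = sigma x := fun x => by rw [← hg]; rfl
  have hact : Fi22U.act g = piP := Equiv.ext fun i => H89.Fi22Type.mem_inj (by
    rw [← H89.Fi22Type.mem_rho, hap, sigma_mem])
  have hsq : g * g = 1 := by
    apply act_injective
    rw [map_mul, map_one, hact]
    exact Equiv.ext fun i => piP_piP i
  have hn : g ∈ Subgroup.normalizer (Ts 0 : Set Fi22) := by
    rw [Subgroup.mem_normalizer_iff]
    intro x
    refine ⟨fun hx => by rw [hap]; exact sigma_Ts hx, fun hx => ?_⟩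
    rw [hap] at hx
    have := sigma_Ts hx
    rwa [sigma_sigma] at this
  have hP : IsPGroup 2 (Subgroup.zpowers g ⊔ Ts 0 : Subgroup Fi22) := by
    refine IsPGroup.to_sup_of_normal_right' ?_ ?_ ((Subgroup.zpowers_le).2 hn)
    · rintro ⟨x, hx⟩
      refine ⟨1, Subtype.ext ?_⟩
      obtain ⟨m, rfl⟩ := Subgroup.mem_zpowers_iff.1 hx
      show (g ^ m) ^ (2 ^ 1) = 1
      have h2 : g ^ (2 : ℕ) = 1 := by rw [pow_two]; exact hsq
      rw [pow_one, ← zpow_natCast, ← zpow_mul, mul_comm, zpow_mul, zpow_natCast, h2, one_zpow]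
    · exact IsPGroup.of_card (n := 17) (card_Ts 17 0 rfl)
  obtain ⟨m, hm⟩ := (IsPGroup.iff_card).1 hP
  have hdvd : 2 ^ m ∣ 64561751654400 := by
    rw [← hm, ← Fi22Order.card_and_faithful.1]
    exact Subgroup.card_subgroup_dvd_card _
  have hm17 : m ≤ 17 := by
    by_contra hc
    have : (2 : ℕ) ^ 18 ∣ 64561751654400 := (Nat.pow_dvd_pow 2 (by omega)).trans hdvd
    norm_num at this
  have hle : Ts 0 ≤ Subgroup.zpowers g ⊔ Ts 0 := le_sup_right
  have heq := Subgroup.eq_of_le_of_card_ge hle (by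
    rw [hm, card_Ts 17 0 rfl]; exact Nat.pow_le_pow_right (by norm_num) hm17)
  have hgT : g ∈ Ts 0 := by
    rw [heq]; exact Subgroup.mem_sup_left (Subgroup.mem_zpowers g)
  obtain ⟨h1, h2, h3⟩ := cand_check
  have heq2 : g = nf sigCand.1 := eq_of_probes hgT (nf_mem _) fun i hi => by
    obtain ⟨h, e⟩ := ap_spec sigCand.1 (probe_lt hi)
    rw [hact, e, piP_qPt]
    exact Fin.ext (Nat.eq_of_beq_eq_true (allFrom_spec h2 i (Nat.zero_le _) (by omega)))
  obtain ⟨h, e⟩ := ap_spec sigCand.1 (Nat.le_of_ble_eq_true h1 : sigCand.2 < 438)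
  rw [← heq2, hact, piP_qPt] at e
  have := congrArg Fin.val e
  simp only [qPt] at this
  rw [this, Nat.beq_refl] at h3
  exact Bool.noConfusion h3

end Cfsg.Agent.H50.M22Outer
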